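import Cfsg.Agent.H19.Gr1
import Cfsg.Agent.H11.ED2

/-! Cyclic endomorphisms `Cy z k` (cyclic vector, characteristic polynomial `k`): `Cy.sim`, extensions (`cy_ext`), simultaneous gluing
(`C.glue`), pole placement (`feedback`). -/

set_option autoImplicit false
set_option linter.unusedSectionVars false

namespace H19.Cm
open Module Polynomial H11 H19.Gr
open Submodule hiding map_smul
open LinearMap (ker range)
open scoped Classical

variable {F U V W : Type*} [Field F] [Finite F] [AddCommGroup U] [Module F U] [Finite U] [AddCommGroup V] [Module F V] [Finite V]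
  [AddCommGroup W] [Module F W] [Finite W] {g z : End F V} {g' z' : End F W} {h h' k k' : F[X]} {v : V}

instance finBlk (P : F[X]) : Finite (Blk P) := Module.finite_of_finite F

/-- cyclic with given characteristic polynomial -/
def Cy (z : End F V) (k : F[X]) : Prop := (∃ v, range (ev z v) = ⊤) ∧ z.charpoly = k

theorem Cy.monic (c : Cy z k) : k.Monic := c.2 ▸ z.charpoly_monic

theorem Cy.sim (c : Cy z k) (c' : Cy z' k) : Sim z z' := by
  obtain ⟨⟨v, hv⟩, e⟩ := c
  obtain ⟨⟨v', hv'⟩, e'⟩ := c'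
  have k : ker (ev z v) = ker (ev z' v') := by ext p; simp [ev_eq_zero_top, *]
  let t := ((ev z v).quotKerEquivOfSurjective (LinearMap.range_eq_top.1 hv)).symm ≪≫ₗ quotEquivOfEq _ _ k ≪≫ₗ
    (ev z' v').quotKerEquivOfSurjective (LinearMap.range_eq_top.1 hv')
  have a (p) : t (ev z v p) = ev z' v' p := by simp [t]
  refine ⟨t, fun x => ?_⟩
  obtain ⟨p, rfl⟩ := hv.ge (mem_top (x := x))
  rw [g_ev, a, a, g_ev]

theorem Cy.of_sim (c : Cy z k) (s : Sim z z') : Cy z' k := by
  obtain ⟨⟨v, hv⟩, rfl⟩ := c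
  refine ⟨?_, s.charpoly.symm⟩
  obtain ⟨e, he⟩ := s
  refine ⟨e v, eq_top_iff.2 fun x _ => ?_⟩
  obtain ⟨p, hp⟩ := hv.ge (mem_top (x := e.symm x))
  exact ⟨p, (aeval_intertwine (e := e.toLinearMap) he p v).symm.trans (e.eq_symm_apply.1 hp)⟩

theorem cy_blk (hk : k.Monic) : Cy (xmul F (Blk k)) k :=
  ⟨⟨Ideal.Quotient.mk _ 1, eq_top_iff.2 fun x _ => by
    obtain ⟨p, rfl⟩ := Ideal.Quotient.mk_surjective x
    exact ⟨p, (aeval_blk_mk k p 1).trans (by rw [mul_one])⟩⟩, charpoly_blk hk⟩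

theorem gen_of (H : ∀ Y : Submodule F V, v ∈ Y → Inv z Y → Y = ⊤) : range (ev z v) = ⊤ := H _ ⟨1, by simp [ev_apply]⟩ (inv_cyc v)

theorem top_of_gen (hv : range (ev z v) = ⊤) {Y : Submodule F V} (a : v ∈ Y) (b : Inv z Y) : Y = ⊤ :=
  top_le_iff.1 (hv.ge.trans (by rintro _ ⟨p, rfl⟩; exact aeval_apply_smul_mem_of_le_comap a p z b))

theorem cy_of_gen (hv : range (ev z v) = ⊤) (hk : k.Monic) (d : k.natDegree = finrank F V) (e : ev z v k = 0) : Cy z k :=
  ⟨⟨v, hv⟩, (eq_of_monic_of_dvd_of_natDegree_le z.charpoly_monic hk ((ev_eq_zero_top hv).1 e) (by rw [d, z.charpoly_natDegree])).symm⟩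

theorem Cy.prodMap (c : Cy z k) (c' : Cy z' k') (p : IsCoprime k k') : Cy (z.prodMap z') (k * k') := by
  obtain ⟨⟨v, hv⟩, rfl⟩ := c
  obtain ⟨⟨v', hv'⟩, rfl⟩ := c'
  obtain ⟨a, b, e⟩ := p
  refine ⟨⟨(v, v'), eq_top_iff.2 fun x _ => ?_⟩, LinearMap.charpoly_prodMap _ _⟩
  obtain ⟨p, hp⟩ := hv.ge (mem_top (x := x.1))
  obtain ⟨p', hp'⟩ := hv'.ge (mem_top (x := x.2))
  refine ⟨p * (b * z'.charpoly) + p' * (a * z.charpoly), ?_⟩
  rw [ev_apply, aeval_prodMap]
  refine Prod.ext (.trans ?_ hp) (.trans ?_ hp') <;> simp only [LinearMap.prodMap_apply] <;>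
    rw [← ev_apply, ← sub_eq_zero, ← map_sub, ev_eq_zero_top ‹_›]
  exacts [⟨a * (p' - p), by linear_combination p * e⟩, ⟨b * (p - p'), by linear_combination p' * e⟩]

theorem Cy.ker_le (c : Cy z k) {P : F[X]} (hP : P ≠ 0) : finrank F (ker (aeval z P)) ≤ P.natDegree := by
  rw [((c.sim (cy_blk c.monic)).aeval P).finrank_ker, finrank_ker_blk c.monic.ne_zero]
  exact natDegree_le_of_dvd (EuclideanDomain.gcd_dvd_left _ _) hP

theorem cy_of_ker (H : ∀ P : F[X], P.Monic → Irreducible P → finrank F (ker (aeval z P)) ≤ P.natDegree) : Cy z z.charpoly := by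
  simp only [finrank_ker_ED] at H
  refine .of_sim ?_ (sim_ED z).symm
  rw [charpoly_eq_prod_ED]
  have := pp_ED z
  generalize ED z = s at *
  induction s using Multiset.induction with
  | empty => exact ⟨⟨0, Subsingleton.elim _ _⟩, charpoly_std (by simp)⟩
  | cons P s ih =>
    simp only [Multiset.map_cons, Multiset.sum_cons, Multiset.forall_mem_cons, Multiset.prod_cons] at *
    refine .of_sim (.prodMap (cy_blk this.1.monic) (ih (fun Q a b => le_of_add_le_right (H Q a b)) this.2) ?_) (sim_std_cons P s).symm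
    obtain ⟨π, e, a, b, rfl⟩ := this.1
    refine (isCoprime_multiset_prod.2 fun Q hQ => b.coprime_iff_not_dvd.2 fun d => ?_).pow_left
    have k {Q : F[X]} (d : π ∣ Q) : π.natDegree ≤ (EuclideanDomain.gcd π Q).natDegree := natDegree_le_of_dvd
      (EuclideanDomain.dvd_gcd dvd_rfl d) fun e => a.ne_zero (EuclideanDomain.gcd_eq_zero_iff.1 e).1
    have := H π a b
    have := k (dvd_pow_self π (n := e + 1) e.succ_ne_zero)
    have := (k d).trans (Multiset.single_le_sum (by simp) _ (Multiset.mem_map_of_mem (fun P => (EuclideanDomain.gcd π P).natDegree) hQ))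
    have := b.natDegree_pos
    omega

theorem charpoly_ext {y : End F U} (ι : U →ₗ[F] V) (π : V →ₗ[F] W) (i : Function.Injective ι) (s : Function.Surjective π)
    (e : ker π = range ι) (a : ∀ x, ι (y x) = z (ι x)) (b : ∀ x, π (z x) = z' (π x)) : z.charpoly = y.charpoly * z'.charpoly := by
  rw [← cp_top, cp_mul π (fun _ _ => mem_top) fun x _ => b x, top_inf_eq, e, cp_eq ι i a rfl, Submodule.map_top,
    LinearMap.range_eq_top.2 s, cp_top]

theorem cy_ext {y : End F U} (ι : U →ₗ[F] V) (π : V →ₗ[F] W) (i : Function.Injective ι) (s : Function.Surjective π)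
    (e : ker π = range ι) (a : ∀ x, ι (y x) = z (ι x)) (b : ∀ x, π (z x) = z' (π x)) (c : Cy y k) (c' : Cy z' k')
    (H : ∀ P : F[X], P.Monic → Irreducible P → P ∣ k → P ∣ k' → ∀ x, aeval z P x = 0 → π x = 0) : Cy z (k * k') := by
  rw [← c.2, ← c'.2, ← charpoly_ext ι π i s e a b]
  refine cy_of_ker fun P m p => ?_
  have u {x} (hx : aeval z P x = 0) : aeval z' P (π x) = 0 := by rw [← aeval_intertwine b, hx, map_zero]
  by_cases d : P ∣ k
  · have t (x) (hx : aeval z P x = 0) : π x = 0 := by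
      by_cases d' : P ∣ k'
      · exact H P m p d d' x hx
      · exact (LinearMap.isUnit_iff_ker_eq_bot _).1 (isUnit_aeval_iff.2 (p.coprime_iff_not_dvd.2 (c'.2 ▸ d'))) |>.le (u hx)
    refine (finrank_mono (t := (ker (aeval y P)).map ι) fun x hx => ?_).trans ((finrank_map_le _ _).trans (c.ker_le m.ne_zero))
    obtain ⟨x, rfl⟩ := e.le (t x hx)
    exact ⟨x, i ((aeval_intertwine a P x).trans (hx.trans (map_zero _).symm)), rfl⟩
  refine (LinearMap.finrank_le_finrank_of_injective (f := π.restrict (p := ker _) (q := ker _) fun x => u)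
    ((injective_iff_map_eq_zero _).2 fun x hx => Subtype.ext ?_)).trans (c'.ker_le m.ne_zero)
  obtain ⟨w, hw⟩ := e.le (congrArg Subtype.val hx)
  have := (LinearMap.isUnit_iff_ker_eq_bot _).1 (isUnit_aeval_iff.2 (p.coprime_iff_not_dvd.2 (c.2 ▸ d))) |>.le
    (i ((aeval_intertwine a P w).trans (by rw [hw, map_zero]; exact x.2)))
  exact hw.symm.trans (by rw [(mem_bot F).1 this, map_zero]; rfl)

theorem exists_avoid {M : Type*} [AddCommGroup M] [Module F M] (p q : Submodule F M) : ∃ u, (u ∈ p → p = ⊤) ∧ (u ∈ q → q = ⊤) := by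
  by_contra! H
  have k (p q : Submodule F M) (H : ∀ u, (u ∈ p → p = ⊤) → u ∈ q ∧ q ≠ ⊤) : p ≠ ⊤ := fun e =>
    (H 0 fun _ => e).2 (eq_top_iff.2 fun u _ => (H u fun _ => e).1)
  have a := k p q H
  have b := k q p fun u l => by_contra fun l' => (H u fun m => by_contra fun n => l' ⟨m, n⟩).elim fun m n => n (l m)
  obtain ⟨x, -, hx⟩ := SetLike.exists_of_lt a.lt_top
  obtain ⟨y, -, hy⟩ := SetLike.exists_of_lt b.lt_top
  have c : y ∈ p := by_contra fun l => hy (H y fun m => (l m).elim).1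
  exact hy ((q.add_mem_iff_right (H x fun m => (hx m).elim).1).1 (H (x + y) fun m => (hx ((p.add_mem_iff_left c).1 m)).elim).1)

/-- block triangular map with a rank one corner -/
noncomputable def tri (z : End F V) (u : V) (χ : Dual F W) (z' : End F W) : End F (V × W) :=
  z.prodMap z' + (χ ∘ₗ .snd F V W).smulRight (u, 0)

theorem cy_tri (c : Cy z k) (c' : Cy z' k') {a : F} (H : ∀ P : F[X], P.Monic → Irreducible P → P ∣ k → P ∣ k' → P = X - C a)
    {u : V} {χ : Dual F W} (hu : u ∈ range (aeval z (X - C a)) → range (aeval z (X - C a)) = ⊤)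
    (hχ : χ ∈ (ker (aeval z' (X - C a))).dualAnnihilator → (ker (aeval z' (X - C a))).dualAnnihilator = ⊤) : Cy (tri z u χ z') (k * k') := by
  refine cy_ext (.inl F V W) (.snd F V W) LinearMap.inl_injective LinearMap.snd_surjective (LinearMap.range_inl ..).symm
    (by simp [tri]) (by simp [tri]) c c' fun P m p d d' x hx => by_contra fun x0 => ?_
  obtain rfl := H P m p d d'
  simp only [tri, map_sub, aeval_X, aeval_C, LinearMap.sub_apply, LinearMap.add_apply, algebraMap_end_apply, Prod.ext_iff] at hx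
  have h2 : x.2 ∈ ker (aeval z' (X - C a)) := by simpa using hx.2
  have h3 : χ x.2 ≠ 0 := fun e => x0 ((forall_dual_apply_eq_zero_iff F _).1 fun φ => (mem_dualAnnihilator φ).1 ((hχ ((mem_dualAnnihilator χ).2
    fun y hy => by
      obtain ⟨t, ht⟩ := exists_smul_eq_of_finrank_eq_one (((c'.ker_le m.ne_zero).trans (natDegree_X_sub_C a).le).antisymm
        (finrank_pos_iff_exists_ne_zero.2 ⟨⟨_, h2⟩, fun l => x0 (congrArg Subtype.val l)⟩)) (x := ⟨_, h2⟩) (fun l => x0 (congrArg Subtype.val l)) ⟨y, hy⟩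
      rw [← show t • x.2 = y from congrArg Subtype.val ht, map_smul, e, smul_zero])).ge mem_top) _ h2)
  refine p.not_isUnit ((isUnit_aeval_iff.1 ((LinearMap.isUnit_iff_range_eq_top _).2 (hu ⟨-(χ x.2)⁻¹ • x.1, ?_⟩))).isUnit_of_dvd (c.2 ▸ d))
  rw [map_smul, show aeval z (X - C a) x.1 = -(χ x.2 • u) by simpa [eq_neg_iff_add_eq_zero, sub_add_eq_add_sub] using hx.1]
  simp [h3]

/-- `z` and `g z` are cyclic -/
def CC (g : End F V) (k h : F[X]) : Prop := ∃ z, Cy z k ∧ Cy (g * z) h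

theorem CC.of_sim (c : CC g k h) (s : Sim g g') : CC g' k h := by
  obtain ⟨e, rfl⟩ := s.exists_conj
  obtain ⟨z, a, b⟩ := c
  exact ⟨e.conj z, a.of_sim (sim_conj e z), b.of_sim ⟨e, by simp⟩⟩

theorem CC.glue (c : CC g k h) (c' : CC g' k' h') (hg : IsUnit g) (a b : F)
    (Hk : ∀ P : F[X], P.Monic → Irreducible P → P ∣ k → P ∣ k' → P = X - C a)
    (Hh : ∀ P : F[X], P.Monic → Irreducible P → P ∣ h → P ∣ h' → P = X - C b) : CC (g.prodMap g') (k * k') (h * h') := by
  obtain ⟨z, c1, c2⟩ := c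
  obtain ⟨z', c3, c4⟩ := c'
  obtain ⟨u, h1, h2⟩ := exists_avoid (range (aeval z (X - C a))) ((range (aeval (g * z) (X - C b))).comap g)
  obtain ⟨χ, h3, h4⟩ := exists_avoid (ker (aeval z' (X - C a))).dualAnnihilator (ker (aeval (g' * z') (X - C b))).dualAnnihilator
  refine ⟨_, cy_tri c1 c3 Hk h1 h3, ?_⟩
  rw [show g.prodMap g' * tri z u χ z' = tri (g * z) (g u) χ (g' * z') from LinearMap.ext fun x => by simp [tri]]
  refine cy_tri c2 c4 Hh (fun l => eq_top_iff.2 fun y _ => ?_) h4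
  obtain ⟨y, rfl⟩ := ((End.isUnit_iff g).1 hg).2 y
  exact (h2 l).ge mem_top

/-- Krylov subspaces -/
noncomputable def Kr (y : End F V) (v : V) (i : ℕ) : Submodule F V := (degreeLT F i).map (ev y v)

theorem divX_mem {i : ℕ} {p : F[X]} (hp : p ∈ degreeLT F (i + 1)) : p.divX ∈ degreeLT F i :=
  mem_degreeLT.2 ((degree_lt_iff_coeff_zero _ _).2 fun j hj => coeff_divX.trans
    ((degree_lt_iff_coeff_zero _ _).1 (mem_degreeLT.1 hp) _ (by omega)))

theorem ev_divX (p : F[X]) : ev z v p = z (ev z v p.divX) + p.coeff 0 • v := by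
  rw [g_ev]; conv_lhs => rw [← X_mul_divX_add p, map_add]
  simp [ev_apply]

theorem Kr_succ (i : ℕ) : Kr z v (i + 1) = span F {v} ⊔ (Kr z v i).map z := by
  refine le_antisymm ?_ (sup_le ((span_singleton_le_iff_mem _ _).2 ⟨1, mem_degreeLT.2 (by simp; norm_cast; omega), by simp [ev_apply]⟩) ?_)
  · rintro _ ⟨p, hp, rfl⟩
    exact ev_divX (z := z) p ▸ add_mem (mem_sup_right ⟨_, ⟨_, divX_mem hp, rfl⟩, rfl⟩) (mem_sup_left (smul_mem _ _ (mem_span_singleton_self v)))
  rintro _ ⟨_, ⟨p, hp, rfl⟩, rfl⟩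
  exact ⟨_, mem_degreeLT.2 ((degree_lt_iff_coeff_zero _ _).2 fun j hj => by
    obtain ⟨j, rfl⟩ := Nat.exists_eq_add_one.2 (show 0 < j by omega)
    exact (coeff_X_mul p j).trans ((degree_lt_iff_coeff_zero _ _).1 (mem_degreeLT.1 hp) _ (by omega))), (g_ev v p).symm⟩

theorem degreeLT_zero : degreeLT F 0 = ⊥ := by ext; simp [mem_degreeLT]

theorem Kr_mul {j : ℕ} (H : ∀ i < j, (Kr g v i).map z = Kr g v i) : ∀ i ≤ j, Kr (g * z) v i = Kr g v i := fun i hi => by
  induction i with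
  | zero => simp [Kr, degreeLT_zero]
  | succ i ih => rw [Kr_succ, Kr_succ, ih (by omega), End.mul_eq_comp, Submodule.map_comp, H i hi]

theorem feedback {n : ℕ} (d : finrank F V = n + 1) (φ : Dual F V) (h0 : φ ≠ 0) (h1 : Kr z v (n + 1) = ⊤) (h2 : Kr z v n ≤ ker φ)
    (m : h.Monic) (dh : h.natDegree = n + 1) : ∃ u, Cy (z + φ.smulRight u) h := by
  have a (u) (i) : i ≤ n + 1 → ∀ p ∈ degreeLT F i, ev (z + φ.smulRight u) v p = ev z v p := by
    induction i with
    | zero => simp [degreeLT_zero]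
    | succ i ih =>
      intro hi p hp
      rw [ev_divX, ih (by omega) _ (divX_mem hp), ev_divX p, LinearMap.add_apply, LinearMap.smulRight_apply,
        show φ _ = 0 from h2 ⟨_, degreeLT_mono (by omega) (divX_mem hp), rfl⟩, zero_smul, add_zero]
  have b : h.divX ∈ degreeLT F (n + 1) := divX_mem (mem_degreeLT.2 (by rw [degree_eq_natDegree m.ne_zero, dh]; norm_cast; omega))
  have c : φ (ev z v h.divX) ≠ 0 := fun e => h0 (LinearMap.ext fun x => by
    obtain ⟨p, hp, rfl⟩ := h1.ge (mem_top (x := x))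
    have := h2 ⟨p - p.coeff n • h.divX, mem_degreeLT.2 ((degree_lt_iff_coeff_zero _ _).2 fun j hj => by
      obtain rfl | l := hj.eq_or_lt
      · simp [coeff_divX, ← dh, m.leadingCoeff]
      simp [(degree_lt_iff_coeff_zero _ _).1 (mem_degreeLT.1 hp) j l, (degree_lt_iff_coeff_zero _ _).1 (mem_degreeLT.1 b) j l]), rfl⟩
    simpa [e] using this)
  refine ⟨-(φ (ev z v h.divX))⁻¹ • ev z v h, cy_of_gen (v := v) (eq_top_iff.2 (h1.ge.trans ?_)) m (dh.trans d.symm) ?_⟩
  · rintro _ ⟨p, hp, rfl⟩; exact ⟨p, a _ _ le_rfl p hp⟩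
  rw [ev_divX, a _ _ le_rfl _ b, LinearMap.add_apply, add_right_comm, ← ev_divX]
  simp [smul_smul, c]

end H19.Cm
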