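import Cfsg.Agent.H19.Cm1

/-! Factorizations of a cyclic invertible endomorphism `g`: `z` and `g z` cyclic with prescribed characteristic polynomials
(`cc_lin`, `cc_quad`, `cc_blk`). -/

set_option autoImplicit false
set_option linter.unusedSectionVars false

namespace H19.Cm
open Module Polynomial H11 H19.Gr Finset
open Submodule hiding map_smul
open LinearMap (ker range)
open scoped Classical

variable {F V : Type*} [Field F] [Finite F] [AddCommGroup V] [Module F V] [Finite V] {g z : End F V} {h k p : F[X]} {v : V} {ρ : ℕ → F}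

theorem mem_dLT {j : ℕ} : p ∈ degreeLT F j ↔ ∀ i, j ≤ i → p.coeff i = 0 := mem_degreeLT.trans (degree_lt_iff_coeff_zero _ _)

instance finDLT (j : ℕ) : Finite (degreeLT F j) := .of_equiv _ (degreeLTEquiv F j).symm.toEquiv

theorem exists_zt (ρ : ℕ → F) : ∃ T : End F F[X], ∀ p i, (T p).coeff i = ρ i * p.coeff i + p.coeff (i + 1) :=
  ⟨lsum (fun i => ρ i • monomial i) + ⟨⟨divX, fun _ _ => divX_add⟩, fun _ _ => by simp [smul_eq_C_mul, divX_C_mul]⟩, fun p i => by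
    simpa [lsum_apply, sum_def, coeff_monomial, coeff_divX] using Or.inr⟩

/-- bidiagonal operator -/
noncomputable def zt (ρ : ℕ → F) : End F F[X] := (exists_zt ρ).choose

theorem coeff_zt (i : ℕ) : (zt ρ p).coeff i = ρ i * p.coeff i + p.coeff (i + 1) := (exists_zt ρ).choose_spec p i

theorem inv_zt (j : ℕ) : ∀ p ∈ degreeLT F j, zt ρ p ∈ degreeLT F j := fun p hp =>
  mem_dLT.2 fun i hi => by simp [coeff_zt, mem_dLT.1 hp i hi, mem_dLT.1 hp (i + 1) (by omega)]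

theorem map_zt (h0 : ∀ i, ρ i ≠ 0) (j : ℕ) : (degreeLT F j).map (zt ρ) = degreeLT F j :=
  eq_of_le_of_finrank_eq (map_le_iff_le_comap.2 (inv_zt j)) (equivMapOfInjective _ ((injective_iff_map_eq_zero _).2 fun p hp => by
    simpa [hp, h0] using coeff_zt (ρ := ρ) (p := p) p.natDegree) _).finrank_eq.symm

theorem aeval_zt (j : ℕ) : ∀ y ∈ degreeLT F j, aeval (zt ρ) (∏ i ∈ .range j, (X - C (ρ i))) y = 0 := by
  induction j with
  | zero => simp [degreeLT_zero]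
  | succ j ih =>
    intro y hy
    rw [prod_range_succ, map_mul, End.mul_apply]
    refine ih _ (mem_dLT.2 fun i hi => ?_)
    obtain rfl | l := hi.eq_or_lt <;> simp [coeff_zt, mem_dLT.1 hy, *]

theorem cy_zt (j : ℕ) : Cy ((zt ρ).restrict (inv_zt j)) (∏ i ∈ .range j, (X - C (ρ i))) := by
  have m (i) (hi : i ≤ j - 1) : (if j = 0 then 0 else X ^ i : F[X]) ∈ degreeLT F j := mem_dLT.2 fun l hl => by
    split_ifs <;> simp [coeff_X_pow]; omega
  refine cy_of_gen (v := ⟨_, m _ le_rfl⟩) (gen_of fun Y a b => eq_top_iff.2 fun y _ => ?_) (monic_prod_of_monic _ _ fun _ _ => monic_X_sub_C _)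
    (by rw [natDegree_prod_of_monic _ _ fun _ _ => monic_X_sub_C _, (degreeLTEquiv F j).finrank_eq]; simp) (Subtype.ext
      ((aeval_intertwine (e := (degreeLT F j).subtype) (g := zt ρ) (fun _ => rfl) _ _).trans (aeval_zt j _ (m _ le_rfl))))
  have k (i) (hi : i ≤ j - 1) : (⟨_, m i hi⟩ : degreeLT F j) ∈ Y := by
    induction hi using Nat.decreasingInduction with
    | self => exact a
    | of_succ i l ih =>
      convert sub_mem (b _ ih) (Y.smul_mem (ρ (i + 1)) ih) using 1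
      ext l; simp [coeff_zt, show j ≠ 0 by omega, coeff_X_pow]; split_ifs <;> simp_all
  suffices y.1 ∈ Y.map (degreeLT F j).subtype from this.elim fun x e => Subtype.ext e.2 ▸ e.1
  refine (degreeLT_eq_span_X_pow.le.trans (span_le.2 ?_)) y.2
  simp only [coe_image, coe_range, Set.image_subset_iff]
  exact fun i hi => ⟨_, k i (by simp at hi; omega), if_neg (by simp at hi; omega)⟩

theorem exists_sec {n : ℕ} (d : finrank F V = n) (hv : range (ev g v) = ⊤) : ∃ σ : V →ₗ[F] F[X], (∀ y, ev g v (σ y) = y) ∧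
    (∀ y, σ y ∈ degreeLT F n) ∧ ∀ p ∈ degreeLT F n, σ (ev g v p) = p := by
  obtain ⟨τ, hτ⟩ := (ev g v).exists_rightInverse_of_surjective hv
  have a (y) : ev g v (τ y %ₘ g.charpoly) = y := by rw [ev_apply, ← g.aeval_eq_aeval_mod_charpoly]; exact congr($hτ y)
  have e : g.charpoly.degree = n := by rw [degree_eq_natDegree g.charpoly_monic.ne_zero, g.charpoly_natDegree, d]
  have b (y) : τ y %ₘ g.charpoly ∈ degreeLT F n := mem_degreeLT.2 (e ▸ degree_modByMonic_lt _ g.charpoly_monic)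
  exact ⟨modByMonicHom g.charpoly ∘ₗ τ, a, b, fun p hp => sub_eq_zero.1 (eq_zero_of_dvd_of_degree_lt
    ((ev_eq_zero_top hv).1 (by rw [map_sub]; exact sub_eq_zero.2 (a _))) (e ▸ mem_degreeLT.1 (sub_mem (b _) hp)))⟩

theorem Cy.coeff_mul (c : Cy (g * z) h) : h.coeff 0 = g.det * z.charpoly.coeff 0 := by
  have := map_mul LinearMap.det g z
  rw [z.det_eq_sign_charpoly_coeff, LinearMap.det_eq_sign_charpoly_coeff, c.2, mul_left_comm] at this
  exact mul_left_cancel₀ (by simp) this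

theorem core {n j : ℕ} (σ : V →ₗ[F] F[X]) (s1 : ∀ y, ev g v (σ y) = y) (s3 : ∀ p ∈ degreeLT F n, σ (ev g v p) = p)
    (hj : j ≤ n) (hz : ∀ p ∈ degreeLT F j, z (ev g v p) = ev g v (zt ρ p)) {W : Type*} [AddCommGroup W] [Module F W] [Finite W]
    {z' : End F W} (π : V →ₗ[F] W) (s : Function.Surjective π) (e : ∀ y, π y = 0 ↔ σ y ∈ degreeLT F j) (b : ∀ x, π (z x) = z' (π x))
    (c : Cy z' k) : z.charpoly = (∏ i ∈ .range j, (X - C (ρ i))) * k ∧
      (IsCoprime (∏ i ∈ .range j, (X - C (ρ i))) k → Cy z ((∏ i ∈ .range j, (X - C (ρ i))) * k)) := by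
  have i : Function.Injective (ev g v ∘ₗ (degreeLT F j).subtype) := fun x y l =>
    Subtype.ext ((s3 _ (degreeLT_mono hj x.2)).symm.trans ((congrArg σ l).trans (s3 _ (degreeLT_mono hj y.2))))
  have t : ker π = range (ev g v ∘ₗ (degreeLT F j).subtype) := Submodule.ext fun y =>
    (e y).trans ⟨fun l => ⟨⟨_, l⟩, s1 y⟩, fun ⟨x, l⟩ => by rw [← l]; exact (s3 _ (degreeLT_mono hj x.2)).symm ▸ x.2⟩
  exact ⟨by rw [charpoly_ext (y := (zt ρ).restrict (inv_zt j)) _ π i s t (fun x => (hz _ x.2).symm) b, (cy_zt j).2, c.2], fun l =>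
    cy_ext _ π i s t (fun x => (hz _ x.2).symm) b (cy_zt j) c fun P _ q a b => (q.not_isUnit (l.isUnit_of_dvd' a b)).elim⟩

theorem Kr_zt {j : ℕ} (h0 : ∀ i, ρ i ≠ 0) (hz : ∀ p ∈ degreeLT F j, z (ev g v p) = ev g v (zt ρ p)) :
    ∀ i ≤ j + 1, Kr (g * z) v i = Kr g v i := Kr_mul fun i hi => by
  conv_rhs => rw [Kr, ← map_zt h0]
  rw [Kr, ← Submodule.map_comp, ← Submodule.map_comp]
  exact Submodule.ext fun x => exists_congr fun p => and_congr_right fun hp => (hz p (degreeLT_mono (by omega) hp)).congr_left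

theorem coeff_r (h0 : ∀ i, ρ i ≠ 0) (j : ℕ) : (∏ i ∈ .range j, (X - C (ρ i))).coeff 0 ≠ 0 := by
  simp [coeff_zero_eq_eval_zero, eval_prod, prod_eq_zero_iff, h0]

theorem cc_lin {n : ℕ} (d : finrank F V = n + 1) (hv : range (ev g v) = ⊤) (hg : IsUnit g) (h0 : ∀ i, ρ i ≠ 0) {γ : F}
    (hγ : IsCoprime (∏ i ∈ .range n, (X - C (ρ i))) (X - C γ)) (m : h.Monic) (dh : h.natDegree = n + 1)
    (e : h.coeff 0 = g.det * ((∏ i ∈ .range n, (X - C (ρ i))) * (X - C γ)).coeff 0) : CC g ((∏ i ∈ .range n, (X - C (ρ i))) * (X - C γ)) h := by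
  obtain ⟨σ, s1, s2, s3⟩ := exists_sec d hv
  have t : lcoeff F n (σ (ev g v (X ^ n))) = 1 := by simp [s3 _ (mem_dLT.2 fun i hi => (coeff_X_pow n i).trans (if_neg (by omega)))]
  have K := Kr_zt (g := g) (v := v) (z := ev g v ∘ₗ zt ρ ∘ₗ σ) (j := n + 1) h0 fun p hp => by simp [s3 p hp]
  obtain ⟨u, c⟩ := feedback d (lcoeff F n ∘ₗ σ) (fun l => by simpa using congr($l _).symm.trans t)
    ((K _ (by omega)).trans (eq_top_iff.2 fun y _ => ⟨_, s2 y, s1 y⟩)) ((K _ (by omega)).le.trans (by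
      rintro _ ⟨p, hp, rfl⟩; simp [s3 p (degreeLT_mono n.le_succ hp), mem_dLT.1 hp])) m dh
  obtain ⟨u, rfl⟩ := ((End.isUnit_iff g).1 hg).2 u
  set z := ev g v ∘ₗ zt ρ ∘ₗ σ + (lcoeff F n ∘ₗ σ).smulRight u
  replace c : Cy (g * z) h := by convert c; ext; simp [z]
  have := core (z := z) (ρ := ρ) (z' := (ρ n + (σ u).coeff n) • 1) (k := X - C (ρ n + (σ u).coeff n)) σ s1 s3 n.le_succ
    (fun p hp => by simp [z, s3 p (degreeLT_mono n.le_succ hp), mem_dLT.1 hp]) (lcoeff F n ∘ₗ σ)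
    (fun a => ⟨a • ev g v (X ^ n), by rw [map_smul]; exact (congrArg _ t).trans (mul_one a)⟩)
    (fun y => ⟨fun l => mem_dLT.2 fun i hi => hi.eq_or_lt.elim (· ▸ l) (mem_dLT.1 (s2 y) i), fun l => mem_dLT.1 l n le_rfl⟩)
    (fun y => by simp [z, s3 _ (inv_zt _ _ (s2 y)), coeff_zt, mem_dLT.1 (s2 y)]; ring)
    (cy_of_gen (v := 1) (gen_of fun Y a _ => (Ideal.eq_top_iff_one _).2 a) (monic_X_sub_C _) (by simp [-map_add]) (by simp [ev_apply]))
  rw [c.coeff_mul, this.1, mul_coeff_zero, mul_coeff_zero] at e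
  obtain rfl : ρ n + (σ u).coeff n = γ := by
    simpa [-map_add, -neg_add_rev] using mul_left_cancel₀ (coeff_r h0 n) (mul_left_cancel₀ ((g.isUnit_iff_isUnit_det.1 hg).ne_zero) e)
  exact ⟨z, this.2 hγ, c⟩

theorem cc_quad {n : ℕ} (d : finrank F V = n + 3) (hv : range (ev g v) = ⊤) (hg : IsUnit g) (h0 : ∀ i, ρ i ≠ 0) {τ δ : F}
    (hγ : IsCoprime (∏ i ∈ .range (n + 1), (X - C (ρ i))) (X ^ 2 - C τ * X + C δ)) (m : h.Monic) (dh : h.natDegree = n + 3)
    (e : h.coeff 0 = g.det * ((∏ i ∈ .range (n + 1), (X - C (ρ i))) * (X ^ 2 - C τ * X + C δ)).coeff 0) :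
    CC g ((∏ i ∈ .range (n + 1), (X - C (ρ i))) * (X ^ 2 - C τ * X + C δ)) h := by
  obtain ⟨σ, s1, s2, s3⟩ := exists_sec d hv
  have sx (i) (hi : i < n + 3) : σ (ev g v (X ^ i)) = X ^ i := s3 _ (mem_dLT.2 fun l hl => (coeff_X_pow i l).trans (if_neg (by omega)))
  obtain ⟨t, ht⟩ : ∃ t, t = (σ (g (ev g v (X ^ (n + 2))))).coeff (n + 2) := ⟨_, rfl⟩
  have A (y) : (σ (g y)).coeff (n + 2) = (σ y).coeff (n + 1) + t * (σ y).coeff (n + 2) := by
    have : σ (g (y - (σ y).coeff (n + 2) • ev g v (X ^ (n + 2)))) = X * (σ y - (σ y).coeff (n + 2) • X ^ (n + 2)) := by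
      rw [← s3 (X * _) (mem_dLT.2 fun i hi => by
        obtain ⟨i, rfl⟩ := Nat.exists_eq_add_one.2 (show 0 < i by omega)
        obtain rfl | l := (Nat.le_of_succ_le_succ hi).eq_or_lt <;> simp [coeff_X_mul, coeff_X_pow, mem_dLT.1 (s2 y), *, ne_of_gt, Nat.succ_le_iff]),
        ← g_ev, map_sub (ev g v), map_smul (ev g v), s1]
    have := congr(($this).coeff (n + 2))
    simp [coeff_X_mul, coeff_X_pow, ← ht] at this
    linear_combination this
  obtain ⟨s, hs⟩ : ∃ s, s = (xmul F (Blk h)).trace F _ - (g * ev g v ∘ₗ zt ρ ∘ₗ σ).trace F V - (σ (g (ev g v (X ^ (n + 2))))).coeff (n + 1) -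
    ((1 - t) * (τ - (1 - t)) - δ - 1 + t * (τ - (1 - t) - ρ (n + 2))) := ⟨_, rfl⟩
  obtain ⟨w, hw⟩ : ∃ w, w = ev g v (X ^ (n + 2)) + (1 - t - ρ (n + 1)) • ev g v (X ^ (n + 1)) + s • ev g v (X ^ n) := ⟨_, rfl⟩
  have w1 : (σ w).coeff (n + 1) = 1 - t - ρ (n + 1) := by simp [hw, sx, coeff_X_pow]
  have w2 : (σ w).coeff (n + 2) = 1 := by simp [hw, sx, coeff_X_pow]
  have K := Kr_zt (g := g) (v := v) (z := ev g v ∘ₗ zt ρ ∘ₗ σ + (lcoeff F (n + 1) ∘ₗ σ).smulRight w) (j := n + 1) h0 fun p hp => by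
    simp [s3 p (degreeLT_mono (by omega) hp), mem_dLT.1 hp]
  obtain ⟨u, c⟩ := feedback d (lcoeff F (n + 2) ∘ₗ σ) (fun l => by simpa [w2] using congr($l w)) (eq_top_iff.2 fun y _ => by
      have x := (Kr_succ _).ge (mem_sup_right (Submodule.mem_map_of_mem ((K _ le_rfl).ge ⟨X ^ (n + 1),
        mem_dLT.2 fun l hl => (coeff_X_pow _ l).trans (if_neg (by omega)), rfl⟩)))
      refine (add_sub_cancel _ y) ▸ add_mem (smul_mem _ ((σ y).coeff (n + 2)) x) (map_mono (degreeLT_mono (n + 2).le_succ) ((K _ le_rfl).ge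
        ⟨_, mem_dLT.2 fun i hi => hi.eq_or_lt.elim (· ▸ ?_) (mem_dLT.1 (s2 _) i), s1 _⟩))
      simp only [map_sub, map_smul, coeff_sub, coeff_smul, End.mul_apply, A]
      simp [sx, s3 _ (inv_zt _ _ (sx (n + 1) (by omega) ▸ s2 _)), coeff_zt, coeff_X_pow, w1, w2])
    ((K _ le_rfl).le.trans (by rintro _ ⟨p, hp, rfl⟩; simp [s3 p (degreeLT_mono (n + 2).le_succ hp), mem_dLT.1 hp])) m dh
  obtain ⟨u, rfl⟩ := ((End.isUnit_iff g).1 hg).2 u
  set z := ev g v ∘ₗ zt ρ ∘ₗ σ + (lcoeff F (n + 1) ∘ₗ σ).smulRight w + (lcoeff F (n + 2) ∘ₗ σ).smulRight u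
  obtain ⟨ε, tr⟩ := (c.sim (cy_blk m)).exists_conj
  replace tr := (LinearMap.trace_conj' _ ε).symm.trans (congrArg (LinearMap.trace F _) tr)
  replace c : Cy (g * z) h := by convert c; ext; simp [z]
  obtain ⟨b, hb⟩ : ∃ b, b = 1 + (σ u).coeff (n + 1) := ⟨_, rfl⟩
  obtain ⟨a, ha⟩ : ∃ a, a = ρ (n + 2) + (σ u).coeff (n + 2) := ⟨_, rfl⟩
  have := core (z := z) (ρ := ρ) (z' := ((1 - t) • .fst F F F + b • .snd F F F : _ →ₗ[F] F).prod (.fst F F F + a • .snd F F F))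
    (k := X ^ 2 - C (1 - t + a) * X + C ((1 - t) * a - b)) σ s1 s3 (show n + 1 ≤ n + 3 by omega)
    (fun p hp => by simp [z, s3 p (degreeLT_mono (by omega) hp), mem_dLT.1 hp]) ((lcoeff F (n + 1) ∘ₗ σ).prod (lcoeff F (n + 2) ∘ₗ σ))
    (fun a => ⟨a.1 • ev g v (X ^ (n + 1)) + a.2 • ev g v (X ^ (n + 2)), by simp [sx, coeff_X_pow]⟩)
    (fun y => ⟨fun l => mem_dLT.2 fun i hi => hi.eq_or_lt.elim (· ▸ congrArg Prod.fst l) fun hi =>
      (Nat.succ_le_of_lt hi).eq_or_lt.elim (· ▸ congrArg Prod.snd l) (mem_dLT.1 (s2 y) i), fun l => by simp [mem_dLT.1 l]⟩)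
    (fun y => by simp [z, s3 _ (inv_zt _ _ (s2 y)), coeff_zt, mem_dLT.1 (s2 y), w1, w2, ha, hb]; constructor <;> ring)
    (cy_of_gen (v := (1, 0)) (gen_of fun Y a b => eq_top_iff.2 fun y _ => by
      convert add_mem (Y.smul_mem (y.1 - y.2 * (1 - t)) a) (Y.smul_mem y.2 (b _ a)) using 1; ext <;> simp)
      (by monicity!) (by simp; compute_degree!) (by
        rw [ev_apply, map_add, map_sub, map_mul, map_pow, aeval_C, aeval_C, aeval_X]; ext <;> simp [pow_two] <;> ring))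
  rw [c.coeff_mul, this.1, mul_coeff_zero, mul_coeff_zero] at e
  have e1 : (1 - t) * a - b = δ := by
    simpa [-map_sub] using mul_left_cancel₀ (coeff_r h0 _) (mul_left_cancel₀ ((g.isUnit_iff_isUnit_det.1 hg).ne_zero) e)
  have e2 : 1 - t + a = τ := by
    rw [mul_add, map_add, map_add, show g * LinearMap.smulRight _ w = (lcoeff F (n + 1) ∘ₗ σ).smulRight (g w) by ext; simp, LinearMap.trace_smulRight,
      LinearMap.trace_smulRight] at tr
    simp [A, hw, g_ev (f := X ^ (n + 1)), g_ev (f := X ^ n), ← pow_succ', sx, coeff_X_pow] at tr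
    linear_combination tr - hs + e1 + t * ha + hb
  exact ⟨z, e1 ▸ e2 ▸ this.2 (e1 ▸ e2 ▸ hγ), c⟩

end H19.Cm
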