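import Cfsg.Agent.H19.Cm2

/-! Commutators in `SL_n(q)`: the predicate `E g δ ε` (`g = [a⁻¹, z]`, `det z = δ`, `det a = ε`), block sums with no proper subsum of
determinant one (`big`, `two`), scalars, and the case `q ≥ 4` (`main4`). -/

set_option autoImplicit false
set_option linter.unusedSectionVars false

namespace H19.Cm
open Module Polynomial H11 H19.Gr
open Submodule hiding map_smul
open LinearMap (ker range det)
open scoped Classical

variable {F V W : Type*} [Field F] [Finite F] [AddCommGroup V] [Module F V] [Finite V] [AddCommGroup W] [Module F W] [Finite W]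
  {g z : End F V} {g' : End F W} {f h k P Q : F[X]} {α β ρ δ ε δ' ε' : F} {n : ℕ} {s t : Multiset F[X]}

/-- determinant of the companion matrix -/
noncomputable def N (P : F[X]) : F := (-1) ^ P.natDegree * P.coeff 0

theorem N_mul (a : P.Monic) (b : Q.Monic) : N (P * Q) = N P * N Q := by
  rw [N, a.natDegree_mul b, mul_coeff_zero, N, N]; ring

theorem N_lin : N (X - C α) = α := by simp [N]

theorem N_pow : N ((X - C α) ^ n) = α ^ n := by
  induction n with
  | zero => simp [N]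
  | succ n ih => rw [pow_succ, N_mul ((monic_X_sub_C _).pow _) (monic_X_sub_C _), ih, N_lin, pow_succ]

theorem Cy.deg (c : Cy z k) : k.natDegree = finrank F V := c.2 ▸ z.charpoly_natDegree

theorem Cy.det (c : Cy z k) : det z = N k := by rw [z.det_eq_sign_charpoly_coeff, c.2, N, c.deg]

theorem unit_blk (m : f.Monic) (h0 : N f ≠ 0) : IsUnit (xmul F (Blk f)) :=
  (LinearMap.isUnit_iff_isUnit_det _).2 ((cy_blk m).det ▸ h0.isUnit)

theorem lin_of_dvd (m : P.Monic) (p : Irreducible P) (d : P ∣ (X - C ρ) ^ n * (X - C β)) : P = X - C ρ ∨ P = X - C β :=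
  (p.prime.dvd_or_dvd d).imp (fun d => eq_of_monic_of_associated m (monic_X_sub_C _) (p.associated_of_dvd (irreducible_X_sub_C _)
    (p.prime.dvd_of_dvd_pow d))) fun d => eq_of_monic_of_associated m (monic_X_sub_C _) (p.associated_of_dvd (irreducible_X_sub_C _) d)

theorem monic_lin : ((X - C ρ) ^ n * (X - C β)).Monic := ((monic_X_sub_C _).pow _).mul (monic_X_sub_C _)

theorem deg_lin : ((X - C ρ) ^ n * (X - C β)).natDegree = n + 1 := by
  simp [((monic_X_sub_C ρ).pow n).natDegree_mul (monic_X_sub_C β)]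

theorem blk (c : Cy g f) (hg : IsUnit g) (d : f.natDegree = n + 1) (h0 : ρ ≠ 0) (H : β ≠ ρ ∨ N f * β ≠ ρ) :
    CC g ((X - C ρ) ^ n * (X - C β)) ((X - C ρ) ^ n * (X - C (N f * β))) := by
  have k {g : End F V} {v} (hv : range (ev g v) = ⊤) (hg : IsUnit g) {β β'} (H : β ≠ ρ) (e : β' = det g * β) :
      CC g ((X - C ρ) ^ n * (X - C β)) ((X - C ρ) ^ n * (X - C β')) := by
    simpa using cc_lin (ρ := fun _ => ρ) (c.deg.symm.trans d) hv hg (fun _ => h0) (γ := β)
      (by simpa using (isCoprime_X_sub_C_of_isUnit_sub (sub_ne_zero.2 H.symm).isUnit).pow_left) monic_lin deg_lin (by simp [e, mul_left_comm])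
  obtain ⟨v, hv⟩ := c.1
  refine H.elim (fun H => k hv hg H (by rw [c.det])) fun H => ?_
  obtain ⟨g, rfl⟩ := hg
  obtain ⟨z, a, b⟩ := k (g := g⁻¹.1) (v := v) (gen_of fun Y a b => top_of_gen hv a fun y hy => by
    obtain ⟨x, hx, rfl⟩ := (eq_of_le_of_finrank_eq (map_le_iff_le_comap.2 b)
      ((LinearMap.GeneralLinearGroup.toLinearEquiv g⁻¹).finrank_map_eq Y)).ge hy
    rwa [← End.mul_apply, g.mul_inv]) g⁻¹.isUnit H (β' := β) (by rw [← c.det, ← mul_assoc, ← map_mul, g.inv_mul, map_one, one_mul])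
  exact ⟨_, b, by rwa [g.mul_inv_cancel_left]⟩

/-- quadratic polynomial -/
noncomputable def qd (τ δ : F) : F[X] := X ^ 2 - C τ * X + C δ

theorem monic_qd {τ : F} : (qd τ δ).Monic := by unfold qd; monicity!

theorem deg_qd {τ : F} : (qd τ δ).natDegree = 2 := by unfold qd; compute_degree!

theorem N_qd {τ : F} : N (qd τ δ) = δ := by rw [N, deg_qd]; simp [qd]

theorem exists_qd (h0 : δ ≠ 0) : ∃ τ, Irreducible (qd τ δ) := by
  obtain ⟨τ, H⟩ : ∃ τ, ∀ x : Fˣ, x + δ / x ≠ τ := not_forall.1 (fun H => (Nat.card_le_card_of_surjective (fun x : Fˣ => x + δ / x) H).not_gt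
    (by rw [Nat.card_units]; exact Nat.sub_lt Nat.card_pos one_pos)) |>.imp fun _ => not_exists.1
  refine ⟨τ, irreducible_of_degree_le_three_of_not_isRoot (by simp [deg_qd]) fun x hx => ?_⟩
  simp only [qd, IsRoot, eval_add, eval_sub, eval_pow, eval_X, eval_mul, eval_C] at hx
  have : x ≠ 0 := by rintro rfl; simp [h0] at hx
  exact H (.mk0 x this) (by simp; field_simp; linear_combination hx)

theorem qd_ne {τ : F} : qd τ δ ≠ X - C α := fun e => by simpa [deg_qd] using congrArg natDegree e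

theorem blkQ (c : Cy g f) (hg : IsUnit g) (d : f.natDegree = n + 3) (h0 : ρ ≠ 0) (h1 : β ≠ 0) {τ : F} (p : Irreducible (qd τ δ)) (m : h.Monic)
    (dh : h.natDegree = n + 3) (e : N h = N f * (ρ ^ n * β * δ)) : CC g ((X - C ρ) ^ n * (X - C β) * qd τ δ) h := by
  obtain ⟨v, hv⟩ := c.1
  have t : ∏ i ∈ .range (n + 1), (X - C (Nat.rec β (fun _ _ => ρ) i : F)) = (X - C ρ) ^ n * (X - C β) := by simp [Finset.prod_range_succ']
  rw [← t]
  refine cc_quad (c.deg.symm.trans d) hv hg (by rintro (_ | _) <;> assumption) (t ▸ (p.coprime_iff_not_dvd.2 fun l =>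
    (lin_of_dvd monic_qd p l).elim qd_ne qd_ne).symm) m dh (mul_left_cancel₀ (show (-1 : F) ^ (n + 3) ≠ 0 by simp) ?_)
  rw [t, ← dh, ← N, e, dh, c.det]
  simp [coeff_zero_eq_eval_zero, neg_pow ρ]
  ring_nf; simp

/-- `g` is a commutator of maps with prescribed determinants -/
def E (g : End F V) (δ ε : F) : Prop := ∃ z a : End F V, det z = δ ∧ det a = ε ∧ a * (g * z) = z * a

theorem E.of_sim (c : E g δ ε) (s : Sim g g') : E g' δ ε := by
  obtain ⟨e, rfl⟩ := s.exists_conj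
  obtain ⟨z, a, rfl, rfl, c⟩ := c
  exact ⟨e.conj z, e.conj a, LinearMap.det_conj z e, LinearMap.det_conj a e, LinearMap.ext fun x => by simpa using congr($c (e.symm x))⟩

theorem E.prod (c : E g δ ε) (c' : E g' δ' ε') : E (g.prodMap g') (δ * δ') (ε * ε') := by
  obtain ⟨z, a, rfl, rfl, c⟩ := c
  obtain ⟨z', a', rfl, rfl, c'⟩ := c'
  exact ⟨_, _, LinearMap.det_prodMap z z', LinearMap.det_prodMap a a', by simp only [LinearMap.prodMap_mul, c, c']⟩

theorem E.add (c : E (std s) δ ε) (c' : E (std t) δ' ε') : E (std (s + t)) (δ * δ') (ε * ε') := (c.prod c').of_sim (sim_std_add s t).symm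

theorem E.smul (c : E g δ ε) (a : F) : E g (a ^ finrank F V * δ) ε := by
  obtain ⟨z, b, rfl, rfl, c⟩ := c
  exact ⟨a • z, b, by simp, rfl, by simp [c]⟩

theorem E_of (s : Sim (g * z) z) : ∃ ε ≠ 0, ∀ a, DetC z a → E g (det z) (a * ε) := by
  obtain ⟨e, he⟩ := s
  refine ⟨_, (LinearEquiv.isUnit_det' e).ne_zero, fun a ⟨c, hc, d⟩ => ⟨z, c * e.toLinearMap, rfl, by rw [map_mul, d], ?_⟩⟩
  rw [mul_assoc, show e.toLinearMap * (g * z) = z * e.toLinearMap from LinearMap.ext he, ← mul_assoc, hc.eq, mul_assoc]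

theorem E_of' (s : Sim (g * z) z) (H : ∀ a, DetC z a) (ε : F) : E g (det z) ε := by
  obtain ⟨d, d0, c⟩ := E_of s
  simpa [d0] using c (ε / d) (H _)

theorem CC.E (c : CC g k h) (e : k = P * Q) (e' : h = P * Q) (m : P.Monic) (p : Irreducible P) (d : ¬ P ∣ Q) (ε : F) : E g (N k) ε := by
  obtain ⟨z, a, b⟩ := c
  have m' : Q.Monic := m.of_mul_monic_left (e ▸ a.monic)
  refine a.det ▸ E_of' (b.sim (e' ▸ e ▸ a)) (fun x => (((cy_blk m).prodMap (cy_blk m') (p.coprime_iff_not_dvd.2 d)).sim (e ▸ a)).detC ?_) ε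
  simpa using (detC_of_irreducible (by rw [ED_blk (.of_irr m p)]; simp) p x).prodMap (detC_one (xmul F (Blk Q)))

/-- admissible blocks -/
def Ok (s : Multiset F[X]) : Prop := ∀ f ∈ s, f.Monic ∧ 0 < f.natDegree ∧ N f ≠ 0

/-- determinant of a block sum -/
noncomputable def D (s : Multiset F[X]) : F := (s.map N).prod

theorem D_add : D (s + t) = D s * D t := by simp [D]

theorem D_cons : D (f ::ₘ s) = N f * D s := by simp [D]

theorem Ok.D (o : Ok s) : D s ≠ 0 := Multiset.prod_ne_zero fun l => by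
  obtain ⟨f, a, b⟩ := Multiset.mem_map.1 l; exact (o f a).2.2 b

theorem Ok.mono (o : Ok s) (l : t ≤ s) : Ok t := fun f a => o f (Multiset.mem_of_le l a)

theorem D_ne (o : Ok s) (H : ∀ u ≤ s, u ≠ 0 → D u ≠ 1) (l : t < s) (h0 : α ≠ 0) : X - C (D s * α) ≠ X - C (D t * α) := fun e => by
  obtain ⟨u, rfl⟩ := exists_add_of_le l.le
  refine H u le_add_self (by rintro rfl; simp at l) (mul_left_cancel₀ (o.mono l.le).D ?_)
  simpa [h0, D_add, ← map_mul] using e

theorem acc (o : Ok s) (H : ∀ u ≤ s, u ≠ 0 → D u ≠ 1) (h0 : α ≠ 0) (h1 : ρ ≠ 0) : ∃ k h, CC (std s) k h ∧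
    k * (X - C (D s * α)) = h * (X - C α) ∧ (∀ P, P.Monic → Irreducible P → P ∣ k → P = X - C ρ ∨ ∃ t < s, P = X - C (D t * α)) ∧
      ∀ P, P.Monic → Irreducible P → P ∣ h → P = X - C ρ ∨ ∃ t ≤ s, t ≠ 0 ∧ P = X - C (D t * α) := by
  induction s using Multiset.induction with
  | empty =>
    have c (z : End F (Std (0 : Multiset F[X]))) : Cy z 1 := cy_of_gen (v := 0) (Subsingleton.elim _ _) monic_one
      (by simp [finrank_zero_of_subsingleton]) (Subsingleton.elim _ _)
    exact ⟨1, 1, ⟨1, c _, c _⟩, by simp [D], fun P _ p d => (p.not_dvd_one d).elim, fun P _ p d => (p.not_dvd_one d).elim⟩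
  | cons f s ih =>
    have l := Multiset.lt_cons_self s f
    obtain ⟨k, h, c, e, a, b⟩ := ih (o.mono l.le) fun u hu => H u (hu.trans l.le)
    obtain ⟨m, d, f0⟩ := o f (by simp)
    obtain ⟨n, d⟩ := Nat.exists_eq_add_one.2 d
    have c' := blk (cy_blk m) (unit_blk m f0) d h1 (β := D s * α) (by_contra fun x => D_ne o H l h0 (by push Not at x; rw [D_cons, mul_assoc, x.2, x.1]))
    rw [← mul_assoc, ← D_cons] at c'
    refine ⟨_, _, (c'.glue c (unit_blk m f0) ρ ρ (fun P m p x y => ?_) fun P m p x y => ?_).of_sim (sim_std_cons f s).symm,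
      by linear_combination (X - C ρ) ^ n * (X - C (D (f ::ₘ s) * α)) * e, fun P m p x => ?_, fun P m p x => ?_⟩
    · exact (lin_of_dvd m p x).elim id fun x => (a P m p y).elim id fun ⟨t, i, y⟩ =>
        (D_ne (o.mono l.le) (fun u hu => H u (hu.trans l.le)) i h0 (x.symm.trans y)).elim
    · exact (lin_of_dvd m p x).elim id fun x => (b P m p y).elim id fun ⟨t, i, y⟩ => (D_ne o H (i.trans_lt l) h0 (x.symm.trans y.2)).elim
    · exact (p.prime.dvd_or_dvd x).elim (fun x => (lin_of_dvd m p x).imp_right fun x => ⟨s, l, x⟩) fun x =>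
        (a P m p x).imp_right fun ⟨t, i, y⟩ => ⟨t, i.trans l, y⟩
    · exact (p.prime.dvd_or_dvd x).elim (fun x => (lin_of_dvd m p x).imp_right fun x => ⟨_, le_rfl, by simp, x⟩) fun x =>
        (b P m p x).imp_right fun ⟨t, i, y⟩ => ⟨t, i.trans l.le, y⟩

theorem N_ne (o : Ok s) (h0 : α ≠ 0) (h1 : ρ ≠ 0)
    (a : ∀ P, P.Monic → Irreducible P → P ∣ k → P = X - C ρ ∨ ∃ t < s, P = X - C (D t * α)) : N k ≠ 0 := fun e =>
  (a X monic_X irreducible_X (X_dvd_iff.2 (by simpa [N] using e))).elim (fun e => h1 (by simpa using congr(($e).coeff 0))) fun ⟨t, i, e⟩ =>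
    mul_ne_zero (o.mono i.le).D h0 (by simpa using congr(($e).coeff 0))

theorem big (o : Ok (f ::ₘ s)) (H : ∀ u ≤ s, u ≠ 0 → D u ≠ 1) (e : D (f ::ₘ s) = 1) (d : 3 ≤ f.natDegree) (h0 : δ ≠ 0) (ε : F) :
    E (std (f ::ₘ s)) δ ε := by
  have o' := o.mono (Multiset.le_cons_self s f)
  obtain ⟨k, h, c, x, a, b⟩ := acc o' H one_ne_zero one_ne_zero
  obtain ⟨m, -, f0⟩ := o f (by simp)
  obtain ⟨n, d⟩ := Nat.exists_eq_add_of_le' d
  have k0 := N_ne o' one_ne_zero one_ne_zero a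
  obtain ⟨τ, p⟩ := exists_qd (div_ne_zero h0 (mul_ne_zero o'.D k0))
  have c' := blkQ (cy_blk m) (unit_blk m f0) d one_ne_zero (mul_ne_zero o'.D one_ne_zero) p
    (h := (X - C 1) ^ n * (X - C 1) * qd τ (δ / (D s * N k))) (monic_lin.mul monic_qd) (by rw [monic_lin.natDegree_mul monic_qd, deg_lin, deg_qd]) (by
      rw [N_mul monic_lin monic_qd, ← pow_succ, N_pow, N_qd]; rw [D_cons] at e; simp [← mul_assoc, e])
  have q {P : F[X]} (m : P.Monic) (p' : Irreducible P) (y : P ∣ qd τ (δ / (D s * N k))) {a : F} : P ≠ X - C a := fun e =>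
    qd_ne ((eq_of_monic_of_associated m monic_qd (p'.associated_of_dvd p y)).symm.trans e)
  have := (c'.glue c (unit_blk m f0) 1 1 (fun P m p x y => (a P m p y).elim id fun ⟨t, i, y⟩ => (p.prime.dvd_or_dvd x).elim
      (fun x => (lin_of_dvd m p x).elim id fun x => (D_ne o' H i one_ne_zero (x.symm.trans y)).elim) fun x => (q m p x y).elim)
    fun P m p x y => (b P m p y).elim id fun ⟨t, _, y⟩ => (p.prime.dvd_or_dvd x).elim (fun x => (lin_of_dvd m p x).elim id id)
      fun x => (q m p x y.2).elim).E (Q := (X - C 1) ^ n * (X - C (D s * 1)) * k) (by ring) (by linear_combination -(X - C 1) ^ n * qd τ _ * x)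
    monic_qd p (fun y => (p.prime.dvd_or_dvd y).elim (fun y => (lin_of_dvd monic_qd p y).elim qd_ne qd_ne) fun y =>
      (a _ monic_qd p y).elim qd_ne fun ⟨_, _, y⟩ => qd_ne y) ε
  rw [N_mul (monic_lin.mul monic_qd) c.choose_spec.1.monic, N_mul monic_lin monic_qd, N_mul ((monic_X_sub_C _).pow _) (monic_X_sub_C _),
    N_pow, N_lin, N_qd, show _ * N k = δ by have := o'.D; field_simp; simp] at this
  exact this.of_sim (sim_std_cons f s).symm

theorem two (Q : ∀ x y : F, ∃ ρ ≠ 0, ρ ≠ x ∧ ρ ≠ y) (o : Ok (f ::ₘ s)) (H : ∀ u ≤ s, u ≠ 0 → D u ≠ 1) (e : D (f ::ₘ s) = 1)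
    (d : f.natDegree = 2) : E (std (f ::ₘ s)) 1 1 := by
  have o' := o.mono (Multiset.le_cons_self s f)
  obtain ⟨α, h0, h1, h2⟩ := Q 1 (-1)
  obtain ⟨ρ, h3, h4, h5⟩ := Q α (D s * α)
  obtain ⟨k, h, c, x, a, b⟩ := acc o' H h0 h3
  obtain ⟨m, -, f0⟩ := o f (by simp)
  have k0 := N_ne o' h0 h3 a
  have b0 := mul_ne_zero o'.D h0
  have y : N f * (D s * α) = α := by rw [← mul_assoc, ← D_cons, e, one_mul]
  have w : D s * α ≠ (D s * α * N k)⁻¹ ∨ α ≠ (D s * α * N k)⁻¹ := by
    by_contra! l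
    obtain rfl : s = 0 := by_contra fun n => H s le_rfl n (mul_right_cancel₀ h0 (by rw [l.1, ← l.2, one_mul]))
    rw [c.choose_spec.1.monic.natDegree_eq_zero.1 (c.choose_spec.1.deg.trans finrank_zero_of_subsingleton)] at l
    exact (mul_self_eq_one_iff.1 ((mul_eq_one_iff_eq_inv₀ h0).2 (by simpa [D, N] using l.2))).elim h1 h2
  have c' := blk (cy_blk m) (unit_blk m f0) d (inv_ne_zero (mul_ne_zero b0 k0)) (β := D s * α) (by rwa [y])
  rw [y] at c'
  have n1 : ¬ X - C (D s * α) ∣ k := fun l => (a _ (monic_X_sub_C _) (irreducible_X_sub_C _) l).elim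
    (fun l => h5 (by simpa [eq_comm, ← map_mul] using l)) fun ⟨t, i, l⟩ => D_ne o' H i h0 l
  have n2 : ¬ X - C α ∣ h := fun l => (b _ (monic_X_sub_C _) (irreducible_X_sub_C _) l).elim
    (fun l => h4 (by simpa [eq_comm] using l)) fun ⟨t, i, j, l⟩ => H t i j (by simpa [h0, ← map_mul] using l.symm)
  have c'' := c'.glue c (unit_blk m f0) _ _ (fun P m p x y => (lin_of_dvd m p x).elim id fun x => (n1 (x ▸ y)).elim)
    fun P m p x y => (lin_of_dvd m p x).elim id fun x => (n2 (x ▸ y)).elim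
  have r {a b : F} {k : F[X]} (l : a ≠ b) (n : ¬ X - C a ∣ k) : ¬ X - C a ∣ (X - C b) * k := fun y =>
    ((prime_X_sub_C a).dvd_or_dvd y).elim (fun y => l (by simpa [dvd_iff_isRoot, sub_eq_zero] using y)) n
  have := w.elim (fun w => c''.E (by ring) (by linear_combination -(X - C _) * x) (monic_X_sub_C _) (irreducible_X_sub_C _) (r w n1) 1)
    fun w => c''.E (by linear_combination (X - C _) * x) (by ring) (monic_X_sub_C _) (irreducible_X_sub_C _) (r w n2) 1
  rw [N_mul monic_lin c.choose_spec.1.monic, N_mul ((monic_X_sub_C _).pow _) (monic_X_sub_C _), N_pow, N_lin,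
    show _ * N k = 1 by have := o'.D; field_simp] at this
  exact this.of_sim (sim_std_cons f s).symm

theorem scalar (d : finrank F V = n + 1) (h0 : ((n + 1 : ℕ) : F) ≠ 0) (e : α ^ (n + 1) = 1) : E (α • 1 : End F V) 1 1 := by
  have m := monic_X_pow_sub_C ((-1 : F) ^ n) n.succ_ne_zero
  obtain ⟨z, s⟩ := exists_sim (W := V) (xmul F (Blk (X ^ (n + 1) - C ((-1 : F) ^ n)))) (by rw [finrank_blk, d, natDegree_X_pow_sub_C])
  have c := (cy_blk m).of_sim s.symm
  have k : aeval z (X ^ (n + 1) - C ((-1 : F) ^ n)) = 0 := c.2 ▸ z.aeval_self_charpoly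
  obtain ⟨v, hv⟩ := c.1
  have _ := nontrivial_of_finrank_eq_succ d
  have := E_of' (g := α • 1) ((cy_of_gen (v := v) (gen_of fun Y a b => top_of_gen hv a fun y hy => by
      simpa [smul_smul, ← pow_succ, e] using Y.smul_mem (α ^ n) (b y hy)) m c.deg (by
      simpa [ev_apply, _root_.smul_pow, e] using congr($k v))).sim c)
    (ss_of_squarefree (separable_X_pow_sub_C _ h0 (by simp)).squarefree k).detC 1
  rwa [c.det, show N _ = (1 : F) by rw [N, natDegree_X_pow_sub_C, coeff_sub, coeff_C_zero]; simp [pow_succ, ← mul_pow]] at this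

theorem split (e : D s = 1) : (∃ t u, s = t + u ∧ t ≠ 0 ∧ u ≠ 0 ∧ D t = 1 ∧ D u = 1) ∨ ∀ f t, s = f ::ₘ t → ∀ u ≤ t, u ≠ 0 → D u ≠ 1 := by
  refine or_iff_not_imp_left.2 fun H f t l u i j k => ?_
  obtain ⟨w, rfl⟩ := exists_add_of_le i
  exact H ⟨u, f ::ₘ w, by simp [l], j, by simp, k, by simpa [l, D_add, k, ← Multiset.add_cons] using e⟩

theorem E_zero : E (std (0 : Multiset F[X])) 1 1 := ⟨1, 1, map_one _, map_one _, Subsingleton.elim _ _⟩

theorem main4 (Q : ∀ x y : F, ∃ ρ ≠ 0, ρ ≠ x ∧ ρ ≠ y) (o : Ok s) (e : D s = 1) : E (std s) 1 1 := by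
  induction hn : s.card using Nat.strong_induction_on generalizing s with | _ n ih =>
  obtain ⟨t, u, rfl, a, b, c, d⟩ | H := split e
  · have := Multiset.card_pos.2 a
    have := Multiset.card_pos.2 b
    simpa using (ih _ (by rw [← hn, Multiset.card_add]; omega) (o.mono le_self_add) c rfl).add (ih _ (by rw [← hn, Multiset.card_add]; omega) (o.mono le_add_self) d rfl)
  by_cases l : ∃ f ∈ s, 2 ≤ f.natDegree
  · obtain ⟨f, a, b⟩ := l
    obtain ⟨t, rfl⟩ := Multiset.exists_cons_of_mem a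
    exact b.eq_or_lt.elim (fun b => two Q o (H f t rfl) e b.symm) fun b => big o (H f t rfl) e b one_ne_zero 1
  have l (f) (a : f ∈ s) : f = X - C (N f) := by
    have := le_antisymm (Nat.le_of_lt_succ (not_le.1 fun b => l ⟨f, a, b⟩)) (o f a).2.1
    simpa [N, this] using (o f a).1.eq_X_add_C this
  obtain rfl | ⟨f, a⟩ := s.empty_or_exists_mem
  · exact E_zero
  by_cases r : ∀ f' ∈ s, f' = f
  · obtain rfl := Multiset.eq_replicate.2 ⟨hn, r⟩
    obtain ⟨n, rfl⟩ := Nat.exists_eq_add_one.2 (hn ▸ Multiset.card_pos_iff_exists_mem.2 ⟨f, a⟩)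
    have : std (.replicate (n + 1) f) = N f • 1 := by
      have := (aeval_std_eq_zero fun P b => (o P b).1.ne_zero).2 fun P b => ((r P b).trans (l f a)).dvd
      rwa [map_sub, aeval_X, aeval_C, sub_eq_zero, Algebra.algebraMap_eq_smul_one] at this
    rw [this]
    replace e : N f ^ (n + 1) = 1 := by simpa [D, pow_succ'] using e
    refine scalar (by rw [finrank_std, l f a]; simp [add_comm]) (IsPrimitiveRoot.mk_of_lt _ n.succ_pos e fun j x y => ?_).neZero'.1 e
    simpa [D] using H f _ rfl (.replicate j f) ((Multiset.replicate_le_replicate f).2 (by omega)) (by simp [← Multiset.card_eq_zero, x.ne'])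
  push Not at r
  obtain ⟨f', b, r⟩ := r
  obtain ⟨t, rfl⟩ := Multiset.exists_cons_of_mem a
  obtain ⟨u, rfl⟩ := Multiset.exists_cons_of_mem ((Multiset.mem_cons.1 b).resolve_left r)
  have m := (o f a).1.mul (o f' b).1
  refine (ih _ (by simp [← hn]) (s := (f * f') ::ₘ u) (Multiset.forall_mem_cons.2 ⟨⟨m, ?_, ?_⟩, fun P x => o P (by simp [x])⟩) ?_ rfl).of_sim
    ((sim_std_cons _ _).trans ((((cy_blk m).sim ((cy_blk (o f a).1).prodMap (cy_blk (o f' b).1) ?_)).prodMap (.refl _)).trans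
      (.trans ⟨LinearEquiv.prodAssoc F _ _ _, fun _ => rfl⟩ ((sim_std_cons _ _).trans ((Sim.refl _).prodMap (sim_std_cons _ _))).symm)))
  · rw [(o f a).1.natDegree_mul (o f' b).1]; exact Nat.add_pos_left (o f a).2.1 _
  · rw [N_mul (o f a).1 (o f' b).1]; exact mul_ne_zero (o f a).2.2 (o f' b).2.2
  · simpa [D_cons, N_mul (o f a).1 (o f' b).1, mul_assoc] using e
  rw [l f a, l f' b]
  exact isCoprime_X_sub_C_of_isUnit_sub (sub_ne_zero.2 fun x => r (by rw [l f a, l f' b, x])).isUnit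

end H19.Cm
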