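import Cfsg.Agent.H19.Cm3

/-! Commutators in `SL_n(q)` for `q = 2, 3` (`main2`, `main3`), and Thompson's theorem reduction (`sl_comm`). -/

set_option autoImplicit false
set_option linter.unusedSectionVars false

namespace H19.Cm
open Module Polynomial H11 H19.Gr Matrix
open LinearMap (ker range)

section
variable {F : Type*} [Field F] [Finite F] {f : F[X]} {s : Multiset F[X]} {a b : ℕ} {A : Matrix (Fin a) (Fin a) F} {B : Matrix (Fin b) (Fin b) F}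

theorem eq_lin (m : f.Monic) (d : f.natDegree = 1) : f = X - C (N f) := by simpa [N, d] using m.eq_X_add_C d

theorem eq_qd (m : f.Monic) (d : f.natDegree = 2) : ∃ τ, f = qd τ (N f) :=
  ⟨-f.coeff 1, by conv_lhs => rw [m.as_sum]
                  simp [qd, N, d, Finset.sum_range_succ]; ring⟩

theorem cy_mat (A : Matrix (Fin 2) (Fin 2) F) {τ δ : F} (h : A 1 0 ≠ 0 ∧ A 0 0 + A 1 1 = τ ∧ A 0 0 * A 1 1 - A 0 1 * A 1 0 = δ) :
    Cy (mE A) (qd τ δ) := by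
  obtain ⟨h, rfl, rfl⟩ := h
  refine cy_of_gen (v := ![1, 0]) (gen_of fun Y a b => eq_top_iff.2 fun y _ => ?_) monic_qd (by simp [deg_qd]) ?_
  · convert add_mem (Y.smul_mem (y 0 - y 1 / A 1 0 * A 0 0) a) (Y.smul_mem (y 1 / A 1 0) (b _ a)) using 1
    ext i; fin_cases i <;> simp [mE_apply, mulVec, dotProduct, h]
  rw [ev_apply, qd, map_add, map_sub, map_mul, map_pow, aeval_C, aeval_C, aeval_X]
  ext i; fin_cases i <;> simp [mE_apply, mulVec, dotProduct, pow_two] <;> ring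

theorem sim1 (a : F) : Sim (xmul F (Blk (X - C a))) (mE !![a]) := (cy_blk (monic_X_sub_C a)).sim
  (cy_of_gen (v := ![1]) (gen_of fun Y h _ => eq_top_iff.2 fun y _ => by convert Y.smul_mem (y 0) h using 1; ext i; fin_cases i; simp)
    (monic_X_sub_C a) (by simp) (by ext i; fin_cases i; simp [ev_apply, mE_apply, mulVec, dotProduct]))

theorem sim2 (τ δ : F) : Sim (xmul F (Blk (qd τ δ))) (mE !![0, -δ; 1, τ]) := (cy_blk monic_qd).sim (cy_mat _ (by simp))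

/-- block diagonal matrix -/
def bd (A : Matrix (Fin a) (Fin a) F) (B : Matrix (Fin b) (Fin b) F) : Matrix (Fin (a + b)) (Fin (a + b)) F :=
  reindex finSumFinEquiv finSumFinEquiv (fromBlocks A 0 0 B)

theorem sim_cons (h : Sim (xmul F (Blk f)) (mE A)) (h' : Sim (std s) (mE B)) : Sim (std (f ::ₘ s)) (mE (bd A B)) :=
  (sim_std_cons f s).trans ((h.prodMap h').trans (.trans (.symm ⟨LinearEquiv.sumArrowLequivProdArrow _ _ F F, fun v => by
    ext <;> simp [mE_apply, fromBlocks_mulVec] <;> rfl⟩) (sim_reindex _ _)))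

theorem sim_one (h : Sim (xmul F (Blk f)) (mE A)) : Sim (std {f}) (mE A) := (sim_std_singleton f).trans h

theorem E_mat (h : Sim (std s) (mE A)) {δ ε : F} (H : ∃ Z T : Matrix (Fin a) (Fin a) F, Z.det = δ ∧ T.det = ε ∧ T * (A * Z) = Z * T) :
    E (std s) δ ε := by
  obtain ⟨Z, T, c, d, e⟩ := H
  exact .of_sim ⟨mE Z, mE T, (det_mE Z).trans c, (det_mE T).trans d, by simp only [← mE_mul, e]⟩ h.symm

theorem E.add1 {t u : Multiset F[X]} (c : E (std s) 1 1) (c' : E (std t) 1 1) (h : u = s + t) : E (std u) 1 1 := by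
  subst h; simpa only [mul_one] using c.add c'

theorem sl_comm {n : ℕ} (g : Matrix.SpecialLinearGroup (Fin n) F) (H : ∀ s : Multiset F[X], Ok s → D s = 1 → (s.map natDegree).sum = n → E (std s) 1 1) :
    ∃ a b, g = a * b * a⁻¹ * b⁻¹ := by
  have m (P) (h : P ∈ ED (mE g.1)) := (pp_ED _ P h).monic
  have d {s : Multiset F[X]} (m : ∀ P ∈ s, P.Monic) : N s.prod = D s := by
    induction s using Multiset.induction with
    | empty => simp [N, D]
    | cons P s ih =>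
      rw [Multiset.forall_mem_cons] at m
      rw [Multiset.prod_cons, N_mul m.1 (by simpa using monic_multiset_prod_of_monic s id m.2), ih m.2, D_cons]
  obtain ⟨z, a, h1, h2, h⟩ := (H (ED (mE g.1)) (fun P h => ⟨m P h, JT_pos (Multiset.mem_map_of_mem _ h), fun l =>
    isUnit_iff_ED.1 (isUnit_mE_sl g) P h (X_dvd_iff.2 (by simpa [N] using l))⟩) (by
      rw [← d m, ← charpoly_eq_prod_ED, N, LinearMap.charpoly_natDegree, ← LinearMap.det_eq_sign_charpoly_coeff, det_mE, g.2])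
    (by simp [← finrank_eq_ED])).of_sim (sim_ED _).symm
  obtain ⟨z, rfl⟩ := mE_surj z
  obtain ⟨a, rfl⟩ := mE_surj a
  rw [det_mE] at h1 h2
  obtain ⟨z, rfl⟩ : ∃ y : Matrix.SpecialLinearGroup (Fin n) F, y.1 = z := ⟨⟨z, h1⟩, rfl⟩
  obtain ⟨a, rfl⟩ : ∃ y : Matrix.SpecialLinearGroup (Fin n) F, y.1 = a := ⟨⟨a, h2⟩, rfl⟩
  refine ⟨a⁻¹, z, ?_⟩
  rw [inv_inv, eq_mul_inv_iff_mul_eq, mul_assoc, eq_inv_mul_iff_mul_eq]
  exact Subtype.ext (mE_inj.1 (by simpa only [← mE_mul] using! h))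

end

theorem main3 {s : Multiset (ZMod 3)[X]} (o : Ok s) (e : D s = 1) (h0 : s ≠ 0) :
    (∀ ε, E (std s) (-1) ε) ∧ (∃ ε ≠ 0, E (std s) 1 ε) ∧ ((s.map natDegree).sum ≠ 2 → E (std s) 1 1) := by
  induction hn : s.card using Nat.strong_induction_on generalizing s with | _ n ih =>
  obtain ⟨t, u, rfl, a, b, c, d⟩ | H := split e
  · have := Multiset.card_pos.2 a
    have := Multiset.card_pos.2 b
    obtain ⟨x, ⟨ε, x0, x'⟩, -⟩ := ih _ (by rw [← hn, Multiset.card_add]; omega) (o.mono le_self_add) c a rfl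
    obtain ⟨y, -⟩ := ih _ (by rw [← hn, Multiset.card_add]; omega) (o.mono le_add_self) d b rfl
    have : E (std (t + u)) 1 1 := by simpa using (x 1).add (y 1)
    exact ⟨fun δ => by simpa [x0, mul_div_cancel₀] using x'.add (y (δ / ε)), ⟨1, one_ne_zero, this⟩, fun _ => this⟩
  by_cases l : ∃ f ∈ s, 3 ≤ f.natDegree
  · obtain ⟨f, a, b⟩ := l
    obtain ⟨t, rfl⟩ := Multiset.exists_cons_of_mem a
    exact ⟨big o (H f t rfl) e b (by decide), ⟨1, one_ne_zero, big o (H f t rfl) e b one_ne_zero 1⟩, fun _ => big o (H f t rfl) e b one_ne_zero 1⟩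
  have odd (x : ∀ ε, E (std s) (-1) ε) (y : Odd (s.map natDegree).sum) : E (std s) 1 1 := by
    simpa [finrank_std, y.neg_one_pow] using (x 1).smul (-1)
  replace l (f) (a : f ∈ s) : f.natDegree = 1 ∨ f.natDegree = 2 := by have := (o f a).2.1; have := not_le.1 fun b => l ⟨f, a, b⟩; omega
  have nd (n) : ¬ (X - C (-1) : (ZMod 3)[X]) ∣ (X - C 1) ^ n := fun d => absurd ((prime_X_sub_C _).dvd_of_dvd_pow d) (by
    rw [dvd_iff_isRoot]; simp; decide)
  obtain ⟨f, a⟩ := Multiset.exists_mem_of_ne_zero h0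
  obtain ⟨t, rfl⟩ := Multiset.exists_cons_of_mem a
  obtain ⟨m, d, f0⟩ := o f a
  obtain ⟨n, d⟩ := Nat.exists_eq_add_one.2 d
  obtain rfl | ⟨f', b⟩ := t.empty_or_exists_mem
  · replace e : N f = 1 := by simpa [D] using e
    have x (ε) : E (std {f}) (-1) ε := by
      simpa [N_mul ((monic_X_sub_C _).pow _) (monic_X_sub_C _), N_pow, N_lin, -map_neg, -map_one] using ((blk (cy_blk m) (unit_blk m f0) d one_ne_zero
        (β := -1) (.inl (by decide))).E (mul_comm _ _) (by rw [e, one_mul, mul_comm]) (monic_X_sub_C _) (irreducible_X_sub_C _) (nd _) ε).of_sim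
          (sim_std_singleton f).symm
    refine ⟨x, (l f a).elim (fun l => ⟨⟨1, one_ne_zero, odd x (by simp [l])⟩, fun _ => odd x (by simp [l])⟩) fun l => ⟨?_, by simp [l]⟩⟩
    obtain ⟨τ, rfl⟩ := e ▸ eq_qd m l
    refine ⟨if τ = 0 then 1 else 2, by split_ifs <;> decide, E_mat (sim_one (sim2 _ _)) ?_⟩
    fin_cases τ
    exacts [⟨!![2,1;2,0], !![2,2;2,1], by decide +kernel⟩, ⟨!![2,1;2,0], !![0,2;2,1], by decide +kernel⟩, ⟨!![0,1;2,1], !![2,0;2,1], by decide +kernel⟩]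
  have r {f'} (b : f' ∈ t) : N f' = -1 := (by decide : ∀ x : ZMod 3, x ≠ 0 → x ≠ 1 → x = -1) _ (o f' (by simp [b])).2.2
    (by simpa [D] using H f t rfl {f'} (by simpa) (by simp))
  obtain ⟨u, rfl⟩ := Multiset.exists_cons_of_mem b
  obtain rfl : u = 0 := by_contra fun l => by
    obtain ⟨P, c⟩ := Multiset.exists_mem_of_ne_zero l
    exact H f _ rfl {f', P} (by simpa) (by simp) (by simp [D, r b, r (Multiset.mem_cons_of_mem c)])
  replace b : f' ∈ f ::ₘ {f'} := by simp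
  replace r := r (f' := f') (by simp)
  replace e : N f = -1 := by simpa [D, r, neg_eq_iff_eq_neg] using e
  obtain ⟨m', d', f0'⟩ := o f' b
  obtain ⟨n', d'⟩ := Nat.exists_eq_add_one.2 d'
  have x (ε) : E (std (f ::ₘ {f'})) (-1) ε := by
    have c := blk (cy_blk m) (unit_blk m f0) d one_ne_zero (β := -1) (.inl (by decide))
    have c' := blk (cy_blk m') (unit_blk m' f0') d' one_ne_zero (β := 1) (.inr (by rw [r]; decide))
    rw [e, neg_mul_neg, one_mul] at c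
    rw [r, mul_one] at c'
    simpa [N_mul monic_lin monic_lin, N_mul ((monic_X_sub_C _).pow _) (monic_X_sub_C _), N_pow, N_lin, -map_neg, -map_one] using
      ((c.glue c' (unit_blk m f0) 1 1 (fun P m p _ y => (lin_of_dvd m p y).elim id id) fun P m p y _ => (lin_of_dvd m p y).elim id id).E
        (Q := (X - C 1) ^ (n + n' + 1)) (by ring) (by ring) (monic_X_sub_C _) (irreducible_X_sub_C _) (nd _) ε).of_sim
          ((sim_std_cons _ _).trans ((Sim.refl _).prodMap (sim_std_singleton _))).symm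
  refine ⟨x, ?_⟩
  obtain l | l := l f a <;> obtain l' | l' := ‹∀ f ∈ _, _ ∨ _› f' b
  · refine ⟨?_, by simp [l, l']⟩
    rw [eq_lin m l, eq_lin m' l', e, r]
    exact ⟨1, one_ne_zero, E_mat (sim_cons (sim1 _) (sim_one (sim1 _))) ⟨!![0,1;2,0], !![2,1;1,1], by decide +kernel⟩⟩
  iterate 2 exact ⟨⟨1, one_ne_zero, odd x (by simp [l, l']; decide)⟩, fun _ => odd x (by simp [l, l']; decide)⟩
  obtain ⟨τ, rfl⟩ := e ▸ eq_qd m l
  obtain ⟨τ', rfl⟩ := r ▸ eq_qd m' l'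
  refine (fun this => ⟨⟨1, one_ne_zero, this⟩, fun _ => this⟩) ?_
  refine E_mat (sim_cons (sim2 _ _) (sim_one (sim2 _ _))) ?_
  fin_cases τ <;> fin_cases τ'
  exacts [⟨!![2,0,2,0;0,1,0,1;1,1,0,0;1,0,0,0], !![2,0,2,1;2,1,1,0;1,0,1,0;1,1,1,2], by decide +kernel⟩,
    ⟨!![1,0,0,0;0,0,0,1;1,1,1,1;0,0,1,0], !![0,0,2,0;2,2,2,2;0,1,2,2;1,2,0,1], by decide +kernel⟩,
    ⟨!![1,0,0,0;0,0,0,1;1,1,1,1;0,0,1,0], !![0,0,2,0;0,2,2,2;1,2,2,0;1,2,2,2], by decide +kernel⟩,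
    ⟨!![0,2,0,0;0,2,1,2;1,1,0,0;0,1,0,2], !![2,1,0,1;2,0,0,0;1,2,2,1;2,1,0,0], by decide +kernel⟩,
    ⟨!![0,1,0,1;0,2,0,0;0,1,2,1;2,0,0,0], !![0,2,0,2;2,1,1,1;0,0,0,2;2,1,0,0], by decide +kernel⟩,
    ⟨!![2,0,0,2;0,0,1,0;0,2,0,0;0,0,0,2], !![0,1,1,2;0,1,1,0;2,0,1,1;1,1,1,1], by decide +kernel⟩,
    ⟨!![0,2,1,0;1,2,0,1;0,0,0,1;2,2,1,1], !![0,2,1,0;1,2,0,0;1,1,0,2;0,2,1,2], by decide +kernel⟩,
    ⟨!![0,1,1,0;1,0,0,0;0,1,0,0;2,0,1,1], !![2,2,1,0;0,1,2,1;2,1,1,0;2,1,0,2], by decide +kernel⟩,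
    ⟨!![2,1,0,1;0,2,0,0;1,2,0,0;0,0,2,0], !![1,1,2,2;0,0,2,0;0,2,0,0;2,0,0,0], by decide +kernel⟩]

theorem E_three : E (std {qd (0 : ZMod 2) 1, qd 0 1, qd 0 1}) 1 1 := by
  have u (Z : Matrix (Fin 6) (Fin 6) (ZMod 2)) (k) (h : Z ^ (k + 1) = 1) : Z.det = 1 :=
    (by decide : ∀ x : ZMod 2, x ≠ 0 → x = 1) _ fun l => by simpa [l] using congr(det $h)
  refine E_mat (a := 6) (sim_cons (sim2 _ _) (sim_cons (sim2 _ _) (sim_one (sim2 _ _))))
    ⟨!![0,0,0,1,0,1;0,0,0,0,1,0;1,0,0,0,0,1;1,0,1,0,0,1;0,0,1,1,0,0;1,1,0,0,1,0], !![0,1,0,0,0,0;0,0,1,1,0,1;0,0,1,1,1,0;1,0,1,1,1,1;0,0,0,1,0,0;1,0,1,0,1,0],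
      u _ 5 ?_, u _ 3 ?_, ?_⟩ <;> decide +kernel

theorem main2 {s : Multiset (ZMod 2)[X]} (o : Ok s) (h0 : s ≠ {qd 0 1}) : E (std s) 1 1 := by
  have e {f : (ZMod 2)[X]} (h : N f ≠ 0) : N f = 1 := (by decide : ∀ x : ZMod 2, x ≠ 0 → x = 1) _ h
  have g1 (f : (ZMod 2)[X]) (o : f.Monic ∧ 0 < f.natDegree ∧ N f ≠ 0) : (f ≠ qd 0 1 → E (std {f}) 1 1) ∧ E (std {qd 0 1, f}) 1 1 := by
    obtain ⟨m, d, f0⟩ := o
    obtain l | l | l : f.natDegree = 1 ∨ f.natDegree = 2 ∨ 3 ≤ f.natDegree := by omega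
    · rw [eq_lin m l, e f0]
      exact ⟨fun _ => E_mat (sim_one (sim1 _)) ⟨1, 1, by decide +kernel⟩, E_mat (sim_cons (sim2 _ _) (sim_one (sim1 _)))
        ⟨!![1,0,1;0,1,1;1,0,0], !![1,1,1;0,0,1;1,0,1], by decide +kernel⟩⟩
    · obtain ⟨τ, rfl⟩ := e f0 ▸ eq_qd m l
      refine ⟨fun h => E_mat (sim_one (sim2 _ _)) ?_, E_mat (sim_cons (sim2 _ _) (sim_one (sim2 _ _))) ?_⟩ <;> fin_cases τ
      exacts [(h rfl).elim, ⟨!![0,1;1,0], !![0,1;1,1], by decide +kernel⟩,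
        ⟨!![0,0,0,1;0,1,0,1;1,0,0,0;1,0,1,0], !![1,0,0,0;1,0,1,0;0,0,0,1;0,1,0,1], by decide +kernel⟩,
        ⟨!![0,1,1,0;1,1,0,1;1,0,0,0;0,0,1,0], !![1,1,1,1;1,0,0,1;1,0,1,0;0,0,0,1], by decide +kernel⟩]
    refine ⟨fun _ => big (s := 0) (by simpa [Ok] using ⟨m, d, f0⟩) (by simp) (by simp [D, e f0]) l one_ne_zero 1, ?_⟩
    obtain ⟨n, d⟩ := Nat.exists_eq_add_of_le' l
    have p : Irreducible (qd (1 : ZMod 2) 1) := irreducible_of_degree_le_three_of_not_isRoot (by simp [deg_qd]) (by simp [qd])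
    have j : qd (0 : ZMod 2) 1 = (X - C 1) ^ 1 * (X - C 1) := by simp [qd, ← pow_two, CharTwo.sub_eq_add, CharTwo.add_sq]
    have c : CC (mE !![0, -1; 1, (0 : ZMod 2)]) (qd 0 1) (qd 1 1) := ⟨mE !![1,0;1,1], cy_mat _ (by decide), by rw [← mE_mul]; exact cy_mat _ (by decide)⟩
    have := ((c.of_sim (sim2 _ _).symm).glue (blkQ (cy_blk m) (unit_blk m f0) d one_ne_zero one_ne_zero p (h := (X - C 1) ^ (n + 2) * (X - C 1))
      monic_lin deg_lin (by rw [← pow_succ, N_pow, e f0]; simp)) (unit_blk monic_qd (by simp [N_qd])) 1 1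
      (fun P m p y _ => (lin_of_dvd m p (j ▸ y)).elim id id) fun P m p _ y => (lin_of_dvd m p y).elim id id).E (by rw [j]; ring) rfl monic_qd p
        (fun y => (lin_of_dvd monic_qd p y).elim qd_ne qd_ne) 1
    rw [N_mul monic_qd (monic_lin.mul monic_qd), N_mul monic_lin monic_qd, ← pow_succ, N_pow, N_qd, N_qd] at this
    simpa using this.of_sim ((sim_std_cons _ _).trans ((Sim.refl _).prodMap (sim_std_singleton _))).symm
  induction hn : s.card using Nat.strong_induction_on generalizing s with | _ n ih =>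
  by_cases a : qd 0 1 ∈ s
  · obtain ⟨t, rfl⟩ := Multiset.exists_cons_of_mem a
    obtain ⟨f, b⟩ := Multiset.exists_mem_of_ne_zero (s := t) (by rintro rfl; exact h0 rfl)
    obtain ⟨u, rfl⟩ := Multiset.exists_cons_of_mem b
    have k := g1 f (o f (by simp))
    by_cases c : u = {qd 0 1}; swap
    · exact k.2.add1 (ih _ (by simp [← hn]) (fun P x => o P (by simp [x])) c rfl) (Multiset.cons_add _ {f} u).symm
    subst c
    by_cases d : f = qd 0 1; swap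
    · exact (k.1 d).add1 (g1 _ (o _ a)).2 (Multiset.cons_swap ..)
    exact d ▸ E_three
  obtain rfl | ⟨f, b⟩ := s.empty_or_exists_mem
  · exact E_zero
  obtain ⟨t, rfl⟩ := Multiset.exists_cons_of_mem b
  exact ((g1 f (o f b)).1 (by rintro rfl; exact a b)).add1 (ih _ (by simp [← hn]) (o.mono (Multiset.le_cons_self t f))
    (by rintro rfl; simp at a) rfl) rfl

end H19.Cm
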