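import Mathlib

/-! Linked symmetric designs of prime order (`ld`): three twisted 2-transitive actions
`ρ, ρσ, ρσ²` of prime degree `p` of a group of order not divisible by `p²` have `ρ ≃ ρσ²`;
a design counting lemma (`design`) and the parity of involutions (`sign_invol`). -/

namespace H19.DP
open Matrix Finset

section LD
variable {T X : Type*} [Group T] [Fintype X] [DecidableEq X]

def Inv (ρ σ : T →* Equiv.Perm X) (M : Matrix X X ℤ) : Prop :=
  ∀ t u v, M (ρ t u) (σ t v) = M u v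

def Two (ρ : T →* Equiv.Perm X) : Prop :=
  ∀ u u' v v', u ≠ u' → v ≠ v' → ∃ t, ρ t u = v ∧ ρ t u' = v'

variable {ρ σ τ : T →* Equiv.Perm X} {A B M : Matrix X X ℤ}

omit [DecidableEq X] in
theorem Inv.mul (hA : Inv ρ σ A) (hB : Inv σ τ B) : Inv ρ τ (A * B) := by
  intro t u v
  simp only [Matrix.mul_apply]
  rw [← Equiv.sum_comp (σ t)]
  exact Finset.sum_congr rfl fun w _ => by rw [hA, hB]

omit [DecidableEq X] [Fintype X] in
theorem Inv.tr (hA : Inv ρ σ A) : Inv σ ρ Aᵀ := fun t u v => hA t v u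

omit [DecidableEq X] [Fintype X] in
theorem Two.trans [Nontrivial X] (h : Two ρ) (u v : X) : ∃ t, ρ t u = v := by
  obtain ⟨u', hu⟩ := exists_ne u
  obtain ⟨v', hv⟩ := exists_ne v
  obtain ⟨t, ht, -⟩ := h u u' v v' hu.symm hv.symm
  exact ⟨t, ht⟩

omit [Fintype X] in
theorem Inv.two [Nontrivial X] (h2 : Two ρ) (hM : Inv ρ ρ M) :
    ∃ ν l : ℤ, ∀ u v, M u v = (if u = v then ν else 0) + l := by
  obtain ⟨a, b, hab⟩ := exists_pair_ne X
  refine ⟨M a a - M a b, M a b, fun u v => ?_⟩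
  split_ifs with h
  · subst h
    obtain ⟨t, rfl⟩ := h2.trans a u
    rw [hM]; ring
  · obtain ⟨t, rfl, rfl⟩ := h2 a b u v hab h
    rw [hM]; ring

omit [DecidableEq X] in
theorem Inv.row [Nontrivial X] (h2 : Two ρ) (hA : Inv ρ σ A) : ∃ k, ∀ u, ∑ v, A u v = k := by
  obtain ⟨a, -⟩ := exists_pair_ne X
  refine ⟨∑ v, A a v, fun u => ?_⟩
  obtain ⟨t, rfl⟩ := h2.trans a u
  rw [← Equiv.sum_comp (σ t)]
  exact Finset.sum_congr rfl fun w _ => hA _ _ _

theorem norm_vec {ν l : ℤ} (hA : ∀ u v, (A * Aᵀ) u v = (if u = v then ν else 0) + l)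
    (w : X → ℤ) (hw : ∑ u, w u = 0) :
    ∑ v, (∑ u, w u * A u v) ^ 2 = ν * ∑ u, w u ^ 2 := by
  have h1 : ∑ v, (∑ u, w u * A u v) ^ 2 = ∑ u, ∑ u', w u * w u' * (A * Aᵀ) u u' := by
    simp only [sq, Finset.sum_mul_sum]
    simp only [Matrix.mul_apply, Matrix.transpose_apply, Finset.mul_sum]
    rw [Finset.sum_comm]
    refine Finset.sum_congr rfl fun u _ => ?_
    rw [Finset.sum_comm]
    refine Finset.sum_congr rfl fun u' _ => Finset.sum_congr rfl fun v _ => by ring
  rw [h1]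
  have h2 : ∀ u, ∑ u', w u * w u' * (A * Aᵀ) u u' = ν * w u ^ 2 := by
    intro u
    simp only [hA, mul_add, Finset.sum_add_distrib, mul_ite, mul_zero, Finset.sum_ite_eq,
      Finset.mem_univ, if_true]
    have : ∑ u', w u * w u' * l = 0 := by
      rw [← Finset.sum_mul, ← Finset.mul_sum, hw]; ring
    rw [this]; ring
  simp only [h2, Finset.mul_sum]

/-- the difference vector -/
def dv (x y : X) : X → ℤ := fun u => (if u = x then 1 else 0) - (if u = y then 1 else 0)

theorem dv_sum (x y : X) : ∑ u, dv x y u = 0 := by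
  simp [dv, Finset.sum_sub_distrib]

theorem dv_mul (x y : X) (f : X → ℤ) : ∑ u, dv x y u * f u = f x - f y := by
  simp [dv, sub_mul, Finset.sum_sub_distrib]

theorem dv_sq {x y : X} (h : x ≠ y) : ∑ u, dv x y u ^ 2 = 2 := by
  have := dv_mul x y (dv x y)
  simp only [sq]
  rw [this]; simp [dv, h, h.symm]

theorem nu_ne [Nontrivial X] {ν l k : ℤ}
    (hA : ∀ u v, (A * Aᵀ) u v = (if u = v then ν else 0) + l) (hk : ∀ v, ∑ u, A u v = k)
    {u0 v0 u1 v1 : X} (hne : A u0 v0 ≠ A u1 v1) : ν ≠ 0 := by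
  intro h0
  have hrow : ∀ x y v, A x v = A y v := by
    intro x y v
    have h := norm_vec hA (dv x y) (dv_sum x y)
    rw [h0, zero_mul] at h
    have := (Finset.sum_eq_zero_iff_of_nonneg (fun v _ => sq_nonneg _)).1 h v (mem_univ _)
    rw [dv_mul x y (fun u => A u v)] at this
    have := pow_eq_zero_iff (two_ne_zero) |>.1 this
    linarith
  have h1 : ∀ u v, (Fintype.card X : ℤ) * A u v = k := by
    intro u v
    rw [← hk v, Finset.sum_congr rfl (fun x _ => hrow x u v)]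
    simp
  have := (h1 u0 v0).trans (h1 u1 v1).symm
  exact hne (mul_left_cancel₀ (by exact_mod_cast Fintype.card_ne_zero) this)

open Classical in
/-- indicator matrix of an orbit on pairs -/
noncomputable def ind (ρ σ : T →* Equiv.Perm X) (a : X) : Matrix X X ℤ :=
  fun u v => if ∃ t, ρ t a = u ∧ σ t a = v then 1 else 0

omit [Fintype X] [DecidableEq X] in
theorem ind_inv (a : X) : Inv ρ σ (ind ρ σ a) := by
  intro t u v
  unfold ind
  congr 1
  apply propext
  constructor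
  · rintro ⟨s, h1, h2⟩
    refine ⟨t⁻¹ * s, ?_, ?_⟩
    · rw [map_mul, Equiv.Perm.mul_apply, h1, map_inv]; simp
    · rw [map_mul, Equiv.Perm.mul_apply, h2, map_inv]; simp
  · rintro ⟨s, h1, h2⟩
    exact ⟨t * s, by rw [map_mul, Equiv.Perm.mul_apply, h1],
      by rw [map_mul, Equiv.Perm.mul_apply, h2]⟩

omit [Fintype X] [DecidableEq X] in
theorem ind_val (a u v : X) : ind ρ σ a u v = 0 ∨ ind ρ σ a u v = 1 := by
  unfold ind; split_ifs <;> simp

omit [Fintype X] [DecidableEq X] in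
theorem ind_self (a : X) : ind ρ σ a a a = 1 := by
  unfold ind; rw [if_pos ⟨1, by simp, by simp⟩]

omit [DecidableEq X] in
theorem ind_zero [Finite T] (a : X) (h : ¬ Fintype.card X ^ 2 ∣ Nat.card T) :
    ∃ u v, ind ρ σ a u v = 0 := by
  by_contra hc
  push Not at hc
  apply h
  letI : MulAction T (X × X) :=
    { smul := fun t w => (ρ t w.1, σ t w.2)
      one_smul := fun w => by
        change (ρ 1 w.1, σ 1 w.2) = w
        simp
      mul_smul := fun s t w => by
        change (ρ (s * t) w.1, σ (s * t) w.2) = (ρ s (ρ t w.1), σ s (σ t w.2))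
        simp }
  have hall : ∀ w : X × X, ∃ t : T, t • (a, a) = w := by
    intro w
    have := hc w.1 w.2
    unfold ind at this
    split_ifs at this with h1
    · obtain ⟨t, h1, h2⟩ := h1
      exact ⟨t, Prod.ext h1 h2⟩
    · exact absurd rfl this
  haveI : MulAction.IsPretransitive T (X × X) := ⟨fun x y => by
    obtain ⟨s, rfl⟩ := hall x
    obtain ⟨t, rfl⟩ := hall y
    exact ⟨t * s⁻¹, by rw [mul_smul, inv_smul_smul]⟩⟩
  have := MulAction.index_stabilizer_of_transitive T ((a, a) : X × X)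
  rw [Nat.card_prod, Nat.card_eq_fintype_card, ← sq] at this
  rw [← this]
  exact Subgroup.index_dvd_card _

theorem arith {p : ℕ} (hp : p.Prime) {k m l : ℤ} (hm : 0 ≤ m) (hl : 0 ≤ l) (hk0 : 0 < k)
    (hkp : k < p) (h1 : k = m ^ 2 + l) (h2 : k * k = m ^ 2 + l * p) : k = 1 ∨ k = p - 1 := by
  have hpi : Prime (p : ℤ) := Nat.prime_iff_prime_int.1 hp
  have hp0 : (0 : ℤ) < p := by exact_mod_cast hp.pos
  have hmk : m ≤ k := by nlinarith
  have h3 : (k - m) * (k + m) = p * l := by linarith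
  rcases hpi.dvd_or_dvd (Dvd.intro _ h3.symm) with h | h
  · have : k - m = 0 := Int.eq_zero_of_dvd_of_nonneg_of_lt (by linarith) (by linarith) h
    have hl0 : l = 0 := by
      rw [this, zero_mul] at h3
      rcases mul_eq_zero.1 h3.symm with h | h
      · linarith
      · exact h
    left
    have hkm : k = m := by linarith
    rw [← hkm, hl0] at h1
    nlinarith
  · obtain ⟨c, hc⟩ := h
    have hc1 : c = 1 := by
      have : 0 < c := by
        by_contra h
        nlinarith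
      have : c < 2 := by
        by_contra h
        nlinarith
      omega
    rw [hc1, mul_one] at hc
    rw [hc, mul_comm] at h3
    have h4 : k - m = l := mul_left_cancel₀ hp0.ne' h3
    have h5 : m * (m - 1) = 0 := by nlinarith
    rcases mul_eq_zero.1 h5 with h | h
    · linarith
    · right; linarith

omit [DecidableEq X] in
theorem uniq_one (f : X → ℤ) (hf : ∀ z, f z = 0 ∨ f z = 1) (hs : ∑ z, f z = 1) :
    ∃ z, f z = 1 ∧ ∀ z', f z' = 1 → z' = z := by
  classical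
  have h1 : ∑ z, f z = ((univ.filter fun z => f z = 1).card : ℤ) := by
    rw [Finset.card_filter]; push_cast
    exact Finset.sum_congr rfl fun z _ => by rcases hf z with h | h <;> simp [h]
  rw [hs] at h1
  obtain ⟨z, hz⟩ := Finset.card_eq_one.1 (by exact_mod_cast h1.symm :
    (univ.filter fun z => f z = 1).card = 1)
  have hm : ∀ z', f z' = 1 ↔ z' = z := fun z' => by
    rw [← Finset.mem_singleton (a := z) (b := z'), ← hz]; simp
  exact ⟨z, (hm z).2 rfl, fun z' h => (hm z').1 h⟩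

theorem ld [Finite T] {p : ℕ} (hp : p.Prime) (hX : Fintype.card X = p) (ρ : T →* Equiv.Perm X)
    (s : T →* T) (hs : Function.Surjective s) (h2 : Two ρ) (hT : ¬ p ^ 2 ∣ Nat.card T) (u : X) :
    ∃ z, ∀ t, ρ t u = u → ρ (s (s t)) z = z := by
  haveI : Nontrivial X := Fintype.one_lt_card_iff_nontrivial.1 (hX ▸ hp.one_lt)
  have tw : ∀ {ρ' : T →* Equiv.Perm X}, Two ρ' → Two (ρ'.comp s) := by
    intro ρ' h a a' b b' h1 h2
    obtain ⟨t, ht⟩ := h a a' b b' h1 h2
    obtain ⟨t, rfl⟩ := hs t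
    exact ⟨t, ht⟩
  have h21 := tw h2
  have h22 := tw h21
  obtain ⟨A, hAd⟩ : ∃ A, A = ind ρ (ρ.comp s) u := ⟨_, rfl⟩
  obtain ⟨C, hCd⟩ : ∃ C, C = ind ρ ((ρ.comp s).comp s) u := ⟨_, rfl⟩
  have hA : Inv ρ (ρ.comp s) A := hAd ▸ ind_inv u
  have hA' : Inv (ρ.comp s) ((ρ.comp s).comp s) A := fun t a b => hA (s t) a b
  have hC : Inv ρ ((ρ.comp s).comp s) C := hCd ▸ ind_inv u
  have hCv : ∀ a b, C a b = 0 ∨ C a b = 1 := fun a b => hCd ▸ ind_val u a b
  have hC1 : C u u = 1 := hCd ▸ ind_self u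
  have hA1 : A u u = 1 := hAd ▸ ind_self u
  obtain ⟨u1, v1, hC0⟩ : ∃ a b, C a b = 0 := hCd ▸ ind_zero u (hX ▸ hT)
  obtain ⟨u2, v2, hA0⟩ : ∃ a b, A a b = 0 := hAd ▸ ind_zero u (hX ▸ hT)
  obtain ⟨n, la, hn⟩ := (hA.mul hA.tr).two h2
  obtain ⟨ν, l, hν⟩ := (hC.mul hC.tr).two h2
  obtain ⟨ν', l', hν'⟩ := (hC.tr.mul hC).two h22
  obtain ⟨μ, l1, hμ⟩ := ((hA.mul hA').mul hC.tr).two h2
  obtain ⟨kA, hkA⟩ := hA.row h2
  obtain ⟨kA', hkA'⟩ := hA.tr.row h21
  obtain ⟨k, hk⟩ := hC.row h2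
  obtain ⟨k', hk'⟩ := hC.tr.row h22
  obtain ⟨kM, hkM⟩ := (hA.mul hA').row h2
  simp only [Matrix.transpose_apply] at hkA' hk'
  have hn0 : n ≠ 0 := nu_ne hn hkA' (u0 := u) (v0 := u) (u1 := u2) (v1 := v2) (by
    rw [hA1, hA0]; exact one_ne_zero)
  have hν0 : ν' ≠ 0 := nu_ne (A := Cᵀ) (by simpa using hν') (k := k) (by simpa using hk)
    (u0 := u) (v0 := u) (u1 := v1) (v1 := u1) (by
      simp only [Matrix.transpose_apply]; rw [hC1, hC0]; exact one_ne_zero)
  have rel : ∀ a z, ν' * (A * A) a z = μ * C a z + (l1 * k' - l' * kM) := by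
    intro a z
    have e : ((A * A) * (Cᵀ * C)) a z = ((A * A * Cᵀ) * C) a z := by rw [Matrix.mul_assoc (A * A)]
    rw [Matrix.mul_apply, Matrix.mul_apply (M := A * A * Cᵀ)] at e
    simp only [hν', hμ, mul_add, add_mul, Finset.sum_add_distrib, mul_ite, ite_mul, mul_zero,
      zero_mul, Finset.sum_ite_eq, Finset.sum_ite_eq', Finset.mem_univ, if_true] at e
    rw [← Finset.sum_mul, ← Finset.mul_sum, hkM, hk'] at e
    linarith
  obtain ⟨x, y, hxy⟩ := exists_pair_ne X
  have e1 := norm_vec hn (dv x y) (dv_sum x y)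
  have hw : ∑ v, (∑ a, dv x y a * A a v) = 0 := by
    rw [Finset.sum_comm]
    simp only [← Finset.mul_sum, hkA]
    rw [← Finset.sum_mul, dv_sum, zero_mul]
  have e2 := norm_vec hn _ hw
  have e3 := norm_vec hν (dv x y) (dv_sum x y)
  rw [dv_sq hxy] at e1 e3
  rw [e1] at e2
  have e4 : ∀ z, ν' * (∑ v, (∑ a, dv x y a * A a v) * A v z) = μ * ∑ a, dv x y a * C a z := by
    intro z
    have : ∑ v, (∑ a, dv x y a * A a v) * A v z = ∑ a, dv x y a * (A * A) a z := by
      simp only [Finset.sum_mul, Matrix.mul_apply, Finset.mul_sum]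
      rw [Finset.sum_comm]
      exact Finset.sum_congr rfl fun a _ => Finset.sum_congr rfl fun v _ => by ring
    rw [this, dv_mul x y (fun a => (A * A) a z), dv_mul x y (fun a => C a z), mul_sub, rel, rel]
    ring
  have e5 : ν' ^ 2 * (n * (n * 2)) = μ ^ 2 * (ν * 2) := by
    rw [← e2, ← e3, Finset.mul_sum, Finset.mul_sum]
    exact Finset.sum_congr rfl fun z _ => by rw [← mul_pow, ← mul_pow, e4]
  have e6 : (ν' * n) ^ 2 = μ ^ 2 * ν := by linarith
  have hμ0 : μ ≠ 0 := by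
    rintro rfl
    simp only [ne_eq, OfNat.ofNat_ne_zero, not_false_eq_true, zero_pow, zero_mul,
      pow_eq_zero_iff, mul_eq_zero] at e6
    tauto
  obtain ⟨m, hm⟩ : μ ∣ ν' * n := (Int.pow_dvd_pow_iff two_ne_zero).1 (Dvd.intro _ e6.symm)
  have hνm : ν = |m| ^ 2 := by
    rw [hm, mul_pow] at e6
    rw [sq_abs]
    exact (mul_left_cancel₀ (pow_ne_zero 2 hμ0) e6).symm
  have hkk : k' = k := by
    have : ∑ a, ∑ b, C a b = ∑ b, ∑ a, C a b := Finset.sum_comm
    simp only [hk, hk', Finset.sum_const, Finset.card_univ, nsmul_eq_mul] at this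
    exact (mul_left_cancel₀ (by exact_mod_cast Fintype.card_ne_zero) this).symm
  have f1 : k = ν + l := by
    have := hν x x
    rw [if_pos rfl, Matrix.mul_apply] at this
    rw [← this, ← hk x]
    exact Finset.sum_congr rfl fun b _ => by
      rcases hCv x b with h | h <;> simp [Matrix.transpose_apply, h]
  have f2 : 0 ≤ l := by
    have := hν x y
    rw [if_neg hxy, zero_add, Matrix.mul_apply] at this
    rw [← this]
    exact Finset.sum_nonneg fun b _ => by
      rcases hCv x b with h | h <;> rcases hCv y b with h' | h' <;>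
        simp [Matrix.transpose_apply, h, h']
  have f3 : k * k = ν + l * p := by
    have : ∑ a, (C * Cᵀ) x a = k * k := by
      simp only [Matrix.mul_apply, Matrix.transpose_apply]
      rw [Finset.sum_comm]
      simp only [← Finset.mul_sum, hk', hkk]
      rw [← Finset.sum_mul, hk]
    rw [← this]
    simp only [hν, Finset.sum_add_distrib, Finset.sum_ite_eq, Finset.mem_univ, if_true,
      Finset.sum_const, Finset.card_univ, nsmul_eq_mul, hX]
    ring
  have f4 : 0 < k := by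
    rw [← hk u]
    refine lt_of_lt_of_le (by rw [hC1]; exact one_pos : 0 < C u u) ?_
    exact Finset.single_le_sum (f := fun b => C u b)
      (fun b _ => by rcases hCv u b with h | h <;> simp [h]) (mem_univ u)
  have f5 : k < p := by
    rw [← hk u1, ← hX]
    have : ∑ b, C u1 b < ∑ _b : X, (1 : ℤ) :=
      Finset.sum_lt_sum (fun b _ => by rcases hCv u1 b with h | h <;> simp [h])
        ⟨v1, mem_univ _, by rw [hC0]; exact one_pos⟩
    simpa using this
  rcases arith hp (abs_nonneg m) f2 f4 f5 (hνm ▸ f1) (hνm ▸ f3) with h | h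
  · obtain ⟨z, hz, hu⟩ := uniq_one (C u) (hCv u) ((hk u).trans h)
    refine ⟨z, fun t ht => hu _ ?_⟩
    have := hC t u z
    rw [ht] at this
    exact this.trans hz
  · obtain ⟨z, hz, hu⟩ := uniq_one (fun b => 1 - C u b)
      (fun b => by rcases hCv u b with h | h <;> simp [h]) (by
        rw [Finset.sum_sub_distrib, hk, h]; simp [hX])
    refine ⟨z, fun t ht => hu _ ?_⟩
    have := hC t u z
    rw [ht] at this
    change 1 - C u (((ρ.comp s).comp s) t z) = 1
    rw [this]; exact hz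
end LD

section Design
open scoped Pointwise
variable {G Ω : Type*} [Group G] [Fintype Ω] [MulAction G Ω]

theorem design {p : ℕ} (hΩ : Fintype.card Ω = p ^ 2 + 1) (hp : 1 < p)
    (h2 : ∀ a b c d : Ω, a ≠ b → c ≠ d → ∃ g : G, g • a = c ∧ g • b = d) (F : Set Ω)
    (hF : F.ncard = p + 1) {a b : Ω} (hab : a ≠ b) (ha : a ∈ F) (hb : b ∈ F) (F1 F2 : Set Ω)
    (h : ∀ g : G, a ∈ g • F → b ∈ g • F → g • F = F1 ∨ g • F = F2) : p = 3 ∧ F1 ≠ F2 := by
  classical
  obtain ⟨𝓕, h𝓕⟩ : ∃ 𝓕 : Finset (Set Ω), ∀ E, E ∈ 𝓕 ↔ ∃ g : G, E = g • F :=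
    ⟨univ.filter fun E => ∃ g : G, E = g • F, fun E => by simp⟩
  obtain ⟨lam, hlam⟩ : ∃ lam, lam = (𝓕.filter fun E => a ∈ E ∧ b ∈ E).card := ⟨_, rfl⟩
  have hc : ∀ w ∈ (univ : Finset Ω).offDiag, (𝓕.filter fun E => w.1 ∈ E ∧ w.2 ∈ E).card = lam := by
    intro w hw
    obtain ⟨g, h1, h2⟩ := h2 a b w.1 w.2 hab (by simpa using hw)
    rw [hlam]
    symm
    refine Finset.card_bij (fun E _ => g • E) ?_ ?_ ?_
    · intro E hE
      simp only [Finset.mem_filter, h𝓕] at hE ⊢
      obtain ⟨⟨g', rfl⟩, h3, h4⟩ := hE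
      exact ⟨⟨g * g', (mul_smul _ _ _).symm⟩, h1 ▸ Set.smul_mem_smul_set h3,
        h2 ▸ Set.smul_mem_smul_set h4⟩
    · intro E _ E' _ h
      exact MulAction.injective g h
    · intro E hE
      simp only [Finset.mem_filter, h𝓕] at hE
      obtain ⟨⟨g', rfl⟩, h3, h4⟩ := hE
      refine ⟨g⁻¹ • g' • F, ?_, smul_inv_smul _ _⟩
      simp only [Finset.mem_filter, h𝓕]
      refine ⟨⟨g⁻¹ * g', (mul_smul _ _ _).symm⟩, ?_, ?_⟩
      · rw [Set.mem_inv_smul_set_iff, h1]; exact h3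
      · rw [Set.mem_inv_smul_set_iff, h2]; exact h4
  have hd : ∀ E ∈ 𝓕, ((univ : Finset Ω).offDiag.filter fun w => w.1 ∈ E ∧ w.2 ∈ E).card
      = (p + 1) * p := by
    intro E hE
    obtain ⟨g, rfl⟩ := (h𝓕 E).1 hE
    have e : ((univ : Finset Ω).offDiag.filter fun w => w.1 ∈ g • F ∧ w.2 ∈ g • F) =
        (g • F).toFinset.offDiag := by
      ext w; simp only [Finset.mem_filter, Finset.mem_offDiag, Set.mem_toFinset, mem_univ]; tauto
    have e2 : (g • F).toFinset.card = p + 1 := by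
      rw [← Set.ncard_eq_toFinset_card', Set.ncard_smul_set, hF]
    rw [e, Finset.offDiag_card, e2]
    rw [mul_add, mul_one, Nat.add_sub_cancel]
  have hs := Finset.sum_card_bipartiteAbove_eq_sum_card_bipartiteBelow
    (s := (univ : Finset Ω).offDiag) (t := 𝓕) (fun w E => w.1 ∈ E ∧ w.2 ∈ E)
  simp only [Finset.bipartiteAbove, Finset.bipartiteBelow] at hs
  rw [Finset.sum_congr rfl hc, Finset.sum_congr rfl hd] at hs
  simp only [Finset.sum_const, smul_eq_mul, Finset.offDiag_card, Finset.card_univ, hΩ] at hs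
  have e0 : (p ^ 2 + 1) * (p ^ 2 + 1) - (p ^ 2 + 1) = p * ((p ^ 2 + 1) * p) := by
    rw [mul_add (p ^ 2 + 1), mul_one, Nat.add_sub_cancel]; ring
  rw [e0] at hs
  have e1 : (p ^ 2 + 1) * p * lam = (p + 1) * 𝓕.card :=
    Nat.eq_of_mul_eq_mul_left (by omega : 0 < p) (by linarith)
  have hdvd : p + 1 ∣ 2 * lam := by
    have h1 : ((p : ℤ) + 1) ∣ ((p : ℤ) ^ 2 + 1) * p * lam := ⟨𝓕.card, by exact_mod_cast e1⟩
    have h2 : ((p : ℤ) + 1) ∣ ((p : ℤ) + 1) * ((p ^ 2 - p + 2) * lam) := Dvd.intro _ rfl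
    have h3 := dvd_sub h2 h1
    have e : ((p : ℤ) + 1) * ((p ^ 2 - p + 2) * lam) - ((p : ℤ) ^ 2 + 1) * p * lam = 2 * lam := by
      ring
    rw [e] at h3
    exact_mod_cast h3
  have hl1 : 0 < lam := by
    rw [hlam, Finset.card_pos]
    exact ⟨F, by simp only [Finset.mem_filter, h𝓕]; exact ⟨⟨1, (one_smul _ _).symm⟩, ha, hb⟩⟩
  have hsub : (𝓕.filter fun E => a ∈ E ∧ b ∈ E) ⊆ {F1, F2} := by
    intro E hE
    simp only [Finset.mem_filter, h𝓕] at hE
    obtain ⟨⟨g, rfl⟩, h3, h4⟩ := hE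
    simpa using h g h3 h4
  have hl2 := Finset.card_le_card hsub
  rw [← hlam] at hl2
  have hle := Nat.le_of_dvd (by omega) hdvd
  by_cases hF12 : F1 = F2
  · rw [hF12, Finset.pair_eq_singleton, Finset.card_singleton] at hl2
    omega
  · refine ⟨?_, hF12⟩
    have := Finset.card_le_two (a := F1) (b := F2)
    have hp3 : p ≤ 3 := by omega
    have hl : lam = 1 ∨ lam = 2 := by omega
    interval_cases p
    · rcases hl with rfl | rfl <;> omega
    · rfl

theorem sign_invol {α : Type*} [Fintype α] [DecidableEq α] (σ : Equiv.Perm α) (h : σ ^ 2 = 1)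
    (hs : σ.support.card % 4 = 2) : Equiv.Perm.sign σ = -1 := by
  haveI : Fact (Nat.Prime 2) := ⟨Nat.prime_two⟩
  have hc := Equiv.Perm.cycleType_of_pow_prime_eq_one h
  have hsum := Equiv.Perm.sum_cycleType σ
  rw [Equiv.Perm.sign_of_cycleType]
  rw [hc, Multiset.sum_replicate, smul_eq_mul] at hsum
  rw [Equiv.Perm.sum_cycleType]
  apply Odd.neg_one_pow
  rw [Nat.odd_iff]; omega
end Design

end H19.DP
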