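import Cfsg.Agent.H19.DP1
import Cfsg.Agent.H16.PrimeDeg
import Cfsg.Agent.H1.Fitting

/-! Imprimitive transitive groups of degree `p²` with `p'` point stabilizers: a regular Sylow
subgroup (`Reg`), and at most two fixed-point sets of size `p` through a point (`sol_case`,
`nonsol_case`). -/

namespace H19.DP
open MulAction Subgroup

variable {H X : Type*} [Group H] [MulAction H X] {p : ℕ}

/-- common fixed points of a set of elements -/
def Fix (X : Type*) [MulAction H X] (S : Set H) : Set X := {u | ∀ s ∈ S, s • u = u}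

/-- orbit of a subgroup as a set -/
def orb (R : Subgroup H) (u : X) : Set X := {v | ∃ y ∈ R, y • u = v}

theorem triv_of_normal [Finite H] [Finite X] [IsPretransitive H X] (hp : p.Prime) {k : ℕ}
    (hX : Nat.card X = p ^ k) (N : Subgroup H) [N.Normal] (hN : ¬ p ∣ Nat.card N) {n : H}
    (hn : n ∈ N) (u : X) : n • u = u := by
  have h1 := (IsBlock.orbit_of_normal (G := H) (N := N) u).ncard_dvd_card (nonempty_orbit u)
  have h2 : (orbit N u).ncard ∣ Nat.card N := by
    rw [← index_stabilizer]; exact index_dvd_card _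
  rw [hX] at h1
  obtain ⟨j, -, hj⟩ := (Nat.dvd_prime_pow hp).1 h1
  have hj0 : j = 0 := by
    by_contra h
    exact hN ((dvd_pow_self p h).trans (hj ▸ h2))
  rw [hj0, pow_zero, Set.ncard_eq_one] at hj
  obtain ⟨v, hv⟩ := hj
  have e1 : u ∈ orbit N u := mem_orbit_self u
  have e2 : n • u ∈ orbit N u := ⟨⟨n, hn⟩, rfl⟩
  rw [hv] at e1 e2
  exact e2.trans e1.symm

theorem card_stab [Finite H] [IsPretransitive H X] (u : X) :
    Nat.card X * Nat.card (stabilizer H u) = Nat.card H := by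
  rw [← index_stabilizer_of_transitive H u, index_mul_card]

/-- the regular situation -/
structure Reg (X : Type*) [MulAction H X] (p : ℕ) (P : Subgroup H) : Prop where
  prime : p.Prime
  cardX : Nat.card X = p ^ 2
  cardP : Nat.card P = p ^ 2
  stab : ∀ u : X, ¬ p ∣ Nat.card (stabilizer H u)
  reg : ∀ u v : X, ∃ y ∈ P, y • u = v
  comm : ∀ x ∈ P, ∀ y ∈ P, x * y = y * x

theorem pfree (hp : p.Prime) (hs : ∀ u : X, ¬ p ∣ Nat.card (stabilizer H u)) {g : H} {u : X}
    (hu : g • u = u) {k : ℕ} (hg : g ^ p ^ k = 1) : g = 1 := by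
  obtain ⟨j, -, hj⟩ := (Nat.dvd_prime_pow hp).1 (orderOf_dvd_of_pow_eq_one hg)
  have h2 : orderOf g ∣ Nat.card (stabilizer H u) := orderOf_dvd_natCard _ hu
  have hj0 : j = 0 := by
    by_contra h
    exact hs u ((dvd_pow_self p h).trans (hj ▸ h2))
  rw [hj0, pow_zero] at hj
  exact orderOf_eq_one_iff.1 hj

theorem exists_reg [Finite H] [Finite X] [IsPretransitive H X] [hp : Fact p.Prime]
    (hX : Nat.card X = p ^ 2) (b : X) (hD : ¬ p ∣ Nat.card (stabilizer H b)) (P : Sylow p H) :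
    Reg X p (P : Subgroup H) := by
  have hs : ∀ u : X, ¬ p ∣ Nat.card (stabilizer H u) := by
    intro u
    have := (card_stab (H := H) u).trans (card_stab (H := H) b).symm
    rw [Nat.eq_of_mul_eq_mul_left (by rw [hX]; exact pow_pos hp.out.pos 2) this]
    exact hD
  have hc : Nat.card P = p ^ 2 := by
    rw [P.card_eq_multiplicity, ← card_stab b, hX, Nat.factorization_mul
      (pow_ne_zero _ hp.out.ne_zero) Nat.card_pos.ne']
    rw [Finsupp.add_apply, Nat.factorization_eq_zero_of_not_dvd hD]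
    simp [hp.out.factorization_self]
  refine ⟨hp.out, hX, hc, hs, fun u v => ?_, fun x hx y hy => ?_⟩
  · have hinj : Function.Injective (fun y : P => (y : H) • u) := by
      intro y z h
      have h1 : ((z : H)⁻¹ * y) • u = u := by
        simp only at h
        rw [mul_smul, h, inv_smul_smul]
      have h2 : ((z : H)⁻¹ * y) ^ p ^ 2 = 1 := by
        have := pow_card_eq_one' (G := P) (x := z⁻¹ * y)
        rw [hc] at this
        exact congrArg Subtype.val this
      exact Subtype.ext (inv_mul_eq_one.1 (pfree hp.out hs h1 h2)).symm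
    have hb := (hinj.bijective_of_nat_card_le (by rw [hX]; exact hc.ge)).2
    obtain ⟨y, hy⟩ := hb v
    exact ⟨y, y.2, hy⟩
  · have := (IsPGroup.isMulCommutative_of_card_eq_prime_sq hc).is_comm.comm ⟨x, hx⟩ ⟨y, hy⟩
    exact congrArg Subtype.val this

namespace Reg
variable {P : Subgroup H} [Finite H]

theorem free (h : Reg X p P) {y : H} (hy : y ∈ P) {u : X} (hu : y • u = u) : y = 1 := by
  refine pfree h.prime h.stab hu (k := 2) ?_
  have := pow_card_eq_one' (G := P) (x := ⟨y, hy⟩)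
  rw [h.cardP] at this
  exact congrArg Subtype.val this

theorem eq (h : Reg X p P) {y z : H} (hy : y ∈ P) (hz : z ∈ P) {u : X} (hu : y • u = z • u) :
    y = z := by
  have := h.free (P.mul_mem (P.inv_mem hz) hy) (u := u) (by rw [mul_smul, hu, inv_smul_smul])
  exact (inv_mul_eq_one.1 this).symm

theorem orb_ncard (h : Reg X p P) {R : Subgroup H} (hR : R ≤ P) (u : X) :
    (orb R u).ncard = Nat.card R := by
  have : orb R u = (fun y : H => y • u) '' (R : Set H) := rfl
  rw [this, Set.ncard_image_of_injOn fun y hy z hz e => h.eq (hR hy) (hR hz) e]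
  rfl

theorem card_sub (h : Reg X p P) {R : Subgroup H} (hR : R ≤ P) :
    R = ⊥ ∨ Nat.card R = p ∨ R = P := by
  obtain ⟨j, hj2, hj⟩ := (Nat.dvd_prime_pow h.prime).1 (h.cardP ▸ card_dvd_of_le hR)
  interval_cases j
  · left; exact card_eq_one.1 (by simpa using hj)
  · right; left; simpa using hj
  · right; right; exact eq_of_le_of_card_ge hR (by rw [hj, h.cardP])

theorem inf_eq_bot (hp : p.Prime) {Q R : Subgroup H} (hQ : Nat.card Q = p) (hR : Nat.card R = p)
    (hne : R ≠ Q) : Q ⊓ R = ⊥ := by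
  rcases (Nat.dvd_prime hp).1 (hQ ▸ card_dvd_of_le (inf_le_left : Q ⊓ R ≤ Q)) with h | h
  · exact card_eq_one.1 h
  · exfalso
    have h1 : Q ⊓ R = Q := eq_of_le_of_card_ge inf_le_left (by rw [h, hQ])
    have h2 : Q ⊓ R = R := eq_of_le_of_card_ge inf_le_right (by rw [h, hR])
    exact hne (h2.symm.trans h1)

theorem decomp (h : Reg X p P) {Q R : Subgroup H} (hQP : Q ≤ P) (hRP : R ≤ P)
    (hQ : Nat.card Q = p) (hR : Nat.card R = p) (hi : Q ⊓ R = ⊥) {y : H} (hy : y ∈ P) :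
    ∃ q ∈ Q, ∃ r ∈ R, y = q * r := by
  have hinj : Function.Injective
      (fun w : Q × R => (⟨w.1 * w.2, P.mul_mem (hQP w.1.2) (hRP w.2.2)⟩ : P)) := by
    rintro ⟨q, r⟩ ⟨q', r'⟩ e
    have e1 : (q : H) * r = q' * r' := congrArg Subtype.val e
    have e2 : (q' : H)⁻¹ * q = r' * (r : H)⁻¹ := by
      rw [inv_mul_eq_iff_eq_mul, ← mul_assoc, ← e1, mul_inv_cancel_right]
    have hm : (q' : H)⁻¹ * q ∈ Q ⊓ R :=
      ⟨Q.mul_mem (Q.inv_mem q'.2) q.2, e2 ▸ R.mul_mem r'.2 (R.inv_mem r.2)⟩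
    rw [hi, mem_bot] at hm
    have hq : (q : H) = q' := (inv_mul_eq_one.1 hm).symm
    rw [hq] at e1
    exact Prod.ext (Subtype.ext hq) (Subtype.ext (mul_left_cancel e1))
  obtain ⟨w, hw⟩ := (hinj.bijective_of_nat_card_le
    (by rw [Nat.card_prod, hQ, hR, h.cardP, sq])).2 ⟨y, hy⟩
  exact ⟨w.1, w.1.2, w.2, w.2.2, (congrArg Subtype.val hw).symm⟩
end Reg

/-- the conclusion needed for the design count -/
def Concl (H : Type*) [Group H] {X : Type*} [MulAction H X] (p : ℕ) (b : X) : Prop :=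
  ∃ S0 : Set H, (∀ s ∈ S0, s • b = b) ∧ (Fix X S0).ncard = p ∧
    (p = 3 → ∃ g, S0 = {g} ∧ (orderOf g).Prime) ∧
    ∃ Φ1 Φ2 : Set X, ∀ S : Set H, (∀ s ∈ S, s • b = b) → (Fix X S).ncard = p →
      Fix X S = Φ1 ∨ Fix X S = Φ2

theorem conj_comm_of_prime [Finite H] (hp : p.Prime) (Q : Subgroup H) [hn : Q.Normal]
    (hQ : Nat.card Q = p) (g h : H) {q : H} (hq : q ∈ Q) :
    g * (h * q * h⁻¹) * g⁻¹ = h * (g * q * g⁻¹) * h⁻¹ := by
  haveI := Fact.mk hp
  obtain ⟨⟨z, hzQ⟩, hz⟩ := (isCyclic_of_prime_card hQ).exists_generator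
  have hp' : ∀ x ∈ Q, ∃ k : ℤ, z ^ k = x := fun x hx => by
    obtain ⟨k, hk⟩ := hz ⟨x, hx⟩
    exact ⟨k, congrArg Subtype.val hk⟩
  obtain ⟨i, hi⟩ := hp' _ (hn.conj_mem z hzQ g)
  obtain ⟨j, hj⟩ := hp' _ (hn.conj_mem z hzQ h)
  obtain ⟨k, rfl⟩ := hp' q hq
  simp only [← conj_zpow, ← hi, ← hj]
  simp only [← zpow_mul]
  congr 1; ring

theorem sol_case [Finite H] [Finite X] [FaithfulSMul H X] {P : Subgroup H} (h : Reg X p P)
    [hPn : P.Normal] (Q : Subgroup H) [hQn : Q.Normal] (hQP : Q ≤ P) (hQ : Nat.card Q = p)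
    {b c : X} (hcb : c ≠ b) {g0 : H} (hg0 : g0 ≠ 1) (hb : g0 • b = b) (hc : g0 • c = c) :
    Concl H p b := by
  have hp := h.prime
  have hfix : ∀ g : H, g • b = b → Fix X {g} = orb (P ⊓ centralizer {g}) b := by
    intro g hg
    ext u
    simp only [Fix, orb, Set.mem_singleton_iff, forall_eq, Set.mem_setOf_eq]
    constructor
    · intro hu
      obtain ⟨y, hy, rfl⟩ := h.reg b u
      refine ⟨y, ⟨hy, ?_⟩, rfl⟩
      have : g * y * g⁻¹ = y := h.eq (hPn.conj_mem y hy g) hy (u := b) (by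
        rw [mul_smul, mul_smul, inv_smul_eq_iff.2 hg.symm, hu])
      exact mem_centralizer_singleton_iff.2 (mul_inv_eq_iff_eq_mul.1 this).symm
    · rintro ⟨y, ⟨-, hy⟩, rfl⟩
      have hy' := mem_centralizer_singleton_iff.1 hy
      rw [← mul_smul, ← hy', mul_smul, hg]
  have hcent : ∀ g : H, g • b = b → (∀ y ∈ P, y * g = g * y) → g = 1 := by
    intro g hg hy
    refine eq_of_smul_eq_smul (α := X) fun u => ?_
    obtain ⟨y, hy', rfl⟩ := h.reg b u
    rw [← mul_smul, ← hy y hy', mul_smul, hg, one_smul]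
  have hne : ∀ g : H, g • b = b → g ≠ 1 → P ⊓ centralizer {g} ≠ P := by
    intro g hg h1 e
    exact h1 (hcent g hg fun y hy => mem_centralizer_singleton_iff.1 (e.ge hy).2)
  have hS : ∀ S : Set H, (∀ s ∈ S, s • b = b) → (Fix X S).ncard = p → ∃ g, g • b = b ∧
      Nat.card ↥(P ⊓ centralizer {g}) = p ∧ Fix X S = orb (P ⊓ centralizer {g}) b := by
    intro S hSb hSp
    have : ∃ g ∈ S, g ≠ 1 := by
      by_contra hc
      push Not at hc
      have : Fix X S = Set.univ := Set.eq_univ_of_forall fun u s hs => by rw [hc s hs, one_smul]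
      rw [this, Set.ncard_univ, h.cardX] at hSp
      have := hp.one_lt
      nlinarith
    obtain ⟨g, hgS, hg1⟩ := this
    have hsub : Fix X S ⊆ orb (P ⊓ centralizer {g}) b := by
      rw [← hfix g (hSb g hgS)]
      intro u hu s hs
      rw [hs]; exact hu g hgS
    have hle := Set.ncard_le_ncard hsub
    rw [h.orb_ncard inf_le_left, hSp] at hle
    rcases h.card_sub (inf_le_left : P ⊓ centralizer {g} ≤ P) with e | e | e
    · rw [e, card_bot] at hle
      exact absurd hp.one_lt (by omega)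
    · exact ⟨g, hSb g hgS, e, Set.eq_of_subset_of_ncard_le hsub
        (by rw [h.orb_ncard inf_le_left, e, hSp])⟩
    · exact absurd e (hne g (hSb g hgS) hg1)
  have htriv : ∀ g : H, Nat.card ↥(P ⊓ centralizer {g}) = p → P ⊓ centralizer {g} ≠ Q →
      ∀ y ∈ P, (y : H ⧸ Q) * g = g * y := by
    intro g hg hne y hy
    obtain ⟨q, hq, r, hr, rfl⟩ := h.decomp hQP inf_le_left hQ hg (Reg.inf_eq_bot hp hQ hg hne) hy
    have h1 : (q : H ⧸ Q) = 1 := (QuotientGroup.eq_one_iff q).2 hq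
    have h2 := mem_centralizer_singleton_iff.1 hr.2
    rw [QuotientGroup.mk_mul, h1, one_mul, ← QuotientGroup.mk_mul, h2, QuotientGroup.mk_mul]
  have hstab : ∀ e : H, e • b = b → (∀ q ∈ Q, e * q * e⁻¹ = q) →
      (∀ y ∈ P, (y : H ⧸ Q) * e = e * y) → e = 1 := by
    intro e he h1 h2
    refine pfree hp h.stab he (k := 1) ?_
    rw [pow_one]
    refine hcent _ (by
      have : e ^ p ∈ stabilizer H b := pow_mem he p
      exact this) fun y hy => ?_
    have hq : y⁻¹ * (e * y * e⁻¹) ∈ Q := by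
      rw [← QuotientGroup.eq]
      simp only [QuotientGroup.mk_mul, QuotientGroup.mk_inv]
      rw [← h2 y hy, mul_inv_cancel_right]
    obtain ⟨q, hqd⟩ : ∃ q, q = y⁻¹ * (e * y * e⁻¹) := ⟨_, rfl⟩
    rw [← hqd] at hq
    have e1 : e * y * e⁻¹ = y * q := by rw [hqd]; group
    have e2 : ∀ k : ℕ, e ^ k * y * (e ^ k)⁻¹ = y * q ^ k := by
      intro k
      induction k with
      | zero => simp
      | succ k ih =>
        calc e ^ (k + 1) * y * (e ^ (k + 1))⁻¹ = e * (e ^ k * y * (e ^ k)⁻¹) * e⁻¹ := by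
              rw [pow_succ']; group
          _ = (e * y * e⁻¹) * (e * q ^ k * e⁻¹) := by rw [ih]; group
          _ = y * q ^ (k + 1) := by rw [e1, h1 _ (pow_mem hq k), pow_succ', mul_assoc]
    have e3 : q ^ p = 1 := by
      have := pow_card_eq_one' (G := Q) (x := ⟨q, hq⟩)
      rw [hQ] at this
      exact congrArg Subtype.val this
    have := e2 p
    rw [e3, mul_one] at this
    exact (mul_inv_eq_iff_eq_mul.1 this).symm
  have huniq : ∀ g1 g2 : H, g1 • b = b → g2 • b = b → Nat.card ↥(P ⊓ centralizer {g1}) = p →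
      P ⊓ centralizer {g1} ≠ Q → Nat.card ↥(P ⊓ centralizer {g2}) = p →
      P ⊓ centralizer {g2} ≠ Q → P ⊓ centralizer {g1} = P ⊓ centralizer {g2} := by
    intro g1 g2 hb1 hb2 c1 n1 c2 n2
    have hcomm : g2⁻¹ * g1⁻¹ * g2 * g1 = 1 := by
      refine hstab _ ?_ (fun q hq => ?_) (fun y hy => ?_)
      · rw [mul_smul, mul_smul, mul_smul, hb1, hb2, inv_smul_eq_iff.2 hb1.symm,
          inv_smul_eq_iff.2 hb2.symm]
      · have := conj_comm_of_prime hp Q hQ g1 g2 hq
        calc _ = g2⁻¹ * g1⁻¹ * (g2 * (g1 * q * g1⁻¹) * g2⁻¹) * g1 * g2 := by group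
          _ = q := by rw [← this]; group
      · have a1 : Commute (y : H ⧸ Q) g1 := htriv g1 c1 n1 y hy
        have a2 : Commute (y : H ⧸ Q) g2 := htriv g2 c2 n2 y hy
        simp only [QuotientGroup.mk_mul, QuotientGroup.mk_inv]
        exact ((a2.inv_right.mul_right a1.inv_right).mul_right a2).mul_right a1
    have hc12 : g2 * g1 = g1 * g2 := by
      calc g2 * g1 = g1 * g2 * (g2⁻¹ * g1⁻¹ * g2 * g1) := by group
        _ = g1 * g2 := by rw [hcomm, mul_one]
    refine eq_of_le_of_card_ge (fun r hr => ⟨hr.1, ?_⟩) (by rw [c1, c2])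
    have hr2 := mem_centralizer_singleton_iff.1 hr.2
    have m1 : g2 * r * g2⁻¹ ∈ P ⊓ centralizer {g1} := by
      refine ⟨hPn.conj_mem r hr.1 g2, mem_centralizer_singleton_iff.2 ?_⟩
      calc g2 * r * g2⁻¹ * g1 = g2 * r * g2⁻¹ * (g1 * g2) * g2⁻¹ := by group
        _ = g2 * (r * g1) * g2⁻¹ := by rw [← hc12]; group
        _ = (g2 * g1) * r * g2⁻¹ := by rw [hr2]; group
        _ = _ := by rw [hc12]; group
    have m2 : r⁻¹ * (g2 * r * g2⁻¹) ∈ Q := by
      rw [← QuotientGroup.eq]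
      simp only [QuotientGroup.mk_mul, QuotientGroup.mk_inv]
      rw [← htriv g2 c2 n2 r hr.1, mul_inv_cancel_right]
    have m3 : r⁻¹ * (g2 * r * g2⁻¹) ∈ Q ⊓ (P ⊓ centralizer {g1}) :=
      ⟨m2, Subgroup.mul_mem _ (Subgroup.inv_mem _ hr) m1⟩
    rw [Reg.inf_eq_bot hp hQ c1 n1, mem_bot, inv_mul_eq_one] at m3
    exact mem_centralizer_singleton_iff.2 (eq_mul_inv_iff_mul_eq.1 m3)
  obtain ⟨r, hr, hrd⟩ := Nat.exists_prime_and_dvd (fun e => hg0 (orderOf_eq_one_iff.1 e))
  obtain ⟨g, hgd⟩ : ∃ g, g = g0 ^ (orderOf g0 / r) := ⟨_, rfl⟩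
  have hgo : orderOf g = r := hgd ▸ orderOf_pow_orderOf_div (orderOf_pos g0).ne' hrd
  have hgb : g • b = b := by
    have : g ∈ stabilizer H b := hgd ▸ pow_mem hb _
    exact this
  have hgc : g • c = c := by
    have : g ∈ stabilizer H c := hgd ▸ pow_mem hc _
    exact this
  have hg1 : g ≠ 1 := by
    rintro rfl
    rw [orderOf_one] at hgo
    exact hr.one_lt.ne hgo
  refine ⟨{g}, by simpa using hgb, ?_, fun _ => ⟨g, rfl, hgo ▸ hr⟩, ?_⟩
  · rw [hfix g hgb, h.orb_ncard inf_le_left]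
    rcases h.card_sub (inf_le_left : P ⊓ centralizer {g} ≤ P) with e | e | e
    · have : c ∈ Fix X {g} := by simpa [Fix] using hgc
      rw [hfix g hgb, e] at this
      obtain ⟨y, hy, e'⟩ := this
      rw [mem_bot.1 hy, one_smul] at e'
      exact absurd e'.symm hcb
    · exact e
    · exact absurd e (hne g hgb hg1)
  · by_cases hex : ∃ g1 : H, g1 • b = b ∧ Nat.card ↥(P ⊓ centralizer {g1}) = p ∧
        P ⊓ centralizer {g1} ≠ Q
    · obtain ⟨g1, hb1, c1, n1⟩ := hex
      refine ⟨orb Q b, orb (P ⊓ centralizer {g1}) b, fun S h1 h2 => ?_⟩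
      obtain ⟨g2, hb2, c2, e⟩ := hS S h1 h2
      by_cases n2 : P ⊓ centralizer {g2} = Q
      · left; rw [e, n2]
      · right; rw [e, huniq g1 g2 hb1 hb2 c1 n1 c2 n2]
    · refine ⟨orb Q b, orb Q b, fun S h1 h2 => ?_⟩
      obtain ⟨g2, hb2, c2, e⟩ := hS S h1 h2
      left
      by_contra n2
      exact hex ⟨g2, hb2, c2, fun e' => n2 (by rw [e, e'])⟩

end H19.DP
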