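import Cfsg.Agent.H19.DP2
import Cfsg.Agent.H5.Central

/-! Imprimitive groups of degree `p²` with `p'` point stabilizers, continued: the insoluble case
(`nonsol_case`) and the combined statement `partA`. -/

namespace H19.DP
open MulAction Subgroup
open scoped Pointwise

variable {H X : Type*} [Group H] [MulAction H X] {p : ℕ}

theorem sylow_inf_ne_bot [Finite H] [Fact p.Prime] (P : Sylow p H) (T : Subgroup H)
    [hT : T.Normal] (hd : p ∣ Nat.card T) : (P : Subgroup H) ⊓ T ≠ ⊥ := by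
  obtain ⟨t, ht⟩ := exists_prime_orderOf_dvd_card' (G := T) p hd
  have ht' : orderOf (t : H) = p := by rw [Subgroup.orderOf_coe, ht]
  have hz : IsPGroup p (zpowers (t : H)) :=
    IsPGroup.of_card (n := 1) (by rw [Nat.card_zpowers, ht', pow_one])
  obtain ⟨P', hP'⟩ := hz.exists_le_sylow
  obtain ⟨g, hg⟩ := exists_smul_eq H P' P
  intro hb
  have m1 : g * t * g⁻¹ ∈ (P : Subgroup H) := by
    rw [← hg, Sylow.coe_subgroup_smul]
    exact Subgroup.smul_mem_pointwise_smul _ (MulAut.conj g) _ (hP' (mem_zpowers _))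
  have m2 : g * t * g⁻¹ ∈ (P : Subgroup H) ⊓ T := ⟨m1, hT.conj_mem _ t.2 g⟩
  rw [hb, mem_bot, conj_eq_one_iff] at m2
  rw [m2, orderOf_one] at ht'
  exact (Fact.out : p.Prime).one_lt.ne ht'

theorem nonsol_case [Finite H] [Finite X] [FaithfulSMul H X] [hp : Fact p.Prime] (hp2 : p ≠ 2)
    (P : Sylow p H) (h : Reg X p (P : Subgroup H)) (T : Subgroup H) [hTn : T.Normal]
    (hns : ¬ Group.IsSolvable T) (hT : ¬ p ^ 2 ∣ Nat.card T) (b : X) : Concl H p b := by
  classical
  haveI : IsPretransitive H X := ⟨fun u v => by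
    obtain ⟨y, -, hy⟩ := h.reg u v
    exact ⟨y, hy⟩⟩
  have hpT : p ∣ Nat.card T := by
    by_contra hc
    apply hns
    have : T = ⊥ := eq_bot_iff.2 fun t ht => mem_bot.2 (eq_of_smul_eq_smul (α := X) fun u => by
      rw [one_smul]; exact triv_of_normal hp.out h.cardX T hc ht u)
    subst this
    infer_instance
  obtain ⟨Q, hQd⟩ : ∃ Q, Q = (P : Subgroup H) ⊓ T := ⟨_, rfl⟩
  have hQP : Q ≤ P := hQd ▸ inf_le_left
  have hQT : Q ≤ T := hQd ▸ inf_le_right
  have hQm : ∀ y ∈ (P : Subgroup H), y ∈ T → y ∈ Q := fun y h1 h2 => hQd ▸ ⟨h1, h2⟩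
  have hQneP : Q ≠ P := fun e => hT (h.cardP ▸ card_dvd_of_le (e ▸ hQT))
  have hQ : Nat.card Q = p := by
    rcases h.card_sub hQP with e | e | e
    · exact absurd (hQd ▸ e) (sylow_inf_ne_bot P T hpT)
    · exact e
    · exact absurd e hQneP
  have horb : ∀ u : X, orbit T u = orb Q u := by
    intro u
    symm
    refine Set.eq_of_subset_of_ncard_le (fun v ⟨y, hy, e⟩ => ⟨⟨y, hQT hy⟩, e⟩) ?_
    rw [h.orb_ncard hQP, hQ]
    have h1 := (IsBlock.orbit_of_normal (G := H) (N := T) u).ncard_dvd_card (nonempty_orbit u)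
    have h2 : (orbit T u).ncard ∣ Nat.card T := by
      rw [← index_stabilizer]; exact index_dvd_card _
    rw [h.cardX] at h1
    obtain ⟨j, hj2, hj⟩ := (Nat.dvd_prime_pow hp.out).1 h1
    rw [hj] at h2 ⊢
    interval_cases j
    · simpa using hp.out.one_lt.le
    · simp
    · exact absurd h2 hT
  have hoc : ∀ u : X, (orbit T u).ncard = p := fun u => by rw [horb, h.orb_ncard hQP, hQ]
  have hoc' : ∀ u : X, Nat.card (orbit T u) = p := hoc
  have hTQ : ∀ u : X, ∀ t ∈ T, ∃ q ∈ Q, q • u = t • u := fun u t ht => by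
    have : t • u ∈ orbit T u := ⟨⟨t, ht⟩, rfl⟩
    rwa [horb] at this
  haveI hf : FaithfulSMul T (orbit T b) := by
    rw [faithfulSMul_iff]
    intro t ht
    have hN : ¬ p ∣ Nat.card (toPermHom T (orbit T b)).ker := by
      intro hd
      apply h.stab b
      refine hd.trans ?_
      rw [← card_map_of_injective T.subtype_injective]
      refine card_dvd_of_le ?_
      rintro _ ⟨n, hn, rfl⟩
      have := congrArg (fun σ : Equiv.Perm (orbit T b) => (σ ⟨b, mem_orbit_self b⟩ : X))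
        (MonoidHom.mem_ker.1 hn)
      exact this
    have htm : t ∈ (toPermHom T (orbit T b)).ker := MonoidHom.mem_ker.2 (Equiv.ext ht)
    refine Subtype.ext (eq_of_smul_eq_smul (α := X) fun v => ?_)
    have := triv_of_normal (H := T) (X := orbit T v) hp.out (k := 1) (by rw [hoc', pow_one]) _ hN
      htm ⟨v, mem_orbit_self v⟩
    rw [Subgroup.coe_one, one_smul]
    exact congrArg Subtype.val this
  letI : Fintype (orbit T b) := Fintype.ofFinite _
  have hcard : Fintype.card (orbit T b) = p := by rw [← Nat.card_eq_fintype_card, hoc']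
  have h2t := H16.burnside_prime_degree (G := T) hcard hns
  have h2 : Two (toPermHom T (orbit T b)) := fun u u' v v' h1 h2 =>
    is_two_pretransitive_iff.1 h2t h1 h2
  have hp3 : p ≠ 3 := by
    rintro rfl
    apply hns
    refine H5.burnside_paqb_dvd (a := 1) (b := 1) Nat.prime_two Nat.prime_three ?_
    have := card_dvd_of_injective (toPermHom T (orbit T b)) (fun x y e => toPerm_injective e)
    rw [Nat.card_perm, hoc'] at this
    exact this
  -- stabilizers in `T`
  have hGc : ∀ u v : X, stabilizer T u ≤ stabilizer T v → stabilizer T u = stabilizer T v := by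
    intro u v hle
    refine eq_of_le_of_card_ge hle (le_of_eq ?_)
    have e1 := (stabilizer T u).index_mul_card
    have e2 := (stabilizer T v).index_mul_card
    rw [index_stabilizer, hoc] at e1 e2
    exact Nat.eq_of_mul_eq_mul_left hp.out.pos (e2.trans e1.symm)
  have hGs : ∀ (g : H) (u v : X), stabilizer T u ≤ stabilizer T v →
      stabilizer T (g • u) ≤ stabilizer T (g • v) := by
    intro g u v hle t ht
    have h1 : (⟨g⁻¹ * t * g, by simpa using hTn.conj_mem _ t.2 g⁻¹⟩ : T) ∈ stabilizer T u := by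
      change (g⁻¹ * t * g) • u = u
      have ht' : (t : H) • g • u = g • u := ht
      rw [mul_smul, mul_smul, ht', inv_smul_smul]
    have h2 : (g⁻¹ * t * g) • v = v := hle h1
    change (t : H) • g • v = g • v
    rw [mul_smul, mul_smul, inv_smul_eq_iff] at h2
    exact h2
  obtain ⟨R, hR⟩ : ∃ R : Subgroup H, ∀ y, y ∈ R ↔ y ∈ (P : Subgroup H) ∧
      stabilizer T b ≤ stabilizer T (y • b) := by
    refine ⟨{ carrier := {y | y ∈ (P : Subgroup H) ∧ stabilizer T b ≤ stabilizer T (y • b)}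
              mul_mem' := ?_, one_mem' := ?_, inv_mem' := ?_ }, fun y => Iff.rfl⟩
    · rintro y z ⟨hy, hy'⟩ ⟨hz, hz'⟩
      exact ⟨mul_mem hy hz, by rw [mul_smul]; exact hy'.trans (hGs y _ _ hz')⟩
    · exact ⟨one_mem _, by rw [one_smul]⟩
    · rintro y ⟨hy, hy'⟩
      refine ⟨inv_mem hy, ?_⟩
      have := hGs y⁻¹ _ _ (hGc _ _ hy').ge
      rwa [inv_smul_smul] at this
  have hRP : R ≤ P := fun y hy => ((hR y).1 hy).1
  have hRo : ∀ u, stabilizer T b ≤ stabilizer T u → ∃ w ∈ R, w • b = u := by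
    intro u hu
    obtain ⟨y, hy, rfl⟩ := h.reg b u
    exact ⟨y, (hR y).2 ⟨hy, hu⟩, rfl⟩
  have hQR : Q ⊓ R = ⊥ := by
    rw [eq_bot_iff]
    rintro q ⟨hq, hq'⟩
    rw [mem_bot]
    by_contra hq1
    have hqb : q • b ≠ b := fun e => hq1 (h.free (hQP hq) e)
    obtain ⟨d, hd1, hd2⟩ : ∃ d : orbit T b, d ≠ ⟨b, mem_orbit_self b⟩ ∧
        d ≠ ⟨q • b, ⟨⟨q, hQT hq⟩, rfl⟩⟩ := by
      by_contra hc
      push Not at hc
      have : (Finset.univ : Finset (orbit T b)) ⊆
          {⟨b, mem_orbit_self b⟩, ⟨q • b, ⟨⟨q, hQT hq⟩, rfl⟩⟩} := by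
        intro d _
        by_cases e : d = ⟨b, mem_orbit_self b⟩
        · simp [e]
        · simp [hc d e]
      have h1 := (Finset.card_le_card this).trans Finset.card_le_two
      rw [Finset.card_univ, hcard] at h1
      have := hp.out.two_le
      omega
    obtain ⟨t, ht1, ht2⟩ := h2 ⟨b, mem_orbit_self b⟩ ⟨q • b, ⟨⟨q, hQT hq⟩, rfl⟩⟩
      ⟨b, mem_orbit_self b⟩ d (fun e => hqb (congrArg Subtype.val e).symm) hd1.symm
    have m1 : t ∈ stabilizer T b := congrArg Subtype.val ht1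
    have m2 : t • q • b = q • b := ((hR q).1 hq').2 m1
    exact hd2 (ht2.symm.trans (Subtype.ext m2))
  have hRc : Nat.card R = p := by
    rcases h.card_sub hRP with e | e | e
    · exfalso
      obtain ⟨x, hxP, hxQ⟩ := SetLike.exists_of_lt (lt_of_le_of_ne hQP hQneP)
      obtain ⟨z, hz⟩ := ld hp.out hcard (toPermHom T (orbit T b))
        (MulAut.conjNormal x⁻¹ : MulAut T).toMonoidHom (MulAut.conjNormal x⁻¹ : MulAut T).surjective
        h2 hT ⟨b, mem_orbit_self b⟩
      have hle : stabilizer T b ≤ stabilizer T (x • x • (z : X)) := by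
        intro t ht
        have h1 := congrArg Subtype.val (hz t (Subtype.ext ht))
        have h2 : (x⁻¹ * (x⁻¹ * t * x⁻¹⁻¹) * x⁻¹⁻¹) • (z : X) = z := h1
        simp only [inv_inv, mul_smul, inv_smul_eq_iff] at h2
        exact h2
      obtain ⟨w, hw, hwb⟩ := hRo _ hle
      rw [e, mem_bot] at hw
      rw [hw, one_smul] at hwb
      obtain ⟨z, ⟨t, rfl⟩⟩ := z
      obtain ⟨q, hq, hqb⟩ := hTQ b t t.2
      have h3 : (x * x * q) • b = b := by
        rw [mul_smul, mul_smul, hqb]; exact hwb.symm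
      have h4 := h.free (mul_mem (mul_mem hxP hxP) (hQP hq)) h3
      have h5 : x * x ∈ Q := by
        rw [eq_inv_of_mul_eq_one_left h4]; exact inv_mem hq
      have h6 : x ^ p ^ 2 = 1 := by
        have := pow_card_eq_one' (G := (P : Subgroup H)) (x := ⟨x, hxP⟩)
        rw [h.cardP] at this
        exact congrArg Subtype.val this
      obtain ⟨m, hm⟩ : Odd (p ^ 2) := (hp.out.odd_of_ne_two hp2).pow
      apply hxQ
      have : x = ((x * x) ^ m)⁻¹ := by
        rw [hm, pow_succ, pow_mul, sq] at h6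
        exact eq_inv_of_mul_eq_one_right h6
      rw [this]; exact inv_mem (pow_mem h5 m)
    · exact e
    · exfalso
      rw [e, inf_eq_left.2 hQP] at hQR
      rw [hQR, card_bot] at hQ
      exact hp.out.one_lt.ne hQ
  have hQRe : ∀ q ∈ Q, ∀ q2 ∈ Q, ∀ r ∈ R, ∀ r2 ∈ R, (q * r) • b = (q2 * r2) • b →
      q = q2 ∧ r = r2 := by
    intro q hq q2 hq2 r hr r2 hr2 e
    have e1 := h.eq (mul_mem (hQP hq) (hRP hr)) (mul_mem (hQP hq2) (hRP hr2)) e
    have e2 : q2⁻¹ * q = r2 * r⁻¹ := by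
      rw [inv_mul_eq_iff_eq_mul, ← mul_assoc, ← e1, mul_inv_cancel_right]
    have hm : q2⁻¹ * q ∈ Q ⊓ R :=
      ⟨Q.mul_mem (Q.inv_mem hq2) hq, e2 ▸ R.mul_mem hr2 (R.inv_mem hr)⟩
    rw [hQR, mem_bot, inv_mul_eq_one] at hm
    rw [hm] at e1 ⊢
    exact ⟨rfl, mul_left_cancel e1⟩
  have hA : ∀ t ∈ T, ∀ r ∈ R, ∀ r2 ∈ R, t • r • b = r2 • b → r = r2 := by
    intro t ht r hr r2 hr2 e
    obtain ⟨q, hq, hqe⟩ := hTQ (r • b) t ht
    exact (hQRe q hq 1 (one_mem _) r hr r2 hr2 (by rw [mul_smul, hqe, e, one_mul])).2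
  have hC : ∀ (q : H) (u : X), stabilizer T (q • b) ≤ stabilizer T u → ∃ w ∈ R, (q * w) • b = u := by
    intro q u hu
    have := hGs q⁻¹ _ _ hu
    rw [inv_smul_smul] at this
    obtain ⟨w, hw, e⟩ := hRo _ this
    exact ⟨w, hw, by rw [mul_smul, e, smul_inv_smul]⟩
  have hgrid : ∀ s : H, s • b = b → ∀ q ∈ Q, ∀ r ∈ R,
      (s • (q * r) • b = (q * r) • b ↔ s • q • b = q • b ∧ s • r • b = r • b) := by
    intro s hs q hq r hr
    have g1 : stabilizer T (s • q • b) ≤ stabilizer T (s • (q * r) • b) := by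
      rw [mul_smul]
      exact hGs s _ _ (hGs q _ _ ((hR r).1 hr).2)
    constructor
    · intro e
      constructor
      · obtain ⟨q2, hq2, e2⟩ := hTQ b _ (hTn.conj_mem q (hQT hq) s)
        rw [mul_smul, mul_smul, inv_smul_eq_iff.2 hs.symm] at e2
        rw [← e2, e] at g1
        obtain ⟨w, hw, e3⟩ := hC _ _ g1
        rw [← e2, (hQRe q2 hq2 q hq w hw r hr e3).1]
      · have g2 := hGs s _ _ ((hR r).1 hr).2
        rw [hs] at g2
        obtain ⟨w, hw, e2⟩ := hRo _ g2
        have : r = w := hA _ (mul_mem (hTn.conj_mem _ (inv_mem (hQT hq)) s) (hQT hq)) r hr w hw (by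
          rw [e2, mul_smul, ← mul_smul q r b, ← e]
          simp only [mul_smul, inv_smul_smul])
        rw [← e2, this]
    · rintro ⟨e1, e2⟩
      rw [e1] at g1
      obtain ⟨w, hw, e3⟩ := hC _ _ g1
      have : r = w := hA _ (mul_mem (inv_mem (hQT hq)) (hTn.conj_mem _ (hQT hq) s)) r hr w hw (by
        rw [mul_smul, inv_smul_eq_iff, ← mul_smul q w b, e3]
        conv_lhs => rw [← e2]
        simp only [mul_smul, inv_smul_smul])
      rw [← e3, this]
  refine ⟨{t | t ∈ T ∧ t • b = b}, fun s hs => hs.2, ?_, fun e => absurd e hp3,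
    orb Q b, orb R b, fun S hS hSp => ?_⟩
  · rw [← hRc, ← h.orb_ncard hRP b]
    congr 1
    ext u
    constructor
    · intro hu
      exact hRo u fun t ht => hu t ⟨t.2, ht⟩
    · rintro ⟨w, hw, rfl⟩ t ht
      exact ((hR w).1 hw).2 (show (⟨t, ht.1⟩ : T) ∈ stabilizer T b from ht.2)
  · have e : Fix X S = (fun w : H × H => (w.1 * w.2) • b) ''
        ({q | q ∈ Q ∧ q • b ∈ Fix X S} ×ˢ {r | r ∈ R ∧ r • b ∈ Fix X S}) := by
      ext u
      constructor
      · intro hu
        obtain ⟨y, hy, rfl⟩ := h.reg b u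
        obtain ⟨q, hq, r, hr, rfl⟩ := h.decomp hQP hRP hQ hRc hQR hy
        exact ⟨(q, r), ⟨⟨hq, fun s hs => ((hgrid s (hS s hs) q hq r hr).1 (hu s hs)).1⟩,
          ⟨hr, fun s hs => ((hgrid s (hS s hs) q hq r hr).1 (hu s hs)).2⟩⟩, rfl⟩
      · rintro ⟨⟨q, r⟩, ⟨⟨hq, h1⟩, ⟨hr, h2⟩⟩, rfl⟩ s hs
        exact (hgrid s (hS s hs) q hq r hr).2 ⟨h1 s hs, h2 s hs⟩
    have e2 := hSp
    rw [e, Set.ncard_image_of_injOn (by
      rintro ⟨q, r⟩ ⟨⟨hq, -⟩, ⟨hr, -⟩⟩ ⟨q2, r2⟩ ⟨⟨hq2, -⟩, ⟨hr2, -⟩⟩ e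
      obtain ⟨e1, e2⟩ := hQRe q hq q2 hq2 r hr r2 hr2 e
      exact Prod.ext e1 e2), Set.ncard_prod] at e2
    have key : ∀ U : Subgroup H, U ≤ P → Nat.card U = p →
        {q | q ∈ U ∧ q • b ∈ Fix X S}.ncard = p → Fix X S = orb U b := by
      intro U hU hUc hc
      have : {q | q ∈ U ∧ q • b ∈ Fix X S} = (U : Set H) :=
        Set.eq_of_subset_of_ncard_le (fun q hq => hq.1) (by rw [hc]; exact hUc.le)
      symm
      refine Set.eq_of_subset_of_ncard_le ?_ (by rw [h.orb_ncard hU, hUc, hSp])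
      rintro _ ⟨y, hy, rfl⟩
      exact (this.ge hy).2
    rcases hp.out.eq_one_or_self_of_dvd _ (Dvd.intro _ e2) with e3 | e3
    · rw [e3, one_mul] at e2
      exact Or.inr (key R hRP hRc e2)
    · exact Or.inl (key Q hQP hQ e3)

theorem partA [Finite H] [Finite X] [FaithfulSMul H X] [IsPretransitive H X] [hp : Fact p.Prime]
    (hp2 : p ≠ 2) (hX : Nat.card X = p ^ 2) {b c : X} (hD : ¬ p ∣ Nat.card (stabilizer H b))
    (B : Subgroup H) (hB : B.index = p) (hcb : c ≠ b) {g0 : H} (hg0 : g0 ≠ 1) (hb : g0 • b = b)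
    (hc : g0 • c = c) : Concl H p b := by
  obtain ⟨P⟩ : Nonempty (Sylow p H) := inferInstance
  have h := exists_reg hX b hD P
  have hH := card_stab (H := H) b
  rw [hX] at hH
  have hp3 : ¬ p ^ 2 * p ∣ Nat.card H := fun hd =>
    hD (Nat.dvd_of_mul_dvd_mul_left (pow_pos hp.out.pos 2) (hH ▸ hd))
  have hN : ∀ N : Subgroup H, N.Normal → ¬ p ∣ Nat.card N → N = ⊥ := fun N _ hc =>
    eq_bot_iff.2 fun t ht => mem_bot.2 (eq_of_smul_eq_smul (α := X) fun u => by
      rw [one_smul]; exact triv_of_normal hp.out hX N hc ht u)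
  obtain ⟨K, hKd⟩ : ∃ K, K = B.normalCore := ⟨_, rfl⟩
  haveI hKn : K.Normal := hKd ▸ B.normalCore_normal
  have hK2 : ¬ p ^ 2 ∣ Nat.card K := by
    intro hd
    apply hp3
    rw [← K.card_mul_index]
    exact mul_dvd_mul hd (hB ▸ index_dvd_of_le (hKd ▸ B.normalCore_le))
  have hK1 : K ≠ ⊥ := by
    intro e
    have h1 : K.index ∣ p.factorial := by
      rw [hKd, normalCore_eq_ker, index_ker, ← hB, index, ← Nat.card_perm]
      exact card_subgroup_dvd_card _
    rw [e, index_bot, ← hH] at h1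
    have h2 : p * p ∣ p * (p - 1).factorial := by
      rw [Nat.mul_factorial_pred hp.out.ne_zero, ← sq]
      exact (Dvd.intro _ rfl).trans h1
    have h3 := (hp.out.dvd_factorial).1 (Nat.dvd_of_mul_dvd_mul_left hp.out.pos h2)
    have := hp.out.pos
    omega
  by_cases hs : Group.IsSolvable H
  · have h1 : Cfsg.pPrimeCore p H = ⊥ := hN _ inferInstance (H1.not_dvd_card_pPrimeCore hp.out)
    have h2 : (P : Subgroup H) = Cfsg.pCore p H := by
      refine le_antisymm (le_trans ?_ (H1.centralizer_pCore_le p h1)) (H1.pCore_le_sylow P)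
      intro y hy x hx
      exact h.comm x (H1.pCore_le_sylow P hx) y hy
    haveI : (P : Subgroup H).Normal := h2 ▸ inferInstance
    refine sol_case h ((P : Subgroup H) ⊓ K) inf_le_left ?_ hcb hg0 hb hc
    rcases h.card_sub (inf_le_left : (P : Subgroup H) ⊓ K ≤ P) with e | e | e
    · exact absurd e (sylow_inf_ne_bot P K (by by_contra hc; exact hK1 (hN K hKn hc)))
    · exact e
    · exact absurd (h.cardP ▸ card_dvd_of_le (e ▸ inf_le_right : (P : Subgroup H) ≤ K)) hK2
  by_cases hsK : Group.IsSolvable K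
  swap
  · exact nonsol_case hp2 P h K hsK hK2 b
  obtain ⟨Q, hQn, hQ1, hQK, hmin⟩ := H1.exists_minimal_normal_le K hK1
  haveI : Group.IsSolvable Q := solvable_of_solvable_injective (inclusion_injective hQK)
  obtain ⟨-, r, hr, hre⟩ := H1.minimal_normal_elementary Q hQ1 hmin
  have hrp : r = p := by
    by_contra hne
    have hd : p ∣ Nat.card Q := by
      by_contra hc
      exact hQ1 (hN Q hQn hc)
    obtain ⟨t, ht⟩ := exists_prime_orderOf_dvd_card' (G := Q) p hd
    have : orderOf t ∣ r := orderOf_dvd_of_pow_eq_one (Subtype.ext (hre t t.2))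
    rw [ht] at this
    exact hne ((Nat.prime_dvd_prime_iff_eq hp.out hr).1 this).symm
  subst hrp
  have hQp : IsPGroup r Q := fun x => ⟨1, Subtype.ext (by simpa using hre x x.2)⟩
  have hQP : Q ≤ P := (H1.le_pCore hQp).trans (H1.pCore_le_sylow P)
  have hQ : Nat.card Q = r := by
    rcases h.card_sub hQP with e | e | e
    · exact absurd e hQ1
    · exact e
    · exact absurd (h.cardP ▸ card_dvd_of_le (e ▸ hQK : (P : Subgroup H) ≤ K)) hK2
  obtain ⟨C, hCd⟩ : ∃ C, C = centralizer (Q : Set H) := ⟨_, rfl⟩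
  haveI hCn : C.Normal := hCd ▸ inferInstance
  have hCm : ∀ x ∈ C, ∀ q ∈ Q, q * x = x * q := fun x hx q hq => (hCd ▸ hx) q hq
  have hPC : (P : Subgroup H) ≤ C := by
    rw [hCd]
    intro y hy x hx
    exact h.comm x (hQP hx) y hy
  have hcomm : ⁅(⊤ : Subgroup H), (⊤ : Subgroup H)⁆ ≤ C := by
    rw [commutator_le]
    intro g _ k _
    rw [hCd]
    intro q hq
    have hq' : k⁻¹ * (g⁻¹ * q * g⁻¹⁻¹) * k⁻¹⁻¹ ∈ Q := hQn.conj_mem _ (hQn.conj_mem _ hq _) _
    have := conj_comm_of_prime hp.out Q hQ g k hq'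
    rw [commutatorElement_def]
    have e1 : g * (k * (k⁻¹ * (g⁻¹ * q * g⁻¹⁻¹) * k⁻¹⁻¹) * k⁻¹) * g⁻¹ = q := by group
    rw [e1] at this
    calc q * (g * k * g⁻¹ * k⁻¹) = g * k * g⁻¹ * k⁻¹ *
          (k * (g * (k⁻¹ * (g⁻¹ * q * g⁻¹⁻¹) * k⁻¹⁻¹) * g⁻¹) * k⁻¹) := by group
      _ = _ := by rw [← this]
  refine nonsol_case hp2 P h ⁅C, C⁆ (fun hsol => hs ?_) (fun hd => ?_) b
  · have h1 : Group.IsSolvable (derivedSeries H 2) :=
      solvable_of_solvable_injective (inclusion_injective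
        (show derivedSeries H 2 ≤ ⁅C, C⁆ from commutator_mono hcomm hcomm))
    obtain ⟨n, hn⟩ := h1
    refine ⟨2 + n, ?_⟩
    have : ∀ m, (derivedSeries (derivedSeries H 2) m).map (derivedSeries H 2).subtype =
        derivedSeries H (2 + m) := by
      intro m
      induction m with
      | zero => rw [derivedSeries_zero, ← MonoidHom.range_eq_map, range_subtype]
      | succ m ih =>
        rw [derivedSeries_succ _ m, map_commutator, ih, ← add_assoc, derivedSeries_succ H (2 + m)]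
    rw [← this, hn, Subgroup.map_bot]
  · have hPT : (P : Subgroup H) ≤ ⁅C, C⁆ := by
      by_contra hn
      have hi : Nat.card ↥((P : Subgroup H) ⊔ ⁅C, C⁆) ∣ Nat.card H := card_subgroup_dvd_card _
      have h1 : ((P : Subgroup H) ⊓ ⁅C, C⁆).relIndex P * Nat.card ↥(⁅C, C⁆ : Subgroup H) =
          Nat.card ↥((P : Subgroup H) ⊔ ⁅C, C⁆) := by
        rw [inf_relIndex_left, ← relIndex_sup_right, relIndex,
          ← Nat.card_congr (subgroupOfEquivOfLe
            (le_sup_right : ⁅C, C⁆ ≤ (P : Subgroup H) ⊔ ⁅C, C⁆)).toEquiv, index_mul_card]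
      have h2 : r ∣ ((P : Subgroup H) ⊓ ⁅C, C⁆).relIndex P := by
        obtain ⟨j, hj⟩ := P.isPGroup'.index (((P : Subgroup H) ⊓ ⁅C, C⁆).subgroupOf P)
        rw [relIndex, hj]
        refine dvd_pow_self r fun e => hn ?_
        rw [e, pow_zero, index_eq_one, subgroupOf_eq_top] at hj
        exact hj.trans inf_le_right
      apply hp3
      rw [mul_comm]
      exact (mul_dvd_mul h2 hd).trans (h1 ▸ hi)
    obtain ⟨q, hq, hq1⟩ := (Q.bot_or_exists_ne_one).resolve_left hQ1
    letI : CommGroup ((P : Subgroup H).subgroupOf C) :=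
      { (inferInstance : Group ((P : Subgroup H).subgroupOf C)) with
        mul_comm := fun x y => Subtype.ext (Subtype.ext (h.comm _ x.2 _ y.2)) }
    have hqC : q ∈ C := hPC (hQP hq)
    have key : ∀ (k : ℕ) (g₀ : C), g₀⁻¹ * (⟨q, hqC⟩ : C) ^ k * g₀ ∈ (P : Subgroup H).subgroupOf C →
        g₀⁻¹ * (⟨q, hqC⟩ : C) ^ k * g₀ = (⟨q, hqC⟩ : C) ^ k := by
      intro k g₀ _
      refine Subtype.ext ?_
      change (g₀ : H)⁻¹ * q ^ k * g₀ = q ^ k
      rw [mul_assoc, hCm _ g₀.2 _ (pow_mem hq k), inv_mul_cancel_left]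
    have ht := MonoidHom.transfer_eq_pow (MonoidHom.id ((P : Subgroup H).subgroupOf C)) _ key
    have hm : (⟨q, hqC⟩ : C) ∈ _root_.commutator C := by
      have := hPT (hQP hq)
      rw [← map_subtype_commutator] at this
      obtain ⟨x, hx, e⟩ := this
      have : x = ⟨q, hqC⟩ := Subtype.ext e
      exact this ▸ hx
    have h1 := Abelianization.commutator_subset_ker
      (MonoidHom.transfer (MonoidHom.id ((P : Subgroup H).subgroupOf C))) hm
    rw [MonoidHom.mem_ker, ht] at h1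
    have h2 : q ^ ((P : Subgroup H).subgroupOf C).index = 1 :=
      congrArg (fun x : ((P : Subgroup H).subgroupOf C) => ((x : C) : H)) h1
    have h3 : orderOf q = r := by
      haveI := hp
      exact orderOf_eq_prime (hre q hq) hq1
    have h4 : r ∣ (P : Subgroup H).relIndex C := h3.symm.dvd.trans (orderOf_dvd_of_pow_eq_one h2)
    exact P.not_dvd_index (h4.trans (relIndex_dvd_index_of_le hPC))

end H19.DP
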