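import Cfsg.Agent.H11.ED

/-! Green's primitive class functions of `GL_n(q)`, linear algebra: for an additive function `b` of polynomials, `P b g W` is the Möbius
transform of `W ↦ b (charpoly (g|W))` on the lattice of `g`-invariant subspaces; `prim` (cuspidality), `P_one` (degree),
`P_cyc` (cyclic modules), `norm` (inner products). -/

set_option autoImplicit false
set_option linter.unusedSectionVars false

namespace H19.Gr
open Module Polynomial Finset H11
open Submodule hiding map_smul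
open LinearMap (ker range)
open scoped Classical

variable {F U V V' : Type*} [Field F] [AddCommGroup U] [Module F U] [Finite U] [AddCommGroup V] [Module F V] [Finite V]
  [AddCommGroup V'] [Module F V'] [Finite V'] {g : End F V} {g' : End F V'} {K W Y Z : Submodule F V} {b : F[X] → ℂ}

noncomputable scoped instance fintypeSub : Fintype (Submodule F V) := Fintype.ofFinite _
noncomputable scoped instance fintypeEnd : Fintype (End F V) := @Fintype.ofFinite _ (DFunLike.finite _)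

scoped instance finiteQuot : Finite (V ⧸ W) := .of_surjective _ W.mkQ_surjective

/-- invariant subspaces -/
abbrev Inv (g : End F V) (W : Submodule F V) : Prop := ∀ x ∈ W, g x ∈ W

theorem chi_quot (e : End F V) (W : Submodule F V) (he : Inv e W) :
    e.charpoly = (e.restrict he).charpoly * (W.mapQ W e he).charpoly := by
  let bW := Free.chooseBasis F W
  let bQ := Free.chooseBasis F (V ⧸ W)
  let b := Basis.sumQuot bW bQ
  suffices LinearMap.toMatrix b b e = Matrix.fromBlocks (LinearMap.toMatrix bW bW (e.restrict he))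
      (.of fun i l => (b.repr (e (b (.inr l)))) (.inl i)) 0 (LinearMap.toMatrix bQ bQ (W.mapQ W e he)) by
    rw [← e.charpoly_toMatrix b, this, Matrix.charpoly_fromBlocks_zero₂₁, LinearMap.charpoly_toMatrix, LinearMap.charpoly_toMatrix]
  ext (i | i) (k | k)
  · simp only [b, Basis.sumQuot_inl, Matrix.fromBlocks_apply₁₁, LinearMap.toMatrix_apply]
    apply Basis.sumQuot_repr_inl_of_mem
  · simp [b, LinearMap.toMatrix_apply]
  · suffices W.mkQ (e (bW k)) = 0 by simp [LinearMap.toMatrix_apply, b, this]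
    exact (Quotient.mk_eq_zero _).2 (he _ (bW k).2)
  · simp only [LinearMap.toMatrix_apply, Basis.sumQuot_repr_inr, Matrix.fromBlocks_apply₂₂, b]
    rw [← Basis.sumQuot_inr bW bQ k, W.mapQ_apply]
    simp

/-- characteristic polynomial on an invariant subspace -/
noncomputable def cp (g : End F V) (W : Submodule F V) : F[X] := if h : Inv g W then (g.restrict h).charpoly else 1

theorem cp_monic : (cp g W).Monic := by
  unfold cp; split_ifs
  exacts [LinearMap.charpoly_monic _, monic_one]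

theorem cp_eq {f : End F U} (e : U →ₗ[F] V) (he : Function.Injective e) (hf : ∀ x, e (f x) = g (e x)) (hW : range e = W) :
    cp g W = f.charpoly := by
  subst hW
  rw [cp, dif_pos (by rintro _ ⟨x, rfl⟩; exact ⟨_, hf x⟩)]
  refine (Sim.charpoly ⟨.ofInjective e he, fun x => ?_⟩).symm
  exact Subtype.ext (hf x)

theorem cp_top : cp g ⊤ = g.charpoly := cp_eq .id (fun _ _ h => h) (fun _ => rfl) LinearMap.range_id

theorem cp_bot : cp g ⊥ = 1 := by
  rw [cp, dif_pos (show Inv g ⊥ by simp [Inv]), ← (LinearMap.charpoly_monic _).natDegree_eq_zero, LinearMap.charpoly_natDegree, finrank_bot]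

theorem cp_mul (e : V →ₗ[F] V') (hZ : Inv g Z) (h : ∀ x ∈ Z, e (g x) = g' (e x)) : cp g Z = cp g (Z ⊓ ker e) * cp g' (Z.map e) := by
  have hK : Inv (g.restrict hZ) (ker (e ∘ₗ Z.subtype)) := fun x hx => (h x x.2).trans ((congrArg g' hx).trans (map_zero _))
  rw [cp, dif_pos hZ, chi_quot _ _ hK, cp_eq (f := (g.restrict hZ).restrict hK) (Z.subtype ∘ₗ (ker _).subtype)
    (Z.subtype_injective.comp (subtype_injective _)) (fun _ => rfl) (by
      rw [LinearMap.range_comp, range_subtype, LinearMap.ker_comp, map_comap_subtype]),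
    cp_eq (f := mapQ _ _ _ hK) (liftQ _ (e ∘ₗ Z.subtype) le_rfl) (LinearMap.ker_eq_bot.1 (ker_liftQ_eq_bot _ _ _ le_rfl))
      (fun x => by obtain ⟨x, rfl⟩ := mkQ_surjective _ x; exact h x x.2) (by rw [range_liftQ, LinearMap.range_comp, range_subtype])]

/-- the Möbius transform -/
noncomputable def P (b : F[X] → ℂ) (g : End F V) (W : Submodule F V) : ℂ :=
  b (cp g W) - ∑ W' : Submodule F V, if _h : W' < W ∧ Inv g W' then P b g W' else 0
termination_by finrank F W
decreasing_by exact finrank_lt_finrank_of_lt _h.1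

/-- invariant subspaces of `W` -/
noncomputable def I (g : End F V) (W : Submodule F V) : Finset (Submodule F V) := {W' | W' ≤ W ∧ Inv g W'}

@[simp] theorem mem_I : W ∈ I g Y ↔ W ≤ Y ∧ Inv g W := by simp [I]

theorem sum_I (h : Inv g W) (ρ : Submodule F V → ℂ) : ∑ Z ∈ I g W, ρ Z = ρ W + ∑ Z, if Z < W ∧ Inv g Z then ρ Z else 0 := by
  rw [← add_sum_erase _ _ (mem_I.2 ⟨le_rfl, h⟩), ← sum_filter]
  congr 2
  ext; simp [lt_iff_le_and_ne]; tauto

theorem sum_P (h : Inv g W) : ∑ Z ∈ I g W, P b g Z = b (cp g W) := by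
  rw [sum_I h, P]; simp

theorem eq_of_sum {ρ ρ' : Submodule F V → ℂ} (h : ∀ W ∈ I g Y, ∑ Z ∈ I g W, ρ Z = ∑ Z ∈ I g W, ρ' Z) (hW : W ∈ I g Y) : ρ W = ρ' W := by
  induction W using WellFoundedLT.induction with | ind W ih =>
  have := h W hW
  rw [sum_I (mem_I.1 hW).2, sum_I (mem_I.1 hW).2, sum_congr rfl fun Z _ => if_ctx_congr .rfl
    (fun k => ih Z k.1 (mem_I.2 ⟨k.1.le.trans (mem_I.1 hW).1, k.2⟩)) fun _ => rfl] at this
  exact add_right_cancel this

theorem P_sum {ι : Type*} (s : Finset ι) (c : ι → ℂ) (b : ι → F[X] → ℂ) (h : Inv g W) :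
    P (fun f => ∑ i ∈ s, c i * b i f) g W = ∑ i ∈ s, c i * P (b i) g W :=
  eq_of_sum (ρ' := fun W => ∑ i ∈ s, c i * P (b i) g W) (fun W hW => by
    rw [sum_comm]; simp only [← mul_sum, sum_P (mem_I.1 hW).2]) (mem_I.2 ⟨le_rfl, h⟩)

/-- additive functions -/
def Ad (b : F[X] → ℂ) : Prop := ∀ f h : F[X], f.Monic → h.Monic → b (f * h) = b f + b h

variable (hb : Ad b)
include hb

theorem Ad.one : b 1 = 0 := by simpa using hb 1 1 monic_one monic_one

theorem P_bot : P b g ⊥ = 0 := by rw [P, cp_bot, hb.one]; simp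

theorem push (e : V →ₗ[F] V') (hY : Inv g Y) (h : ∀ x ∈ Y, e (g x) = g' (e x)) {B : Submodule F V'} (hB : B ∈ I g' (Y.map e)) :
    ∑ W ∈ I g Y with W.map e = B, P b g W = P b g' B + if B = ⊥ then b (cp g (Y ⊓ ker e)) else 0 := by
  refine eq_of_sum (ρ := fun B => ∑ W ∈ I g Y with W.map e = B, P b g W) (ρ' := fun B => P b g' B + if B = ⊥ then _ else 0)
    (fun B hB => ?_) hB
  obtain ⟨h1, h2⟩ := mem_I.1 hB
  have hZ : Inv g (Y ⊓ B.comap e) := fun x hx => ⟨hY x hx.1, show e _ ∈ B from h x hx.1 ▸ h2 _ hx.2⟩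
  have e1 : (Y ⊓ B.comap e).map e = B := le_antisymm (map_le_iff_le_comap.2 inf_le_right) fun y hy => by
    obtain ⟨x, hx, rfl⟩ := h1 hy
    exact ⟨x, ⟨hx, hy⟩, rfl⟩
  rw [sum_add_distrib, sum_P h2, sum_ite_eq', if_pos (by simp [Inv]), sum_fiberwise_eq_sum_filter, add_comm, ← hb _ _ cp_monic cp_monic,
    show _root_.Finset.filter _ _ = I g (Y ⊓ B.comap e) from ?_, sum_P hZ, cp_mul e hZ fun x hx => h x hx.1, inf_assoc,
    inf_eq_right.2 (LinearMap.ker_le_comap _), e1]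
  ext W
  simp only [mem_filter, mem_I, le_inf_iff, map_le_iff_le_comap]
  refine ⟨fun k => ⟨⟨k.1.1, k.2.1⟩, k.1.2⟩, fun k => ⟨⟨k.1.1, k.2⟩, k.1.2, ?_⟩⟩
  rintro _ ⟨x, hx, rfl⟩
  exact ⟨_, k.2 x hx, h x (k.1.1 hx)⟩

theorem transport (e : V →ₗ[F] V') (hY : Inv g Y) (h : ∀ x ∈ Y, e (g x) = g' (e x)) (d : Y ⊓ ker e = ⊥) :
    P b g Y = P b g' (Y.map e) := by
  have := push hb e hY h (B := Y.map e) (mem_I.2 ⟨le_rfl, by rintro _ ⟨x, hx, rfl⟩; exact ⟨_, hY x hx, h x hx⟩⟩)
  rwa [d, cp_bot, hb.one, ite_self, add_zero, sum_eq_single_of_mem Y (by simpa using hY) fun W hW hn => (hn ?_).elim] at this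
  simp only [mem_filter, mem_I] at hW
  refine le_antisymm hW.1.1 fun x hx => ?_
  obtain ⟨y, hy, k⟩ := hW.2.ge ⟨x, hx, rfl⟩
  rwa [← sub_eq_zero.1 ((mem_bot F).1 (d.le ⟨sub_mem (hW.1.1 hy) hx, by simp [k]⟩))]

theorem P_congr {g' : End F V} (hY : Inv g Y) (h : ∀ x ∈ Y, g x = g' x) : P b g Y = P b g' Y :=
  (transport hb .id hY h (by simp)).trans (by simp)

omit hb

/-- the nilpotent radical -/
def N (K Y : Submodule F V) : AddSubgroup (End F V) where
  carrier := {X | (∀ v, X v ∈ K ⊓ Y) ∧ ∀ v ∈ K, X v = 0}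
  add_mem' ha hb := ⟨fun v => add_mem (ha.1 v) (hb.1 v), fun v hv => by simp [ha.2 v hv, hb.2 v hv]⟩
  zero_mem' := by simp
  neg_mem' ha := ⟨fun v => neg_mem (ha.1 v), fun v hv => by simp [ha.2 v hv]⟩

theorem card_compl (h : K ⊔ Y = ⊤) : #{W | W ≤ Y ∧ IsCompl K W} = Fintype.card (N K Y) := by
  obtain ⟨C, d, e⟩ := IsModularLattice.exists_disjoint_and_sup_eq (inf_le_right : K ⊓ Y ≤ Y)
  have hC : C ≤ Y := e ▸ le_sup_right
  have c : IsCompl K C := ⟨by simpa [disjoint_iff, inf_assoc, inf_eq_right.2 hC] using d,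
    codisjoint_iff.2 (by rw [← h, ← e, ← sup_assoc, sup_inf_self])⟩
  have m (W) (hW : W ≤ Y ∧ IsCompl K W) : K.projection W hW.2 - K.projection C c ∈ N K Y := ⟨fun v => ⟨sub_mem (projection_apply_mem _ v)
    (projection_apply_mem _ v), by simpa using sub_mem (hC (sub_projection_mem c v)) (hW.1 (sub_projection_mem hW.2 v))⟩,
    fun v hv => by simp [projection_apply_of_mem_left _ hv]⟩
  refine (card_bij (fun W hW => ⟨_, m W (mem_filter.1 hW).2⟩) (by simp) ?_ ?_).trans card_univ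
  · intro W hW W' hW' k
    rw [← ker_projection (mem_filter.1 hW).2.2, sub_left_injective (congrArg Subtype.val k), ker_projection]
  intro X _
  have p : LinearMap.IsProj K (K.projection C c + X.1) := ⟨fun v => add_mem (projection_apply_mem _ v) (X.2.1 v).1,
    fun v hv => by simp [projection_apply_of_mem_left _ hv, X.2.2 v hv]⟩
  refine ⟨_, mem_filter.2 ⟨mem_univ _, fun v hv => ?_, p.isCompl⟩, Subtype.ext (sub_eq_iff_eq_add'.2 (LinearMap.ext fun v => ?_))⟩
  · simpa [eq_neg_of_add_eq_zero_left (LinearMap.mem_ker.1 hv)] using sub_mem (hC (sub_projection_mem c v)) (X.2.1 v).2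
  · have := (projection_apply_eq_zero_iff p.isCompl).2 (show v - (K.projection C c + X.1) v ∈ ker _ by
      rw [LinearMap.mem_ker, map_sub, p.map_id _ (p.map_mem v), sub_self])
    rwa [map_sub, projection_apply_of_mem_left _ (p.map_mem v), sub_eq_zero] at this

theorem inv_add (X : N K Y) (h : Y ≤ W) : Inv (g + X.1) W ↔ Inv g W :=
  forall₂_congr fun x _ => add_mem_cancel_right (h (X.2.1 x).2)

theorem N_apply (X : N K Y) (x : V) : K.mkQ ((g + X.1) x) = K.mkQ (g x) := by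
  simpa using (X.2.1 x).1

theorem shift {A : Type*} [AddCommGroup A] [Fintype A] (H : AddSubgroup A) (t : A → ℂ) (h : ∀ x, ∑ y : H, t (x + y) = 0) : ∑ x, t x = 0 := by
  have : ∑ _y : H, ∑ x, t x = 0 := by
    rw [sum_congr rfl fun y _ => (Equiv.sum_comp (Equiv.addRight y.1) t).symm, sum_comm]
    exact sum_eq_zero fun x _ => h x
  simpa using this

include hb

theorem prim (hK : Inv g K) (hY : Inv g Y) (h : K ⊔ Y = ⊤) (h0 : K ⊓ Y ≠ ⊥) (h1 : K ≠ ⊤) : ∑ X : N K Y, P b (g + X.1) Y = 0 := by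
  induction Y using WellFoundedLT.induction generalizing g with | ind Y ih =>
  have tr (X : N K Y) (x : V) : K.mkQ ((g + X.1) x) = K.mapQ K g hK (K.mkQ x) := N_apply X x
  have a (X : N K Y) : ∑ W, (if W ∈ I (g + X.1) Y ∧ K ⊔ W = ⊤ then P b (g + X.1) W else 0) = P b (K.mapQ K g hK) ⊤ := by
    have := push hb K.mkQ ((inv_add X le_rfl).2 hY) (fun x _ => tr X x) (B := ⊤) (by simp [Inv, h])
    have _ := Quotient.nontrivial_iff.2 h1
    rw [if_neg top_ne_bot, add_zero] at this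
    rw [← this, ← sum_filter]
    exact sum_congr (by ext; simp) fun _ _ => rfl
  have c (W) : ∑ X : N K Y, (if W ∈ I (g + X.1) Y ∧ K ⊔ W = ⊤ then P b (g + X.1) W else 0) =
      (if W = Y then ∑ X : N K Y, P b (g + X.1) Y else 0) + if W ≤ Y ∧ IsCompl K W then P b (K.mapQ K g hK) ⊤ else 0 := by
    by_cases e : W = Y
    · rw [if_pos e, e, if_neg (c := Y ≤ Y ∧ _) fun l => h0 l.2.inf_eq_bot, add_zero]
      exact sum_congr rfl fun X _ => if_pos ⟨mem_I.2 ⟨le_rfl, (inv_add X le_rfl).2 hY⟩, h⟩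
    by_cases k : W ≤ Y ∧ K ⊔ W = ⊤
    swap
    · rw [if_neg e, if_neg (c := W ≤ Y ∧ _) fun l => k ⟨l.1, l.2.sup_eq_top⟩, add_zero]
      exact sum_eq_zero fun X _ => if_neg fun l => k ⟨(mem_I.1 l.1).1, l.2⟩
    simp only [mem_I, k, true_and, and_true, if_neg e, zero_add]
    split_ifs with d
    · have m (v) : K.projection W d (g (W.projection K d.symm v)) ∈ Y := by
        simpa using sub_mem (hY _ (k.1 (projection_apply_mem d.symm v))) (k.1 (sub_projection_mem d (g (W.projection K d.symm v))))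
      let X₀ : N K Y := ⟨-(K.projection W d * g * W.projection K d.symm), fun v => neg_mem ⟨projection_apply_mem _ _, m v⟩,
        fun v hv => by simp [(projection_apply_eq_zero_iff d.symm).2 hv]⟩
      have i0 : Inv (g + X₀.1) W := fun x hx => by
        simpa [X₀, projection_apply_of_mem_left _ hx, sub_eq_add_neg] using sub_projection_mem d (g x)
      rw [sum_eq_single X₀ (fun X _ hX => if_neg fun i => hX (Subtype.ext (LinearMap.ext fun v => ?_))) (by simp), if_pos i0,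
        transport hb K.mkQ i0 (fun x _ => tr _ x) (by simpa using d.symm.inf_eq_bot), (map_mkQ_eq_top _ _).2 k.2]
      obtain ⟨x, y, rfl, -⟩ := existsUnique_add_of_isCompl d v
      rw [map_add, map_add, X.2.2 _ x.2, X₀.2.2 _ x.2, ← sub_eq_zero.1 ((mem_bot F).1 (d.inf_eq_bot.le
        ⟨sub_mem (X.2.1 y).1 (X₀.2.1 y).1, by simpa using sub_mem (i _ y.2) (i0 _ y.2)⟩))]
    have l : N K W ≤ N K Y := fun X hX => ⟨fun v => ⟨(hX.1 v).1, k.1 (hX.1 v).2⟩, hX.2⟩
    refine shift ((N K W).addSubgroupOf _) _ fun X => ?_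
    rw [← (AddSubgroup.addSubgroupOfEquivOfLe l).symm.toEquiv.sum_comp]
    by_cases i : Inv (g + X.1) W
    · refine (sum_congr rfl fun X' _ => ?_).trans (ih W (k.1.lt_of_ne e) (fun x hx => by simpa [X.2.2 x hx] using hK x hx) i k.2
        fun l => d ⟨disjoint_iff.2 l, codisjoint_iff.2 k.2⟩)
      exact (if_pos (add_assoc g X.1 X'.1 ▸ (inv_add X' le_rfl).2 i)).trans (congrArg (P b · W) (add_assoc g X.1 X'.1).symm)
    · exact sum_eq_zero fun X' _ => if_neg fun j => i ((inv_add X' le_rfl).1 (add_assoc g X.1 X'.1 ▸ j))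
  have := sum_congr rfl fun X (_ : X ∈ univ) => a X
  rw [sum_comm, sum_congr rfl fun W _ => c W, sum_add_distrib, ← sum_filter (fun W => W ≤ Y ∧ _), sum_const, card_compl h] at this
  simpa using this

theorem P_one (n : ℕ) : ∀ (V : Type*) [AddCommGroup V] [Module F V] [Finite V], finrank F V = n + 1 →
    P b (1 : End F V) ⊤ = b (X - 1) * ∏ i ∈ Ico 1 (n + 1), (1 - (Nat.card F : ℂ) ^ i) := by
  induction n with
  | zero =>
    intro V _ _ _ h
    have := isSimpleModule_iff_finrank_eq_one.2 h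
    rw [P, cp_top, LinearMap.charpoly_one, h, sum_eq_zero fun W _ => ?_]
    · simp
    split_ifs with k
    exacts [(eq_bot_or_eq_top W).resolve_right k.1.ne ▸ P_bot hb, rfl]
  | succ n ih =>
    intro V _ _ _ h
    have := nontrivial_of_finrank_eq_succ h
    obtain ⟨v, hv⟩ := exists_ne (0 : V)
    have h1 := finrank_span_singleton (K := F) hv
    have h2 : finrank F (V ⧸ F ∙ v) = n + 1 := by have := (F ∙ v).finrank_quotient_add_finrank; omega
    have := nontrivial_of_finrank_eq_succ h2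
    have h3 := push hb (g := 1) (g' := 1) (F ∙ v).mkQ (Y := ⊤) (fun _ _ => mem_top) (fun _ _ => rfl) (B := ⊤) (by simp [Inv])
    have h4 : #{W | W ≤ ⊤ ∧ IsCompl (F ∙ v) W} = Nat.card F ^ (n + 1) := by
      have := DFunLike.finite (F := (V ⧸ F ∙ v) →ₗ[F] F ∙ v)
      rw [card_compl (sup_top_eq _), ← Nat.card_eq_fintype_card, Nat.card_congr (β := (V ⧸ F ∙ v) →ₗ[F] F ∙ v)
        ⟨fun X => liftQ _ (X.1.codRestrict _ fun x => (X.2.1 x).1) fun x hx => Subtype.ext (X.2.2 x hx),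
          fun t => ⟨(F ∙ v).subtype ∘ₗ t ∘ₗ (F ∙ v).mkQ, And.intro (fun x => ⟨(t _).2, mem_top⟩) fun x hx => by
            simp [(Quotient.mk_eq_zero _).2 hx]⟩, fun _ => rfl, fun t => linearMap_qext _ rfl⟩, natCard_eq_pow_finrank (K := F), finrank_linearMap, h1, h2, mul_one]
    rw [if_neg top_ne_bot, add_zero, ← add_sum_erase _ _ (a := ⊤) (by simp [Inv]), sum_congr (s₂ := {W | W ≤ ⊤ ∧ IsCompl (F ∙ v) W}) ?_
      (g := fun _ => P b (1 : End F (V ⧸ F ∙ v)) ⊤) fun W hW => ?_, sum_const, h4, ih _ h2] at h3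
    · rw [prod_Ico_succ_top (by omega), eq_sub_of_add_eq h3]; simp; ring
    · ext W
      simp only [mem_erase, mem_filter, mem_I, le_top, map_mkQ_eq_top, mem_univ, true_and, isCompl_iff, codisjoint_iff]
      refine ⟨fun k => ⟨(disjoint_span_singleton' hv).2 (fun l => k.1 ?_) |>.symm, k.2.2⟩, fun k => ⟨?_, fun _ h => h, k.2⟩⟩
      · rw [← k.2.2, sup_eq_right.2 ((span_singleton_le_iff_mem _ _).2 l)]
      · rintro rfl; exact hv (by simpa using k.1)
    · have k := (mem_filter.1 hW).2.2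
      rw [transport hb (g' := 1) (F ∙ v).mkQ (fun _ h => h) (fun _ _ => rfl) (by simpa using k.symm.inf_eq_bot),
        (map_mkQ_eq_top _ _).2 k.sup_eq_top]

omit hb

/-- evaluation at a vector -/
noncomputable def ev (g : End F V) (v : V) : F[X] →ₗ[F] V := LinearMap.applyₗ v ∘ₗ (aeval g).toLinearMap

theorem ev_apply (v : V) (f : F[X]) : ev g v f = aeval g f v := rfl

theorem ev_ev (v : V) (f h : F[X]) : ev g (ev g v h) f = ev g v (f * h) := by simp [ev_apply]

theorem g_ev (v : V) (f : F[X]) : g (ev g v f) = ev g v (X * f) := by simp [ev_apply]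

theorem inv_cyc (v : V) : Inv g (range (ev g v)) := by rintro _ ⟨f, rfl⟩; exact ⟨_, (g_ev v f).symm⟩

theorem ev_eq_zero_top {v : V} (hv : range (ev g v) = ⊤) {f : F[X]} : ev g v f = 0 ↔ g.charpoly ∣ f := by
  have m := g.charpoly_monic
  have k (f) : ev g v (f %ₘ g.charpoly) = ev g v f := by rw [ev_apply, ← g.aeval_eq_aeval_mod_charpoly, ev_apply]
  have d (f) : f %ₘ g.charpoly ∈ degreeLT F (finrank F V) :=
    mem_degreeLT.2 ((degree_modByMonic_lt f m).trans_eq (by rw [degree_eq_natDegree m.ne_zero, g.charpoly_natDegree]))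
  have i : Function.Injective (ev g v ∘ₗ (degreeLT F (finrank F V)).subtype) :=
    (LinearMap.injective_iff_surjective_of_finrank_eq_finrank (by rw [(degreeLTEquiv F _).finrank_eq]; simp)).2 fun x => by
      obtain ⟨f, rfl⟩ := hv.ge (mem_top (x := x))
      exact ⟨⟨_, d f⟩, k f⟩
  rw [← modByMonic_eq_zero_iff_dvd m, ← k]
  exact ⟨fun h => congrArg Subtype.val (i (a₁ := ⟨_, d f⟩) (a₂ := 0) (h.trans (map_zero _).symm)), fun h => by rw [h, map_zero]⟩

theorem ev_eq_zero {v : V} {f : F[X]} : ev g v f = 0 ↔ cp g (range (ev g v)) ∣ f := by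
  have k (f) : (ev (g.restrict (inv_cyc v)) ⟨v, 1, by simp [ev_apply]⟩ f : V) = ev g v f :=
    aeval_intertwine (f := g.restrict (inv_cyc v)) (e := (range (ev g v)).subtype) (fun _ => rfl) f _
  rw [cp, dif_pos (inv_cyc v), ← ev_eq_zero_top (v := ⟨v, 1, by simp [ev_apply]⟩), ← k, Submodule.coe_eq_zero]
  exact eq_top_iff.2 fun ⟨_, f, e⟩ _ => ⟨f, Subtype.ext ((k f).trans e)⟩

theorem cp_cyc {v : V} {d e : F[X]} (hd : d.Monic) (h : cp g (range (ev g v)) = d * e) : cp g (range (ev g (ev g v e))) = d := by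
  have e0 : e ≠ 0 := right_ne_zero_of_mul (h ▸ cp_monic.ne_zero)
  have k (f) : cp g (range (ev g (ev g v e))) ∣ f ↔ d ∣ f := by rw [← ev_eq_zero, ev_ev, ev_eq_zero, h, mul_dvd_mul_iff_right e0]
  exact eq_of_monic_of_associated cp_monic hd (associated_of_dvd_dvd ((k _).2 dvd_rfl) ((k _).1 dvd_rfl))

theorem exists_cyc {v : V} (h : W ∈ I g (range (ev g v))) :
    ∃ e, cp g (range (ev g v)) = cp g W * e ∧ W = range (ev g (ev g v e)) := by
  obtain ⟨h1, h2⟩ := mem_I.1 h
  have k (f) {x} (hx : x ∈ W) : ev g x f ∈ W := aeval_apply_smul_mem_of_le_comap hx f g h2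
  let J : Ideal F[X] := ⟨(W.comap (ev g v)).toAddSubmonoid, fun f x hx => show ev g v _ ∈ W from ev_ev (g := g) v f x ▸ k f hx⟩
  obtain ⟨e, he⟩ := (IsPrincipalIdealRing.principal J).principal
  have m {f : F[X]} : ev g v f ∈ W ↔ e ∣ f := (show f ∈ J ↔ f ∈ Ideal.span {e} by rw [he]).trans Ideal.mem_span_singleton
  obtain ⟨d, hd⟩ := m.1 ((ev_eq_zero (g := g) (v := v)).2 dvd_rfl ▸ W.zero_mem)
  have d0 : d.leadingCoeff ≠ 0 := leadingCoeff_ne_zero.2 (right_ne_zero_of_mul (hd ▸ cp_monic.ne_zero))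
  have a : cp g (range (ev g v)) = (d * C d.leadingCoeff⁻¹) * (C d.leadingCoeff * e) := by
    rw [hd, mul_assoc, ← mul_assoc (C _), ← C_mul, inv_mul_cancel₀ d0]; simp [mul_comm]
  have w : W = range (ev g (ev g v (C d.leadingCoeff * e))) := le_antisymm (fun x hx => by
    obtain ⟨f, rfl⟩ := h1 hx
    obtain ⟨f, rfl⟩ := m.1 hx
    exact ⟨f * C d.leadingCoeff⁻¹, by rw [ev_ev, mul_assoc, ← mul_assoc (C _), ← C_mul, inv_mul_cancel₀ d0]; simp [mul_comm]⟩)
    (by rintro _ ⟨f, rfl⟩; exact k f (m.2 (dvd_mul_left _ _)))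
  exact ⟨_, by rw [w, cp_cyc (monic_mul_leadingCoeff_inv (leadingCoeff_ne_zero.1 d0)) a, a], w⟩

theorem P_cyc {r : F[X]} (hr : r.Monic) (r1 : r ≠ 1) {s : F[X] → ℕ} (hs : ∀ f : F[X], f.Monic → ∀ i, r ^ (i + 1) ∣ f ↔ i < s f) (v : V) :
    P (fun f => (s f : ℂ)) g (range (ev g v)) = if ∃ i, cp g (range (ev g v)) = r ^ (i + 1) then 1 else 0 := by
  refine eq_of_sum (ρ' := fun W => if ∃ i, cp g W = r ^ (i + 1) then 1 else 0) (fun W hW => ?_) (mem_I.2 ⟨le_rfl, inv_cyc v⟩)
  obtain ⟨e, -, rfl⟩ := exists_cyc hW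
  generalize ev g v e = v
  rw [sum_P (inv_cyc v), sum_boole, ← card_range (s _)]
  congr 1
  refine (card_bij (fun W hW => (mem_filter.1 hW).2.choose) (fun W hW => ?_) (fun W hW W' hW' k => ?_) fun i hi => ?_).symm
  · obtain ⟨e, a, -⟩ := exists_cyc (mem_filter.1 hW).1
    exact mem_range.2 ((hs _ cp_monic _).1 ((mem_filter.1 hW).2.choose_spec ▸ a ▸ dvd_mul_right _ _))
  · obtain ⟨e, a, c⟩ := exists_cyc (mem_filter.1 hW).1
    obtain ⟨e', a', c'⟩ := exists_cyc (mem_filter.1 hW').1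
    rw [a, (mem_filter.1 hW).2.choose_spec, (mem_filter.1 hW').2.choose_spec, k] at a'
    rw [c, c', mul_left_cancel₀ (hr.pow _).ne_zero a']
  · obtain ⟨e, he⟩ := (hs _ cp_monic _).2 (mem_range.1 hi)
    have a := cp_cyc (hr.pow _) he
    refine ⟨_, mem_filter.2 ⟨mem_I.2 ⟨by rintro _ ⟨f, rfl⟩; exact ⟨_, (ev_ev v f e).symm⟩, inv_cyc _⟩, i, a⟩, ?_⟩
    have := congrArg natDegree (a.symm.trans (Exists.choose_spec (p := fun i => _ = r ^ (i + 1)) ⟨i, a⟩))
    simpa [hr.natDegree_pow, hr.natDegree_eq_zero, r1, eq_comm] using this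

theorem cp_congr {g' : End F V} (hY : Inv g Y) (h : ∀ x ∈ Y, g x = g' x) : cp g Y = cp g' Y := by
  rw [cp, dif_pos hY, cp_eq (f := g.restrict hY) Y.subtype Y.subtype_injective (fun x => h x x.2) (range_subtype _)]

theorem chi_add (hK : Inv g K) (X : N K Y) : (g + X.1).charpoly = g.charpoly := by
  rw [← cp_top, ← cp_top, cp_mul K.mkQ (g' := K.mapQ K g hK) (fun _ _ => mem_top) fun x _ => N_apply X x,
    cp_mul (g := g) K.mkQ (g' := K.mapQ K g hK) (fun _ _ => mem_top) fun _ _ => rfl, top_inf_eq, ker_mkQ,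
    cp_congr hK (g' := g + X.1) fun x hx => by simp [X.2.2 x hx]]

theorem expand (hb : Ad b) [Nontrivial V] (Ψ : End F V → Submodule F V → ℂ) (h : ∀ g W, Inv g W → ∀ X : N W ⊤, Ψ (g + X.1) W = Ψ g W) :
    ∑ g, P b g ⊤ * ∑ W ∈ I g ⊤, Ψ g W = ∑ g, P b g ⊤ * (Ψ g ⊥ + Ψ g ⊤) := by
  have k (W) (h0 : W ≠ ⊥) (h1 : W ≠ ⊤) : ∑ g, (if Inv g W then P b g ⊤ * Ψ g W else 0) = 0 := shift (N W ⊤) _ fun g => by
    have e (X : N W ⊤) : Inv (g + X.1) W ↔ Inv g W := forall₂_congr fun x hx => by simp [X.2.2 x hx]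
    by_cases i : Inv g W
    · rw [sum_congr rfl fun X _ => (if_pos ((e X).2 i)).trans (congrArg _ (h g W i X)), ← sum_mul,
        prim hb i (fun _ _ => mem_top) (sup_top_eq _) (by simpa) h1, zero_mul]
    · exact sum_eq_zero fun X _ => if_neg (mt (e X).1 i)
  simp only [I, sum_filter, mul_sum, le_top, true_and, mul_ite, mul_zero, mul_add, sum_add_distrib]
  rw [sum_comm, sum_eq_add_of_mem ⊥ ⊤ (mem_univ _) (mem_univ _) bot_ne_top fun W _ k' => k W k'.1 k'.2]
  simp [Inv]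

theorem norm_eq (hb : Ad b) [Nontrivial V] {b' : F[X] → ℂ} (hb' : Ad b') (c : F[X] → ℂ) :
    ∑ g : End F V, P b g ⊤ * (c g.charpoly * (starRingEnd ℂ) (P b' g ⊤)) = ∑ g : End F V, P b g ⊤ * (c g.charpoly * (starRingEnd ℂ) (b' g.charpoly)) := by
  have := expand hb (fun (g : End F V) W => c g.charpoly * (starRingEnd ℂ) (P b' g W)) fun g W i X => by
    rw [chi_add i, P_congr hb' i (g' := g + X.1) fun x hx => by simp [X.2.2 x hx]]
  simpa only [← mul_sum, ← map_sum, sum_P (fun _ _ => mem_top : Inv _ ⊤), cp_top, P_bot hb', map_zero, mul_zero, zero_add] using this.symm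

theorem sum_cyc (hb : Ad b) [Fintype V] [Nontrivial V] (c : F[X] → ℂ) : (Nat.card V - 1 : ℂ) * ∑ g : End F V, P b g ⊤ * c g.charpoly =
    ∑ g : End F V, P b g ⊤ * (c g.charpoly * #{v | range (ev g v) = ⊤}) := by
  have := expand hb (fun (g : End F V) W => c g.charpoly * #{v | range (ev g v) = W}) fun g W i X => by
    have k (v) (hv : v ∈ W) : ev (g + X.1) v = ev g v := LinearMap.ext fun f =>
      (aeval_intertwine (f := g.restrict i) (e := W.subtype) (fun x => by simp [X.2.2 x x.2]) f ⟨v, hv⟩).symm.trans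
        (aeval_intertwine (f := g.restrict i) (e := W.subtype) (fun _ => rfl) f ⟨v, hv⟩)
    rw [chi_add i]
    congr 3
    ext v
    simp only [mem_filter, mem_univ, true_and]
    exact ⟨fun e => k v (e.le ⟨1, by simp [ev_apply]⟩) ▸ e, fun e => (k v (e.le ⟨1, by simp [ev_apply]⟩)).symm ▸ e⟩
  have a (g : End F V) : ∑ W ∈ I g ⊤, (#{v | range (ev g v) = W} : ℂ) = Nat.card V := by
    rw [← Nat.cast_sum, ← card_eq_sum_card_fiberwise fun v _ => mem_coe.2 (mem_I.2 ⟨le_top, inv_cyc v⟩)]; simp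
  have e (g : End F V) : #{v | range (ev g v) = ⊥} = 1 := card_eq_one.2 ⟨0, eq_singleton_iff_unique_mem.2
    ⟨mem_filter.2 ⟨mem_univ _, LinearMap.range_eq_bot.2 (LinearMap.ext fun p => map_zero (aeval g p))⟩, fun v hv => (mem_filter.1 hv).2.le ⟨1, by simp [ev_apply]⟩⟩⟩
  simp only [← mul_sum, a, e, mul_add, sum_add_distrib, ← mul_assoc, ← sum_mul] at this ⊢
  linear_combination this

theorem count [Fintype V] {f : F[X]} (hf : f.Monic) (h : f.natDegree = finrank F V) :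
    ∑ g : End F V with g.charpoly = f, #{v | range (ev g v) = ⊤} = Nat.card (V ≃ₗ[F] V) := by
  have := @Fintype.ofFinite (V ≃ₗ[F] V) (DFunLike.finite _)
  obtain ⟨g, e, he⟩ := exists_sim (W := V) (xmul F (Blk f)) ((finrank_blk f).trans h)
  have c : g.charpoly = f := (Sim.charpoly ⟨e, he⟩).trans (charpoly_blk hf)
  obtain ⟨v, hv⟩ : ∃ v, range (ev g v) = ⊤ := ⟨e.symm (Ideal.Quotient.mk _ 1), eq_top_iff.2 fun x _ => by
    obtain ⟨p, hp⟩ := Ideal.Quotient.mk_surjective (e x)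
    exact ⟨p, e.injective ((aeval_intertwine (e := e.toLinearMap) he p _).trans (by
      rw [LinearEquiv.coe_coe, e.apply_symm_apply, aeval_blk_mk, mul_one, hp]))⟩⟩
  have k (u : V ≃ₗ[F] V) (p) : ev (u.conj g) (u v) p = u (ev g v p) := (aeval_intertwine (e := u.toLinearMap) (by simp) p v).symm
  rw [← card_sigma, Nat.card_eq_fintype_card, ← card_univ]
  refine (card_bij (fun u _ => ⟨u.conj g, u v⟩) (fun u _ => ?_) (fun u _ u' _ a => ?_) ?_).symm
  · simp only [mem_sigma, mem_filter, mem_univ, true_and, u.charpoly_conj, c]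
    refine eq_top_iff.2 fun x _ => ?_
    obtain ⟨p, hp⟩ := hv.ge (mem_top (x := u.symm x))
    exact ⟨p, by simp [k, hp]⟩
  · refine LinearEquiv.ext fun x => ?_
    obtain ⟨p, rfl⟩ := hv.ge (mem_top (x := x))
    rw [← k, ← k, (Sigma.mk.inj_iff.1 a).1, eq_of_heq (Sigma.mk.inj_iff.1 a).2]
  rintro ⟨g', v'⟩ a
  simp only [mem_sigma, mem_filter, mem_univ, true_and] at a
  let u := ((ev g v).quotKerEquivOfSurjective (LinearMap.range_eq_top.1 hv)).symm ≪≫ₗ quotEquivOfEq _ _ (Submodule.ext fun p => by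
    simp only [LinearMap.mem_ker, ev_eq_zero_top hv, ev_eq_zero_top a.2, c, a.1]) ≪≫ₗ
      (ev g' v').quotKerEquivOfSurjective (LinearMap.range_eq_top.1 a.2)
  have m (p) : u (ev g v p) = ev g' v' p := by simp [u]
  refine ⟨u, mem_univ _, Sigma.ext (LinearMap.ext fun x => ?_) (heq_of_eq (by simpa [ev_apply] using m 1))⟩
  obtain ⟨p, rfl⟩ := a.2.ge (mem_top (x := x))
  rw [g_ev, ← m, ← m, ← g_ev]
  simp

theorem sum_prim [Finite F] [Nontrivial V] {r : F[X]} (hr : r.Monic) (r1 : r ≠ 1) {s : F[X] → ℕ}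
    (hs : ∀ f : F[X], f.Monic → ∀ i, r ^ (i + 1) ∣ f ↔ i < s f) (hb : Ad fun f => (s f : ℂ)) (c : F[X] → ℂ) :
    (Nat.card V - 1 : ℂ) * ∑ g : End F V, P (fun f => (s f : ℂ)) g ⊤ * c g.charpoly =
      if r.natDegree ∣ finrank F V then Nat.card (V ≃ₗ[F] V) * c (r ^ (finrank F V / r.natDegree)) else 0 := by
  have := Fintype.ofFinite V
  have d : 0 < r.natDegree := Nat.pos_of_ne_zero (mt hr.natDegree_eq_zero.1 r1)
  have k (g : End F V) : P (fun f => (s f : ℂ)) g ⊤ * (c g.charpoly * #{v | range (ev g v) = ⊤}) = if r.natDegree ∣ finrank F V then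
      if g.charpoly = r ^ (finrank F V / r.natDegree) then (#{v | range (ev g v) = ⊤} : ℂ) * c (r ^ (finrank F V / r.natDegree)) else 0 else 0 := by
    by_cases h : ∃ v, range (ev g v) = ⊤
    swap
    · simp [filter_false_of_mem fun v _ => not_exists.1 h v]
    obtain ⟨v, hv⟩ := h
    rw [← ite_and, ← congrArg (P _ g) hv, P_cyc hr r1 hs, hv, cp_top, ite_mul, zero_mul]
    refine if_ctx_congr ⟨fun ⟨i, e⟩ => ?_, fun ⟨⟨t, a⟩, e⟩ => ⟨t - 1, ?_⟩⟩ (fun e => by rw [e.2, one_mul, mul_comm]) fun _ => rfl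
    · rw [← g.charpoly_natDegree, e, hr.natDegree_pow]
      exact ⟨dvd_mul_left _ _, by rw [Nat.mul_div_cancel _ d]⟩
    · rw [e, a, Nat.mul_div_cancel_left _ d, Nat.sub_add_cancel (Nat.pos_of_mul_pos_left (a ▸ finrank_pos))]
  rw [sum_cyc hb, sum_congr rfl fun g _ => k g]
  split_ifs with h
  · rw [← sum_filter, ← sum_mul, ← Nat.cast_sum, count (hr.pow _) (by rw [hr.natDegree_pow, Nat.div_mul_cancel h])]
  · simp

end H19.Gr
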