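import Cfsg.Agent.H19.Iso

/-! `PΩ⁻₆(q) ≅ PSU₄(q)` (`po_six_minus`). -/

set_option autoImplicit false

namespace H19.Iso
open Module Matrix H11 H11.PForm Subgroup
open scoped MatrixGroups

variable {F K : Type*} [Field F] [Field K]

theorem alt_su {σ : K →+* K} (hσ : ∀ a, σ (σ a) = a) {g : Matrix (Fin 4) (Fin 4) K} (hd : g.det = 1) (u : (g.map σ)ᵀ * g = 1)
    (x y z : K) : ∃ a b c, g * alt x y z (σ z) (-σ y) (σ x) * gᵀ = alt a b c (σ c) (-σ b) (σ a) ∧
      σ a * a + σ b * b + σ c * c = σ x * x + σ y * y + σ z * z := by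
  have am : ∀ a b c d e f : K, (alt a b c d e f).map σ = alt (σ a) (σ b) (σ c) (σ d) (σ e) (σ f) := fun a b c d e f => by
    ext i j; fin_cases i <;> fin_cases j <;> simp [alt]
  obtain ⟨a, b, c, d, e, f, h1, h2, h3⟩ := alt_conj g x y z (σ z) (-σ y) (σ x)
  rw [mul_eq_one_comm] at u
  have u' : g.map σ * gᵀ = 1 := by simpa using congrArg transpose u
  have h4 := congrArg (fun X => X.map σ) h1
  have h5 := congrArg (fun X => g.map σ * X * (g.map σ)ᵀ) h3
  simp only [Matrix.map_mul, am, hσ, map_neg, transpose_map] at h4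
  simp only [hd, one_smul, neg_neg, h4, ← Matrix.mul_assoc, u', Matrix.one_mul] at h5
  rw [Matrix.mul_assoc, u, Matrix.mul_one] at h5
  obtain ⟨k1, k2, k3, -⟩ := alt_inj h5
  refine ⟨a, b, c, by rw [h1, ← k1, ← k2, ← k3, neg_neg], ?_⟩
  rw [hd] at h2
  rw [← k1, ← k2, ← k3]
  linear_combination h2

theorem alt_add (a b c d e f a' b' c' d' e' f' : K) : alt a b c d e f + alt a' b' c' d' e' f' =
    alt (a + a') (b + b') (c + c') (d + d') (e + e') (f + f') := by
  ext i j; fin_cases i <;> fin_cases j <;> simp [alt, add_comm]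

theorem alt_smul [Algebra F K] (t : F) (a b c d e f : K) : t • alt a b c d e f =
    alt (t • a) (t • b) (t • c) (t • d) (t • e) (t • f) := by
  ext i j; fin_cases i <;> fin_cases j <;> simp [alt]

theorem su4_perfect [Fintype K] {q : ℕ} (hK : Fintype.card K = q ^ 2) :
    commutator (Cfsg.SU 4 K q) = ⊤ ∧ IsSimpleGroup (Cfsg.PSU 4 K q) := by
  obtain ⟨σ, hq, hσ, hne⟩ := exists_frob hK
  obtain ⟨p1, p2⟩ := (stdUnit_nondeg hσ hne (Fin 4)).unit_isSimple hne (q := q) (by simpa using hK) (by simp) (by simp)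
  exact ⟨commutator_eq_top_of_equiv (suEquiv hσ hne hq 4) p1, (centerQuotCongr (suEquiv hσ hne hq 4)).isSimpleGroup⟩

theorem po_six_minus [Fintype F] [Fintype K] {q : ℕ} (hF : Fintype.card F = q) (hK : Fintype.card K = q ^ 2) {a b : F}
    (hab : Aniso a b) : Nonempty (PO (sMinus 2 F a b) ≃* Cfsg.PSU 4 K q) := by
  obtain ⟨_, σ, h2, hq, hσ, hne, hf⟩ := exists_quad_setup hF hK
  obtain ⟨e, he⟩ : ∃ e : ((Fin 2 ⊕ Fin 2) ⊕ Fin 2 → F) ≃ₗ[F] (Fin 3 → K),
      ∀ v, algebraMap F K ((sMinus 2 F a b).q v) = ∑ i, σ (e v i) * e v i := exists_res h2 hσ hne hf (k := 1) hab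
  have hσ' : ∀ a, σ (algebraMap F K a) = algebraMap F K a := fun a => (hf _).2 ⟨a, rfl⟩
  have hS := sMinus_nondeg 2 hab
  have hn := sMinus_not_hasTS 2 hab
  obtain ⟨m, hm⟩ : ∃ m : ((Fin 2 ⊕ Fin 2) ⊕ Fin 2 → F) →ₗ[F] Matrix (Fin 4) (Fin 4) K,
      ∀ v, m v = alt (e v 0) (e v 1) (e v 2) (σ (e v 2)) (-σ (e v 1)) (σ (e v 0)) :=
    ⟨⟨⟨fun v => alt (e v 0) (e v 1) (e v 2) (σ (e v 2)) (-σ (e v 1)) (σ (e v 0)), fun x y => by
      simp only [alt_add, map_add, Pi.add_apply, neg_add]⟩, fun c x => by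
        simp only [alt_smul, map_smul, Pi.smul_apply, Algebra.smul_def (A := K), map_mul, hσ', mul_neg, RingHom.id_apply]⟩,
      fun _ => rfl⟩
  obtain ⟨φ, hφ⟩ := exists_rep (G := Cfsg.SU 4 K q) hS (fun g => g.1.1) (fun g => g.1.1ᵀ) (fun _ _ => rfl)
    (fun _ _ => transpose_mul _ _) m (fun x y h => by
      rw [hm, hm] at h
      obtain ⟨h1, h2, h3, -⟩ := alt_inj h
      refine e.injective (funext fun i => ?_)
      fin_cases i
      exacts [h1, h2, h3]) fun g v => by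
      obtain ⟨x, y, z, h1, h2⟩ := alt_su hσ g.1.2 ((mem_SU hq).1 g.2) (e v 0) (e v 1) (e v 2)
      refine ⟨e.symm ![x, y, z], by rw [hm, hm, h1, e.apply_symm_apply]; rfl, (algebraMap F K).injective ?_⟩
      rw [he, he, e.apply_symm_apply, Fin.sum_univ_three, Fin.sum_univ_three]
      exact h2
  refine iso_of_simple hS (Or.inr (Or.inl (by simp))) (by simp) φ (su4_perfect hK).1 (su4_perfect hK).2
    ⟨⟨cyc K, (mem_SU hq).2 ?_⟩, fun c h => ?_⟩ ?_
  · ext i j; fin_cases i <;> fin_cases j <;> simp [cyc, mul_apply, Fin.sum_univ_four]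
  · have := congr($((hφ _ (e.symm ![1, 0, 0])).symm.trans ((congrArg m (h _)).trans (map_smul m c _))) 1 2)
    simp [hm, mul_apply, Fin.sum_univ_four, cyc, alt] at this
  · have := hS.card_POmega_minus (m := 3) (by simp) (by simp) hn
    have e := Cfsg.Agent.S0280.result hK 4 (by simp)
    rw [Nat.card_eq_fintype_card (α := F), hF, (gcd_four_cube _).2] at this
    refine Nat.eq_of_mul_eq_mul_left (Nat.gcd_pos_of_pos_left (q + 1) four_pos)
      (Nat.eq_of_mul_eq_mul_left (show 0 < q + 1 by omega) ?_)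
    rw [this, mul_left_comm, e]
    simp [Finset.prod_range_succ, show ¬ Even 3 by decide]
    ring

end H19.Iso
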