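import Cfsg.Agent.H13.Km0

/-! Frobenius groups of automorphisms: the fixed points of the complement on `K / V` are covered (`pB`). -/
set_option autoImplicit false
namespace H19.Km
open Cfsg H18 H1 Subgroup H13.Km
universe u

theorem exists_rho {G : Type*} [Group G] {F H : Subgroup G} (hn : H ≤ N(F)) (sr : Semireg F H) :
    ∃ ρ : G → G, (∀ f, ρ f ∈ H) ∧ ∀ f ∈ F, f ≠ 1 → ∀ x ∈ H, ρ (x * f * x⁻¹) = x * ρ f := by
  classical
  let r : G → G := fun f => Classical.epsilon fun a => ∃ h ∈ H, h * a * h⁻¹ = f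
  have hr : ∀ f, ∃ h ∈ H, h * r f * h⁻¹ = f := fun f =>
    Classical.epsilon_spec (p := fun a => ∃ h ∈ H, h * a * h⁻¹ = f) ⟨f, 1, one_mem _, by simp⟩
  have rc : ∀ f, ∀ x ∈ H, r (x * f * x⁻¹) = r f := fun f x hx => by
    simp only [r]
    congr 1
    funext a
    refine propext ⟨?_, ?_⟩
    · rintro ⟨h, hh, e⟩
      refine ⟨x⁻¹ * h, mul_mem (inv_mem hx) hh, ?_⟩
      calc _ = x⁻¹ * (h * a * h⁻¹) * x := by group
        _ = f := by rw [e]; group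
    · rintro ⟨h, hh, e⟩
      exact ⟨x * h, mul_mem hx hh, by rw [← e]; group⟩
  choose ρ h1 h2 using hr
  refine ⟨ρ, h1, fun f hf f1 x hx => ?_⟩
  by_contra ne
  have e := h2 (x * f * x⁻¹)
  rw [rc f x hx] at e
  have e2 : r f = (ρ f)⁻¹ * f * ρ f := by
    conv_rhs => rw [← h2 f]
    rw [h2 f]
    conv_lhs => rw [show r f = (ρ f)⁻¹ * (ρ f * r f * (ρ f)⁻¹) * ρ f by group, h2 f]
  have m : x⁻¹ * ρ (x * f * x⁻¹) * (ρ f)⁻¹ ∈ H := mul_mem (mul_mem (inv_mem hx) (h1 _)) (inv_mem (h1 _))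
  have n1 : x⁻¹ * ρ (x * f * x⁻¹) * (ρ f)⁻¹ ≠ 1 := fun k => ne (by
    rw [mul_inv_eq_one, inv_mul_eq_iff_eq_mul] at k; exact k)
  refine f1 (eq_one_of_eq_bot (sr _ m n1) ⟨hf, mem_C1.2 ?_⟩)
  rw [e2] at e
  generalize ρ (x * f * x⁻¹) = y at e ⊢
  generalize ρ f = z at e ⊢
  have : x⁻¹ * y * z⁻¹ * f * (x⁻¹ * y * z⁻¹)⁻¹ = f := by
    calc _ = x⁻¹ * (y * (z⁻¹ * f * z) * y⁻¹) * x := by group
      _ = f := by rw [e]; group
  first
    | exact mul_inv_eq_iff_eq_mul.1 this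
    | exact (mul_inv_eq_iff_eq_mul.1 this).symm

theorem pB : PB.{u} := by
  intro G _ _ K F H V c hV nV FV HV g gK hg
  classical
  haveI : Fintype F := Fintype.ofFinite _
  letI : CommGroup V :=
    { (inferInstance : Group V) with mul_comm := fun a b => Subtype.ext (mem_C.1 (hV b.2) a a.2) }
  have ex : ∀ x : G, ∃ φ : V →* V, x ∈ N(V) → ∀ w : V, (φ w : G) = x * w * x⁻¹ := fun x => by
    by_cases h : x ∈ N(V)
    · exact ⟨(V.normalizerMonoidHom ⟨x, h⟩).toMonoidHom, fun _ w => rfl⟩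
    · exact ⟨1, fun k => absurd k h⟩
  choose φ hφ using ex
  have nm : ∀ w : V, ∏ f : F, φ f w = 1 := fun w => by
    have h1 : ∀ y ∈ F, φ y (∏ f : F, φ f w) = ∏ f : F, φ f w := fun y hy => by
      rw [map_prod]
      exact Fintype.prod_equiv (Equiv.mulLeft ⟨y, hy⟩) _ _ fun f => Subtype.ext (by
        rw [hφ _ (FV hy), hφ _ (FV f.2), hφ _ (FV (Subtype.property _))]
        simp only [Equiv.coe_mulLeft, coe_mul]
        group)
    refine Subtype.ext (eq_one_of_eq_bot c.cf ⟨nV.le (Subtype.property _), mem_C.2 fun y hy => ?_⟩)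
    have := congrArg Subtype.val (h1 y hy)
    rw [hφ _ (FV hy)] at this
    exact mul_inv_eq_iff_eq_mul.1 this
  have nm' : ∀ w : V, ∏ f ∈ Finset.univ.erase (1 : F), φ f w = w⁻¹ := fun w => by
    have h1 := Finset.mul_prod_erase Finset.univ (fun f : F => φ f w) (Finset.mem_univ 1)
    have h2 : φ ((1 : F) : G) w = w := Subtype.ext (by rw [hφ _ (FV (1 : F).2)]; simp)
    rw [nm, h2] at h1
    exact eq_inv_of_mul_eq_one_right h1
  obtain ⟨ρ, r1, r2⟩ := exists_rho c.hn c.sr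
  have ed : ∀ h : G, ∃ d : V, h ∈ H → (d : G) = g⁻¹ * (h * g * h⁻¹) := fun h => by
    by_cases k : h ∈ H
    · exact ⟨⟨_, hg h k⟩, fun _ => rfl⟩
    · exact ⟨1, fun k' => absurd k' k⟩
  choose δ hδ using ed
  obtain ⟨v, hv⟩ : ∃ v : V, v = ∏ f ∈ Finset.univ.erase (1 : F), φ f (δ (ρ f)) := ⟨_, rfl⟩
  have key : ∀ x ∈ H, φ x v = δ x * v := fun x hx => by
    let e : F ≃* F := F.normalizerMonoidHom ⟨x, c.hn hx⟩
    have ce : ∀ f : F, ((e f : F) : G) = x * f * x⁻¹ := fun f => rfl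
    have h1 : φ x v = ∏ f ∈ Finset.univ.erase (1 : F), (φ f (δ x)⁻¹ * φ f (δ (ρ f))) := by
      rw [hv, map_prod]
      refine Finset.prod_equiv e.toEquiv (fun f => by simp) fun f hf => Subtype.ext ?_
      have f1 : (f : G) ≠ 1 := fun k => (Finset.mem_erase.1 hf).1 (Subtype.ext k)
      rw [hφ _ (HV hx), hφ _ (FV f.2), coe_mul, hφ _ (FV (Subtype.property _)), hφ _ (FV (Subtype.property _)),
        coe_inv, hδ _ (r1 _), hδ _ (r1 _), hδ _ hx]
      change _ = (e f : G) * _ * (e f : G)⁻¹ * ((e f : G) * (g⁻¹ * (ρ (e f : G) * g * (ρ (e f : G))⁻¹)) * (e f : G)⁻¹)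
      rw [ce, r2 _ f.2 f1 _ hx]
      group
    rw [h1, Finset.prod_mul_distrib, nm', inv_inv, ← hv]
  refine ⟨(v⁻¹ : V), (v⁻¹).2, mem_C.2 fun x hx => ?_⟩
  have h1 : φ x v⁻¹ = (δ x)⁻¹ * v⁻¹ := by rw [map_inv, key x hx, mul_inv]
  have h2 := congrArg Subtype.val h1
  rw [hφ _ (HV hx), coe_mul, coe_inv (x := δ x), hδ _ hx] at h2
  calc x * (g * (v⁻¹ : V)) = x * g * x⁻¹ * (x * (v⁻¹ : V) * x⁻¹) * x := by group
    _ = _ := by rw [h2]; group

end H19.Km
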