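import Cfsg.Agent.H17.TW
import Mathlib.GroupTheory.SpecificGroups.Alternating.Simple
import Mathlib.GroupTheory.GroupAction.MultipleTransitivity

/-! Cameron–Knapp: primitive groups with an alternating or symmetric subconstituent. `Loc H K ψ χ` (local action of `H`
on the cosets of `K` contains the alternating group), `exists_loc`, `alt_paired`, `main`, `classify`. -/

set_option autoImplicit false

namespace H19.Kn
open Subgroup H17 Equiv

section perm
variable {α : Type*} [Fintype α] [DecidableEq α]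

theorem cent_alt (h : 4 ≤ Fintype.card α) {r : Perm α} (hr : ∀ a ∈ alternatingGroup α, a * r = r * a) : r = 1 := by
  ext x
  by_contra hx
  replace hx : r x ≠ x := hx
  have h1 : 1 < ({x, r x}ᶜ : Finset α).card := by
    have := Finset.card_le_two (a := x) (b := r x)
    rw [Finset.card_compl]; omega
  obtain ⟨z, hz, w, hw, zw⟩ := Finset.one_lt_card.1 h1
  simp only [Finset.mem_compl, Finset.mem_insert, Finset.mem_singleton, not_or] at hz hw
  have := DFunLike.congr_fun (hr (swap (r x) z * swap (r x) w) (by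
    simp [Perm.mem_alternatingGroup, Perm.sign_swap (Ne.symm hz.2), Perm.sign_swap (Ne.symm hw.2)])) x
  simp only [Perm.coe_mul, Function.comp_apply, swap_apply_left] at this
  rw [swap_apply_of_ne_of_ne hw.2 (Ne.symm zw), swap_apply_of_ne_of_ne (Ne.symm hx) (Ne.symm hw.1),
    swap_apply_of_ne_of_ne (Ne.symm hx) (Ne.symm hz.1)] at this
  exact hw.2 this

theorem norm_alt (h : 5 ≤ Fintype.card α) (R : Subgroup (Perm α))
    (hR : ∀ a ∈ alternatingGroup α, ∀ r ∈ R, a * r * a⁻¹ ∈ R) : R = ⊥ ∨ alternatingGroup α ≤ R := by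
  have : IsSimpleGroup (alternatingGroup α) := alternatingGroup.isSimpleGroup (by simpa using h)
  rcases IsSimpleGroup.eq_bot_or_eq_top_of_normal (R.subgroupOf (alternatingGroup α))
    ⟨fun r hr a => hR a a.2 r hr⟩ with e | e
  · refine Or.inl (eq_bot_iff.2 fun r hr => cent_alt (by omega) fun a ha => ?_)
    have h1 : a * r * a⁻¹ * r⁻¹ ∈ alternatingGroup α := by
      rw [mul_assoc, mul_assoc, ← mul_assoc r]
      simpa using mul_mem ha (Normal.conj_mem inferInstance _ (inv_mem ha) r)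
    have := congrArg Subtype.val (mem_bot.1 (e.le (show (⟨_, h1⟩ : alternatingGroup α) ∈ R.subgroupOf _ from
      mul_mem (hR a ha r hr) (inv_mem hr))))
    simpa [mul_inv_eq_iff_eq_mul] using this
  · exact Or.inr (subgroupOf_eq_top.1 e)

theorem card_alt (h : 2 ≤ Fintype.card α) : 2 * Nat.card (alternatingGroup α) = (Fintype.card α).factorial := by
  have : Nontrivial α := Fintype.one_lt_card_iff_nontrivial.1 h
  rw [two_mul_nat_card_alternatingGroup, Nat.card_perm, Nat.card_eq_fintype_card]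

theorem alt_not_comm (h : 4 ≤ Fintype.card α) (hc : ∀ a ∈ alternatingGroup α, ∀ b ∈ alternatingGroup α, a * b = b * a) :
    False := by
  have h1 : alternatingGroup α = ⊥ := eq_bot_iff.2 fun b hb => cent_alt h fun a ha => hc a ha b hb
  have h2 := card_alt (α := α) (by omega)
  rw [h1, card_bot] at h2
  have := Nat.factorial_le h
  norm_num [Nat.factorial] at this
  omega

end perm

variable {G : Type*} [Group G] [Finite G]

section im
variable {H : Subgroup G} {P : Type*} [Group P] (ψ : H →* P)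

def im (R : Subgroup G) : Subgroup P := (R.subgroupOf H).map ψ

omit [Finite G] in
theorem mem_im {R : Subgroup G} {s : P} : s ∈ im ψ R ↔ ∃ x : H, x.1 ∈ R ∧ ψ x = s := Iff.rfl

omit [Finite G] in
theorem im_eq_bot {R : Subgroup G} : im ψ R = ⊥ ↔ ∀ x : H, x.1 ∈ R → ψ x = 1 := by
  rw [im, Subgroup.map_eq_bot_iff]; rfl

theorem card_im_le (R : Subgroup G) : Nat.card (im ψ R) ≤ Nat.card R := by
  rw [im, ← relIndex_ker]
  refine (Nat.le_of_dvd Nat.card_pos (relIndex_dvd_card _ _)).trans ?_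
  rw [← card_map_of_injective H.subtype_injective, subgroupOf_map_subtype]
  exact card_le_of_le inf_le_left

theorem card_le_im {R : Subgroup G} (hR : R ≤ H) (h : ∀ x : H, x.1 ∈ R → ψ x = 1 → x = 1) :
    Nat.card R ≤ Nat.card (im ψ R) := by
  have : Finite (im ψ R) := Finite.of_surjective _ (ψ.subgroupMap_surjective (R.subgroupOf H))
  refine Nat.card_le_card_of_injective (fun x : R => (⟨ψ ⟨x, hR x.2⟩, _, x.2, rfl⟩ : im ψ R)) fun x y e => ?_
  have := h ((⟨x, hR x.2⟩ : H)⁻¹ * ⟨y, hR y.2⟩) (mul_mem (inv_mem x.2) y.2)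
    (by rw [map_mul, map_inv, show ψ ⟨x, hR x.2⟩ = ψ ⟨y, hR y.2⟩ from congrArg Subtype.val e, inv_mul_cancel])
  exact Subtype.ext (congrArg (fun z : H => z.1) (inv_mul_eq_one.1 this))

end im

omit [Finite G] in
theorem nrm {H : Subgroup G} {α : Type*} [Fintype α] [DecidableEq α] (h : 5 ≤ Fintype.card α) (ψ : H →* Perm α)
    {Y R : Subgroup G} (hY : alternatingGroup α ≤ im ψ Y) (hn : Y ≤ normalizer (R : Set G)) :
    im ψ R = ⊥ ∨ alternatingGroup α ≤ im ψ R := norm_alt h _ fun a ha => by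
  rintro _ ⟨r, hr, rfl⟩
  obtain ⟨y, hy, rfl⟩ := hY ha
  exact ⟨y * r * y⁻¹, (mem_normalizer_iff.1 (hn hy) r).1 hr, by simp⟩

variable {d : ℕ}

structure Loc (H K : Subgroup G) (ψ : H →* Perm (Fin d)) (χ : K →* Perm (Fin (d - 1))) : Prop where
  le : K ≤ H
  alt : alternatingGroup (Fin d) ≤ im ψ H
  alt' : alternatingGroup (Fin (d - 1)) ≤ im χ K
  ker : ∀ x : H, ψ x = 1 ↔ x.1 ∈ cor H K
  ker' : ∀ x : K, χ x = 1 ↔ x.1 ∈ cor H K
  sign : ∀ x : K, Perm.sign (χ x) = Perm.sign (ψ ⟨x, le x.2⟩)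
  fact : ∀ D : Subgroup G, alternatingGroup (Fin d) ≤ im ψ D → ∀ m ∈ H, ∃ x ∈ D, x ∈ H ∧ x⁻¹ * m ∈ K

theorem exists_loc (h3 : 3 ≤ d) {H K : Subgroup G} (hK : K ≤ H) (ψ : H →* Perm (Fin d)) (o : Fin d)
    (ho : ∀ x : H, ψ x o = o ↔ x.1 ∈ K) (ha : alternatingGroup (Fin d) ≤ ψ.range) : ∃ χ, Loc H K ψ χ := by
  have tr := alternatingGroup.isPretransitive_of_three_le_card (α := Fin d) (by simpa using h3)
  have hc : Fintype.card {i // i ≠ o} = d - 1 := by simp
  let e := Fintype.equivFinOfCardEq hc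
  have fix : ∀ x : K, ψ ⟨x, hK x.2⟩ o = o := fun x => (ho _).2 x.2
  let χ0 : K →* Perm {i // i ≠ o} :=
    { toFun := fun x => (ψ ⟨x, hK x.2⟩).subtypePerm fun i => by
        conv_lhs => rw [← fix x]
        exact (ψ _).injective.ne_iff
      map_one' := Equiv.ext fun a => Subtype.ext (by change ψ 1 a = a; simp)
      map_mul' := fun g h => Equiv.ext fun a => Subtype.ext (by
        change ψ (⟨g, hK g.2⟩ * ⟨h, hK h.2⟩) a = ψ _ (ψ _ a); rw [map_mul]; rfl) }
  have ker : ∀ x : H, ψ x = 1 ↔ x.1 ∈ cor H K := fun x => by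
    refine ⟨fun h => mem_cor.2 ⟨x.2, fun m hm => (ho (⟨m, hm⟩ * x * ⟨m, hm⟩⁻¹)).1 (by simp [h])⟩, fun h => ?_⟩
    ext i
    obtain ⟨a, ha'⟩ := tr.exists_smul_eq i o
    obtain ⟨m, hm⟩ := ha a.2
    have := (ho (m * x * m⁻¹)).2 ((mem_cor.1 h).2 m m.2)
    change a.1 i = o at ha'
    rw [← ha', ← hm] at this
    simpa [Fin.val_inj] using this
  refine ⟨e.permCongrHom.toMonoidHom.comp χ0, hK, fun a h => ?_, fun σ hσ => ?_, ker, fun x => ?_, fun x => ?_,
    fun D hD m hm => ?_⟩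
  · obtain ⟨x, rfl⟩ := ha h; exact ⟨x, x.2, rfl⟩
  · obtain ⟨x, hx⟩ := ha (show Perm.ofSubtype (e.symm.permCongr σ) ∈ alternatingGroup (Fin d) by
      rw [Perm.mem_alternatingGroup, Perm.sign_ofSubtype, Perm.sign_permCongr]; exact hσ)
    have hxK : x.1 ∈ K := (ho x).1 (by rw [hx, Perm.ofSubtype_apply_of_not_mem]; simp)
    refine ⟨⟨x, hxK⟩, hxK, ?_⟩
    have : χ0 ⟨x, hxK⟩ = e.symm.permCongr σ := Equiv.ext fun a => Subtype.ext (by
      change ψ x a = _
      rw [hx, Perm.ofSubtype_apply_coe])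
    change e.permCongr (χ0 _) = σ
    rw [this]; ext; simp
  · rw [← ker ⟨x, hK x.2⟩, MonoidHom.comp_apply, MulEquiv.coe_toMonoidHom, EmbeddingLike.map_eq_one_iff]
    refine ⟨fun h => Equiv.ext fun i => ?_, fun h => Equiv.ext fun i => Subtype.ext (by change ψ _ _ = _; rw [h]; rfl)⟩
    by_cases hi : i = o
    · rw [hi, fix]; rfl
    · exact congrArg Subtype.val (DFunLike.congr_fun h ⟨i, hi⟩)
  · change Perm.sign (e.permCongr (χ0 x)) = _
    rw [Perm.sign_permCongr]
    exact Perm.sign_subtypePerm (ψ ⟨x, hK x.2⟩) (p := fun i => i ≠ o) (fun i => by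
      conv_lhs => rw [← fix x]
      exact (ψ _).injective.ne_iff) fun i hi e => hi (by rw [e, fix])
  · obtain ⟨a, ha'⟩ := tr.exists_smul_eq o (ψ ⟨m, hm⟩ o)
    obtain ⟨x, hx, e⟩ := hD a.2
    change a.1 o = _ at ha'
    exact ⟨x, hx, x.2, (ho (x⁻¹ * ⟨m, hm⟩)).1 (by rw [map_mul, map_inv, Perm.mul_apply, ← ha', ← e]; simp)⟩

theorem alt_paired (h5 : 5 ≤ d) {M : Subgroup G} {g : G} (hM : CF M) (hne : M ≠ cj g M) (ψ : M →* Perm (Fin d))
    (ha : alternatingGroup (Fin d) ≤ im ψ M) (ψ' : cj g M →* Perm (Fin d)) (hk : ∀ x, ψ' x = 1 → x.1 ∈ M) :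
    alternatingGroup (Fin d) ≤ ψ'.range := by
  refine Perm.alternatingGroup_le_of_index_le_two (not_lt.1 fun h2 => ?_)
  have cA := card_alt (α := Fin d) (by simp; omega)
  rw [Fintype.card_fin] at cA
  have h3 : 2 * Nat.card ψ'.range < d.factorial := by
    have := ψ'.range.card_mul_index
    rw [Nat.card_perm, Nat.card_eq_fintype_card (α := Fin d), Fintype.card_fin] at this
    have h0 : 0 < Nat.card ψ'.range := Nat.card_pos
    nlinarith
  let good : Subgroup G → Prop := fun Y => ∀ L : Subgroup G, L ≤ Y → Y ≤ normalizer (L : Set G) →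
    2 * L.relIndex Y < d.factorial → Y ≤ L
  have gc : ∀ (x : G) Y, good Y → good (cj x Y) := fun x Y hY L h1 h2 h3 => by
    have := hY (cj x⁻¹ L) (by simpa [cj_inv_cj] using cj_mono x⁻¹ h1)
      (by rw [← cj_normalizer]; simpa [cj_inv_cj] using cj_mono x⁻¹ h2) (by
        rwa [← relIndex_map_map_of_injective (f := (MulAut.conj x).toMonoidHom) _ _ (MulAut.conj x).injective,
          show (cj x⁻¹ L).map _ = L from cj_cj_inv x L])
    simpa [cj_cj_inv] using cj_mono x this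
  have gN : ∀ Y, good Y → Y ≤ cj g M → Y ≤ M := fun Y hY h => by
    refine (hY (Y ⊓ ψ'.ker.map (cj g M).subtype) inf_le_left
      (le_normalizer_inf le_normalizer (h.trans (le_normalizer_map_subtype inferInstance))) ?_).trans ?_
    · refine lt_of_le_of_lt (Nat.mul_le_mul_left 2 ?_) h3
      rw [inf_relIndex_left, ← index_ker, ← relIndex_top_right,
        ← relIndex_map_map_of_injective _ _ (cj g M).subtype_injective, ← MonoidHom.range_eq_map, range_subtype]
      exact relIndex_le_of_le_right h (H1.relIndex_ne_zero _ _)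
    · rintro _ ⟨-, x, hx, rfl⟩; exact hk x hx
  obtain ⟨Y, ⟨hYM, hYa⟩, hmin⟩ := (wellFounded_lt (α := Subgroup G)).has_min
    {Y | Y ≤ M ∧ alternatingGroup (Fin d) ≤ im ψ Y} ⟨M, le_rfl, ha⟩
  have gY : good Y := fun L h1 h2 h4 => by
    rcases nrm (by simpa using h5) ψ hYa h2 with h | h
    · have h6 := card_le_of_le hYa
      rw [im, ← relIndex_ker] at h6
      have h7 := relIndex_le_of_le_left (H := L.subgroupOf M) (K := ψ.ker) (L := Y.subgroupOf M)
        (fun x hx => (im_eq_bot ψ).1 h x hx) (H1.relIndex_ne_zero _ _)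
      rw [relIndex_subgroupOf hYM] at h7
      omega
    · exact (h1.eq_or_lt.resolve_right (hmin L ⟨h1.trans hYM, h⟩)).ge
  let R := sSup {Y | Y ≤ M ∧ good Y}
  have key : ∀ x : G, (∀ Y, good Y → Y ≤ M → cj x Y ≤ M) → x ∈ normalizer (R : Set G) := fun x hx =>
    mem_normalizer_iff_cj.2 (eq_of_le_of_card_ge (by
      rw [map_le_iff_le_comap]
      exact sSup_le fun Y hY => map_le_iff_le_comap.1 (le_sSup ⟨hx Y hY.2 hY.1, gc x Y hY.2⟩ : cj x Y ≤ R))
      (card_cj _ _).ge)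
  have R0 : R ≠ ⊥ := fun h => by
    have : Y = ⊥ := eq_bot_iff.2 (h ▸ le_sSup ⟨hYM, gY⟩)
    have h6 := (card_le_of_le hYa).trans (card_im_le ψ Y)
    rw [this, card_bot] at h6
    have := Nat.factorial_le h5
    norm_num [Nat.factorial] at this
    omega
  exact hne (cj_eq_of_mem (hM R R0 (sSup_le fun _ h => h.1)
    (fun m hm => key m fun Y _ h => (cj_mono m h).trans (cj_eq_of_mem hm).le)
    (key g fun Y hY h => gN _ (gc g Y hY) (cj_mono g h)))).symm

omit [Finite G] in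
theorem Loc.nrm {H K : Subgroup G} {ψ : H →* Perm (Fin d)} {χ} (l : Loc H K ψ χ) (h6 : 6 ≤ d) {R : Subgroup G}
    (h1 : R ≤ H) (hn : H ≤ normalizer (R : Set G)) : R ≤ cor H K ∨ alternatingGroup (Fin d) ≤ im ψ R :=
  (Kn.nrm (by simp; omega) ψ l.alt hn).imp_left fun h x hx => (l.ker ⟨x, h1 hx⟩).1 ((im_eq_bot ψ).1 h _ hx)

omit [Finite G] in
theorem Loc.nrm' {H K : Subgroup G} {ψ : H →* Perm (Fin d)} {χ} (l : Loc H K ψ χ) (h6 : 6 ≤ d) {R : Subgroup G}
    (h1 : R ≤ K) (hn : K ≤ normalizer (R : Set G)) : R ≤ cor H K ∨ alternatingGroup (Fin (d - 1)) ≤ im χ R :=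
  (Kn.nrm (by simp; omega) χ l.alt' hn).imp_left fun h x hx => (l.ker' ⟨x, h1 hx⟩).1 ((im_eq_bot χ).1 h _ hx)

theorem Loc.oP_le {H K : Subgroup G} {ψ : H →* Perm (Fin d)} {χ} (l : Loc H K ψ χ) (h6 : 6 ≤ d) (q : ℕ) [Fact q.Prime] :
    oP q K ≤ cor H K := (l.nrm' h6 (H17.oP_le q K) (le_normalizer.trans (normalizer_le_oP q K))).resolve_right fun h => by
  have h1 : IsPGroup q (alternatingGroup (Fin (d - 1))) := (((oP_pgroup q K).comap_subtype (K := K)).map χ).to_le h
  have := h1.isNilpotent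
  have : IsSimpleGroup (alternatingGroup (Fin (d - 1))) := alternatingGroup.isSimpleGroup (by simp; omega)
  exact alt_not_comm (α := Fin (d - 1)) (by simp; omega) fun a ha b hb => congrArg Subtype.val
    (IsSimpleGroup.comm_iff_isSolvable.2 inferInstance (⟨a, ha⟩ : alternatingGroup _) ⟨b, hb⟩)

theorem cent_inf_bot {K A : Subgroup G} (hF : fit K = ⊥) (hA : Subn K A) : centralizer (A : Set G) ⊓ A = ⊥ := by
  rw [eq_bot_iff, ← hF, inf_comm]; exact hA.inf_centralizer_le_fit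

theorem main (h6 : 6 ≤ d) {M N K : Subgroup G} {g : G} (hg : N = cj g M) {ψ : M →* Perm (Fin d)} {χ}
    {ψ' : N →* Perm (Fin d)} {χ'} (l : Loc M K ψ χ) (l' : Loc N K ψ' χ') (hF : fit K = ⊥) (a0 : cor M K ≠ ⊥)
    (b0 : cor N K ≠ ⊥) (a2 : cor M (cor M K ⊓ cor N K) = ⊥) :
    alternatingGroup (Fin d) ≤ im ψ (M ⊓ centralizer (cor M K : Set G)) ∧ cor M K ⊓ cor N K = ⊥ := by
  set A := cor M K with hA
  set B := cor N K with hB
  have nA : M ≤ normalizer (A : Set G) := le_normalizer_cor _ _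
  have nB : N ≤ normalizer (B : Set G) := le_normalizer_cor _ _
  have sA : Subn K A := .of_normal (cor_le' _ _) (l.le.trans nA)
  have sB : Subn K B := .of_normal (cor_le' _ _) (l'.le.trans nB)
  have k1 : ∀ R : Subgroup G, R ≤ A → M ≤ normalizer (R : Set G) → R ≠ ⊥ → alternatingGroup (Fin (d - 1)) ≤ im χ' R :=
    fun R h1 h2 h0 => (l'.nrm' h6 (h1.trans sA.le) (l.le.trans h2)).resolve_left fun h =>
      h0 (eq_bot_iff.2 (a2 ▸ le_cor (h1.trans (cor_le _ _)) (le_inf h1 h) h2))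
  have D' : N ⊓ centralizer (B : Set G) ≠ ⊥ := fun h => by
    have h1 : lay A ≤ B := sA.lay_le_lay.trans (lay_le_iff.2 fun L hL => (hL.le_or_commutator_subn sB).resolve_right
      fun e => hL.ne_bot (eq_bot_iff.2 (h ▸ le_inf (hL.le.trans l'.le)
        (commutator_eq_bot_iff_le_centralizer.1 (by rw [commutator_comm, e])))))
    have h2 : lay A = ⊥ := eq_bot_iff.2 (a2 ▸ le_cor ((lay_le A).trans (cor_le _ _)) (le_inf (lay_le A) h1)
      (nA.trans (normalizer_le_lay A)))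
    exact a0 (gfit_eq_bot_iff.1 (by rw [gfit_eq, h2, bot_sup_eq, eq_bot_iff, ← hF]; exact sA.fit_le_fit))
  have D : M ⊓ centralizer (A : Set G) ≠ ⊥ := fun h => by
    have k2 : ∀ R : Subgroup G, R ≤ N → N ≤ normalizer (R : Set G) → R ≠ ⊥ →
        alternatingGroup (Fin (d - 1)) ≤ im χ' (cj g⁻¹ R ⊓ A) := fun R h1 h2 h0 => by
      have h3 : cj g⁻¹ R ≤ M := by simpa [hg, cj_inv_cj] using cj_mono g⁻¹ h1
      have h4 : M ≤ normalizer (cj g⁻¹ R : Set G) := by
        rw [← cj_normalizer]; simpa [hg, cj_inv_cj] using cj_mono g⁻¹ h2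
      refine k1 _ inf_le_right (le_normalizer_inf h4 nA) fun e => h0 ?_
      rw [← cj_eq_bot_iff (g := g⁻¹), eq_bot_iff, ← h]
      refine le_inf h3 (commutator_eq_bot_iff_le_centralizer.1 (eq_bot_iff.2 (e ▸ le_inf ?_ ?_)))
      · exact (le_normalizer_iff_commutator_le_left).1 ((cor_le _ _).trans h4)
      · exact (le_normalizer_iff_commutator_le_right).1 (h3.trans nA)
    refine alt_not_comm (α := Fin (d - 1)) (by simp; omega) fun a ha b hb => ?_
    obtain ⟨x, hx, rfl⟩ := k2 _ inf_le_left (le_normalizer_inf le_normalizer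
      (le_normalizer_centralizer nB)) D' ha
    obtain ⟨y, hy, rfl⟩ := k2 B (cor_le _ _) nB b0 hb
    rw [← map_mul, ← map_mul]
    congr 1
    have := (mem_cj.1 hx.1).2 _ (mem_cj.1 hy.1)
    apply Subtype.ext
    exact mul_left_cancel (a := g) (by simpa [← mul_assoc] using this.symm)
  have nD : M ≤ normalizer ((M ⊓ centralizer (A : Set G) : Subgroup G) : Set G) :=
    le_normalizer_inf le_normalizer (le_normalizer_centralizer nA)
  have hD := (l.nrm h6 inf_le_left nD).resolve_left fun h => D (eq_bot_iff.2 (cent_inf_bot hF sA ▸ le_inf inf_le_right h))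
  refine ⟨hD, eq_bot_iff.2 (a2 ▸ le_cor (inf_le_left.trans (cor_le _ _)) le_rfl fun m hm => ?_)⟩
  obtain ⟨x, hx, -, hk⟩ := l.fact _ hD m hm
  rw [← mul_inv_cancel_left x m]
  exact mul_mem (centralizer_le_normalizer _ (centralizer_le inf_le_left hx.2))
    (le_normalizer_inf (l.le.trans nA) (l'.le.trans nB) hk)

theorem classify {α β : Type*} [Fintype α] [DecidableEq α] [Fintype β] [DecidableEq β] (R : Subgroup (Perm α × Perm β))
    (h : (alternatingGroup α).prod (alternatingGroup β) ≤ R) :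
    R = (alternatingGroup α).prod (alternatingGroup β) ∨
    (R = (alternatingGroup α).prod ⊤ ∧ ∃ r ∈ R, Perm.sign r.2 = -1) ∨
    ((∃ r ∈ R, Perm.sign r.1 = -1) ∧ (R = ⊤ ∨ R = (⊤ : Subgroup (Perm α)).prod (alternatingGroup β) ∨
      R = ((Perm.sign.comp (MonoidHom.fst (Perm α) (Perm β))) * (Perm.sign.comp (MonoidHom.snd (Perm α) (Perm β)))).ker)) := by
  let S : ℤˣ → ℤˣ → Prop := fun a b => ∃ r ∈ R, Perm.sign r.1 = a ∧ Perm.sign r.2 = b
  have hm : ∀ x, x ∈ R ↔ S (Perm.sign x.1) (Perm.sign x.2) := fun x => ⟨fun h => ⟨x, h, rfl, rfl⟩, fun ⟨r, hr, e1, e2⟩ => by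
    have : x * r⁻¹ ∈ R := h ⟨by simp [Perm.mem_alternatingGroup, e1], by simp [Perm.mem_alternatingGroup, e2]⟩
    simpa using mul_mem this hr⟩
  have s1 : S 1 1 := ⟨1, one_mem _, by simp, by simp⟩
  have sm : ∀ {a b c d}, S a b → S c d → S (a * c) (b * d) := fun ⟨r, hr, e1, e2⟩ ⟨t, ht, e3, e4⟩ =>
    ⟨r * t, mul_mem hr ht, by simp [e1, e3], by simp [e2, e4]⟩
  have n1 : (-1 : ℤˣ) ≠ 1 := by decide
  by_cases p1 : S (-1) 1 <;> by_cases p2 : S 1 (-1) <;> by_cases p3 : S (-1) (-1)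
  all_goals first
    | exact (p3 (by simpa using sm p1 p2)).elim
    | exact (p2 (by simpa using sm p1 p3)).elim
    | exact (p1 (by simpa using sm p2 p3)).elim
    | skip
  · refine Or.inr (Or.inr ⟨p1.imp fun r h => ⟨h.1, h.2.1⟩, Or.inl (eq_top_iff.2 fun x _ => (hm x).2 ?_)⟩)
    rcases Int.units_eq_one_or (Perm.sign x.1) with h | h <;> rcases Int.units_eq_one_or (Perm.sign x.2) with h' | h' <;>
      rwa [h, h']
  · refine Or.inr (Or.inr ⟨p1.imp fun r h => ⟨h.1, h.2.1⟩, Or.inr (Or.inl (Subgroup.ext fun x => ?_))⟩)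
    rw [hm, mem_prod, Perm.mem_alternatingGroup]
    rcases Int.units_eq_one_or (Perm.sign x.1) with h | h <;> rcases Int.units_eq_one_or (Perm.sign x.2) with h' | h' <;>
      simp [h, h', s1, p1, p2, p3, n1]
  · refine Or.inr (Or.inl ⟨Subgroup.ext fun x => ?_, p2.imp fun r h => ⟨h.1, h.2.2⟩⟩)
    rw [hm, mem_prod, Perm.mem_alternatingGroup]
    rcases Int.units_eq_one_or (Perm.sign x.1) with h | h <;> rcases Int.units_eq_one_or (Perm.sign x.2) with h' | h' <;>
      simp [h, h', s1, p1, p2, p3, n1]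
  · refine Or.inr (Or.inr ⟨p3.imp fun r h => ⟨h.1, h.2.1⟩, Or.inr (Or.inr (Subgroup.ext fun x => ?_))⟩)
    rw [hm, MonoidHom.mem_ker]
    rcases Int.units_eq_one_or (Perm.sign x.1) with h | h <;> rcases Int.units_eq_one_or (Perm.sign x.2) with h' | h' <;>
      simp [h, h', s1, p1, p2, p3, n1]
  · refine Or.inl (Subgroup.ext fun x => ?_)
    rw [hm, mem_prod, Perm.mem_alternatingGroup, Perm.mem_alternatingGroup]
    rcases Int.units_eq_one_or (Perm.sign x.1) with h | h <;> rcases Int.units_eq_one_or (Perm.sign x.2) with h' | h' <;>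
      simp [h, h', s1, p1, p2, p3, n1]

theorem final (h6 : 6 ≤ d) {M N K : Subgroup G} {g : G} (hg : N = cj g M) {ψ : M →* Perm (Fin d)} {χ}
    {ψ' : N →* Perm (Fin d)} {χ'} (l : Loc M K ψ χ) (l' : Loc N K ψ' χ') (hF : fit K = ⊥) (a0 : cor M K ≠ ⊥)
    (hD : alternatingGroup (Fin d) ≤ im ψ (M ⊓ centralizer (cor M K : Set G))) (hC : cor M K ⊓ cor N K = ⊥) :
    (ψ.range = alternatingGroup (Fin d) ∧ Nonempty (M ≃* alternatingGroup (Fin d) × alternatingGroup (Fin (d - 1)))) ∨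
    (ψ.range = ⊤ ∧ (Nonempty (M ≃* Perm (Fin d) × Perm (Fin (d - 1))) ∨
      Nonempty (M ≃* Perm (Fin d) × alternatingGroup (Fin (d - 1))) ∨
      Nonempty (M ≃* ((Perm.sign.comp (MonoidHom.fst (Perm (Fin d)) (Perm (Fin (d - 1))))) *
        (Perm.sign.comp (MonoidHom.snd (Perm (Fin d)) (Perm (Fin (d - 1)))))).ker))) := by
  set A := cor M K with hA
  set D := M ⊓ centralizer (A : Set G) with hDd
  have nA : M ≤ normalizer (A : Set G) := le_normalizer_cor _ _
  have AK : A ≤ K := cor_le' _ _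
  have sA : Subn K A := .of_normal AK (l.le.trans nA)
  have nD : M ≤ normalizer (D : Set G) := le_normalizer_inf le_normalizer (le_normalizer_centralizer nA)
  have k1 : alternatingGroup (Fin (d - 1)) ≤ im χ' A := (l'.nrm' h6 AK (l.le.trans nA)).resolve_left fun h =>
    a0 (eq_bot_iff.2 (hC ▸ le_inf le_rfl h))
  have : (D.subgroupOf M).Normal := (normal_subgroupOf_iff_le_normalizer inf_le_left).2 nD
  let π : K →* M ⧸ D.subgroupOf M := (QuotientGroup.mk' _).comp (inclusion l.le)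
  have dec : ∀ m : M, ∃ (x : M) (k : K), x.1 ∈ D ∧ m = x * inclusion l.le k := fun m => by
    obtain ⟨x, hx, hxM, hk⟩ := l.fact _ hD m m.2
    exact ⟨⟨x, hxM⟩, ⟨_, hk⟩, hx, Subtype.ext (by simp)⟩
  have q1 : ∀ x : M, x.1 ∈ D → QuotientGroup.mk' (D.subgroupOf M) x = 1 := fun x hx => (QuotientGroup.eq_one_iff x).2 hx
  have hπ : Function.Surjective π := fun q => by
    obtain ⟨m, rfl⟩ := QuotientGroup.mk'_surjective _ q
    obtain ⟨x, k, hx, rfl⟩ := dec m
    exact ⟨k, by rw [map_mul, q1 x hx, one_mul]; rfl⟩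
  let lam := π.liftOfSurjective hπ ⟨χ', fun k hk => cent_alt (by simp; omega) fun a ha => by
    obtain ⟨y, hy, rfl⟩ := k1 ha
    have : k.1 ∈ D := (QuotientGroup.eq_one_iff (inclusion l.le k)).1 hk
    rw [← map_mul, ← map_mul, show y * k = k * y from Subtype.ext (this.2 y hy)]⟩
  let ψ2 := lam.comp (QuotientGroup.mk' (D.subgroupOf M))
  have e1 : ∀ k : K, ψ2 (inclusion l.le k) = χ' k := fun k =>
    π.liftOfRightInverse_comp_apply _ (Function.rightInverse_surjInv hπ) _ k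
  have e2 : ∀ x : M, x.1 ∈ D → ψ2 x = 1 := fun x hx => by rw [MonoidHom.comp_apply, q1 x hx, map_one]
  have inj : Function.Injective (ψ.prod ψ2) := (injective_iff_map_eq_one _).2 fun x hx => by
    have h1 := (l.ker x).1 (congrArg Prod.fst hx)
    have h2 := (l'.ker' ⟨x, AK h1⟩).1 ((e1 _).symm.trans (congrArg Prod.snd hx))
    exact Subtype.ext (mem_bot.1 (hC.le ⟨h1, h2⟩))
  have sub : (alternatingGroup (Fin d)).prod (alternatingGroup (Fin (d - 1))) ≤ (ψ.prod ψ2).range := by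
    rintro ⟨s, t⟩ ⟨hs, ht⟩
    obtain ⟨x, hx, rfl⟩ := hD hs
    obtain ⟨y, hy, rfl⟩ := k1 ht
    refine ⟨x * inclusion l.le y, ?_⟩
    rw [MonoidHom.prod_apply, map_mul, map_mul, e1, e2 x hx, (l.ker (inclusion l.le y)).2 hy, mul_one, one_mul]
  have e := MonoidHom.ofInjective inj
  have alt : alternatingGroup (Fin d) ≤ ψ.range := fun a ha => by obtain ⟨x, -, rfl⟩ := l.alt ha; exact ⟨x, rfl⟩
  have top : ∀ {H : Subgroup G} (φ : H →* Perm (Fin d)), alternatingGroup (Fin d) ≤ im φ H → ∀ x, Perm.sign (φ x) = -1 →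
      φ.range = ⊤ := fun φ h x hx => eq_top_iff.2 fun s _ => by
    rcases Int.units_eq_one_or (Perm.sign s) with h1 | h1
    · obtain ⟨y, -, rfl⟩ := h h1; exact ⟨y, rfl⟩
    · obtain ⟨y, -, e⟩ := h (show s * (φ x)⁻¹ ∈ alternatingGroup _ by simp [Perm.mem_alternatingGroup, h1, hx])
      exact ⟨y * x, by simp [e]⟩
  rcases classify _ sub with h | ⟨h, ⟨_, ⟨x, rfl⟩, hx⟩⟩ | ⟨⟨_, ⟨x, rfl⟩, hx⟩, h⟩
  · refine Or.inl ⟨le_antisymm ?_ alt, ⟨e.trans ((MulEquiv.subgroupCongr h).trans (prodEquiv _ _))⟩⟩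
    rintro _ ⟨x, rfl⟩
    exact (h.le ⟨x, rfl⟩).1
  · exfalso
    obtain ⟨y, k, hy, rfl⟩ := dec x
    change Perm.sign (ψ2 _) = -1 at hx
    rw [map_mul, e1, e2 y hy, one_mul, l'.sign] at hx
    have t := top ψ' l'.alt _ hx
    subst hg
    let f : M →* Perm (Fin d) := ψ'.comp ((MulAut.conj g).toMonoidHom.subgroupMap M)
    have hf : Function.Surjective f := (MonoidHom.range_eq_top.1 t).comp (MonoidHom.subgroupMap_surjective _ _)
    have cA := card_alt (α := Fin d) (by simp; omega)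
    rw [Fintype.card_fin] at cA
    rcases nrm (Y := M) (by simp; omega) f (fun a _ => by obtain ⟨x, rfl⟩ := hf a; exact ⟨x, x.2, rfl⟩) nA with h1 | h1
    · have h2 : im f D = ⊤ := eq_top_iff.2 fun s _ => by
        obtain ⟨m, rfl⟩ := hf s
        obtain ⟨z, hz, ez⟩ := hD (h.le ⟨m, rfl⟩).1
        have : (z⁻¹ * m).1 ∈ A := (l.ker _).1 (by rw [map_mul, map_inv, ez]; exact inv_mul_cancel _)
        have := (im_eq_bot f).1 h1 _ this
        rw [map_mul, map_inv, inv_mul_eq_one] at this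
        exact ⟨z, hz, this⟩
      have h3 := card_im_le f D
      have h4 := card_le_im ψ (R := D) inf_le_left fun x hx h => Subtype.ext
        (mem_bot.1 ((cent_inf_bot hF sA).le ⟨hx.2, (l.ker x).1 h⟩))
      have h5 : Nat.card (im ψ D) ≤ Nat.card (alternatingGroup (Fin d)) := card_le_of_le (by
        rintro _ ⟨x, -, rfl⟩; exact (h.le ⟨x, rfl⟩).1)
      rw [h2, card_top, Nat.card_perm, Nat.card_eq_fintype_card (α := Fin d), Fintype.card_fin] at h3
      have := d.factorial_pos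
      omega
    · have h2 := (card_le_of_le h1).trans (card_im_le f A)
      have h4 := (card_le_im χ' AK fun x hx h => Subtype.ext (mem_bot.1 (hC.le ⟨hx, (l'.ker' x).1 h⟩))).trans
        (im χ' A).card_le_card_group
      rw [Nat.card_perm, Nat.card_eq_fintype_card (α := Fin (d - 1)), Fintype.card_fin] at h4
      obtain ⟨n, rfl⟩ : ∃ n, d = n + 1 := ⟨d - 1, by omega⟩
      rw [Nat.factorial_succ] at cA
      rw [Nat.add_sub_cancel] at h4
      have := n.factorial_pos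
      nlinarith
  · refine Or.inr ⟨top ψ l.alt x hx, h.imp (fun h => ⟨e.trans ((MulEquiv.subgroupCongr h).trans topEquiv)⟩)
      (Or.imp (fun h => ⟨e.trans ((MulEquiv.subgroupCongr h).trans ((prodEquiv _ _).trans
        (topEquiv.prodCongr (MulEquiv.refl _))))⟩) fun h => ⟨e.trans (MulEquiv.subgroupCongr h)⟩)⟩

theorem knapp (h6 : 6 ≤ d) {M : Subgroup G} {g : G} (hM : CF M) (hne : M ≠ cj g M) (hd : (cj g M).relIndex M = d)
    (ψ : M →* Perm (Fin d)) (o : Fin d) (ho : ∀ x : M, ψ x o = o ↔ x.1 ∈ cj g M)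
    (ha : alternatingGroup (Fin d) ≤ ψ.range) (hi : ¬ Function.Injective ψ) :
    (ψ.range = alternatingGroup (Fin d) ∧ Nonempty (M ≃* alternatingGroup (Fin d) × alternatingGroup (Fin (d - 1)))) ∨
    (ψ.range = ⊤ ∧ (Nonempty (M ≃* Perm (Fin d) × Perm (Fin (d - 1))) ∨
      Nonempty (M ≃* Perm (Fin d) × alternatingGroup (Fin (d - 1))) ∨
      Nonempty (M ≃* ((Perm.sign.comp (MonoidHom.fst (Perm (Fin d)) (Perm (Fin (d - 1))))) *
        (Perm.sign.comp (MonoidHom.snd (Perm (Fin d)) (Perm (Fin (d - 1)))))).ker))) := by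
  set N := cj g M with hN
  obtain ⟨χ, l⟩ := exists_loc (K := M ⊓ N) (by omega) inf_le_left ψ o (fun x => (ho x).trans (by simp)) ha
  have hd' : Nat.card (N ⧸ (M ⊓ N).subgroupOf N) = d := by
    have h1 := H1.card_inf_mul_relIndex N M
    have h2 := H1.card_inf_mul_relIndex M N
    rw [← index_eq_card, ← relIndex, inf_relIndex_right]
    rw [hd, inf_comm, ← card_cj g M, ← hN, ← h2] at h1
    exact (Nat.eq_of_mul_eq_mul_left Nat.card_pos h1).symm
  let e := Finite.equivFinOfCardEq hd'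
  let ψ' := e.permCongrHom.toMonoidHom.comp (MulAction.toPermHom N (N ⧸ (M ⊓ N).subgroupOf N))
  have ho' : ∀ x : N, ψ' x (e ((1 : N) : N ⧸ (M ⊓ N).subgroupOf N)) = e ((1 : N) : N ⧸ (M ⊓ N).subgroupOf N) ↔
      x.1 ∈ M ⊓ N := fun x => by
    rw [← mem_subgroupOf, ← SetLike.ext_iff.1 (MulAction.stabilizer_quotient ((M ⊓ N).subgroupOf N)) x,
      MulAction.mem_stabilizer_iff]
    simp [ψ']
  obtain ⟨χ', l'⟩ := exists_loc (by omega) inf_le_right ψ' _ ho'
    (alt_paired (by omega) hM hne ψ l.alt ψ' fun x hx => ((ho' x).1 (by rw [hx]; rfl)).1)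
  have h3 : ∀ (q : ℕ) [Fact q.Prime], oP q (M ⊓ N) = ⊥ := fun q _ => oP_eq_bot_of_conj hM hne (l.oP_le h6 q)
  have hF : fit (M ⊓ N) = ⊥ := le_bot_iff.1 (fit_le_of_forall_oP_le fun q _ => (h3 q).le)
  have a0 : cor M (M ⊓ N) ≠ ⊥ := fun h => hi ((injective_iff_map_eq_one _).2 fun x hx =>
    Subtype.ext (mem_bot.1 (h.le ((l.ker x).1 hx))))
  have b0 : cor N (M ⊓ N) ≠ ⊥ := fun h => by
    have h1 := (l'.nrm' h6 (cor_le' _ _) (inf_le_left.trans (le_normalizer_cor M (M ⊓ N)))).resolve_left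
      fun e => a0 (eq_bot_iff.2 (h ▸ e))
    have h2 := (card_le_of_le h1).trans (card_im_le χ' _)
    have h4 := (card_le_im ψ' le_rfl fun x _ hx => Subtype.ext (mem_bot.1 (h.le ((l'.ker x).1 hx)))).trans
      (im ψ' N).card_le_card_group
    have h5 : Nat.card (cor M (M ⊓ N)) ≤ Nat.card ψ.ker := by
      rw [← card_map_of_injective M.subtype_injective]
      exact card_le_of_le fun x hx => ⟨⟨x, cor_le _ _ hx⟩, (l.ker _).2 hx, rfl⟩
    have h7 := ψ.ker.card_mul_index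
    have h8 := card_le_of_le ha
    have c1 := card_alt (α := Fin d) (by simp; omega)
    have c2 := card_alt (α := Fin (d - 1)) (by simp; omega)
    have c3 := Nat.factorial_le (show 5 ≤ d - 1 by omega)
    rw [index_ker] at h7
    rw [Nat.card_perm, Nat.card_eq_fintype_card (α := Fin d), hN, card_cj, ← c1, ← h7] at h4
    rw [Fintype.card_fin] at c2
    have c4 : 0 < Nat.card (alternatingGroup (Fin d)) := Nat.card_pos
    have c5 := Nat.mul_le_mul (show 3 ≤ Nat.card ψ.ker by norm_num [Nat.factorial] at c3; omega) h8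
    omega
  have a2 : cor M (cor M (M ⊓ N) ⊓ cor N (M ⊓ N)) = ⊥ := by
    by_contra h4
    by_cases h5 : cor N (cor M (M ⊓ N) ⊓ cor N (M ⊓ N)) = ⊥
    · have := (main h6 (g := g⁻¹) (by rw [hN, cj_inv_cj]) l' l hF b0 a0 (by rwa [inf_comm (cor N _)])).2
      exact h4 (eq_bot_iff.2 ((cor_le' _ _).trans (by rw [inf_comm, this])))
    obtain ⟨p, hp, -, -, c1, -⟩ := tw_main hM hne h4 h5
    have := Fact.mk hp
    exact h4 (le_bot_iff.1 (h3 p ▸ le_oP ((cor_le' _ _).trans (inf_le_left.trans (cor_le' _ _)))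
      (inf_le_left.trans (le_normalizer_cor _ _)) c1))
  obtain ⟨hD, hC⟩ := main h6 hN l l' hF a0 b0 a2
  exact final h6 hN l l' hF a0 hD hC

end H19.Kn
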