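import Cfsg.Agent.H19.Iso
import Cfsg.Agent.H11.Levi
import Cfsg.Agent.H11.TSub
import Cfsg.Agent.H27.Sections

/-! Laws in classical groups (Jones): `LC w Y` (`w` is a law of `Y'` modulo its centre) passes to sections; a non-trivial word is not a law of
`PSL₂(q)` for large `q` (`not_law`); `GL(U)` is a section of the isometry group for totally singular `U` (`involves_GL`); `bound`. -/

set_option autoImplicit false

namespace H19.Law
open Module Matrix Subgroup Cfsg H11 H11.PForm Polynomial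
open scoped MatrixGroups

/-- `w` is a law in the commutator subgroup modulo its centre -/
def LC (w : FreeGroup ℕ) (Y : Type*) [Group Y] : Prop :=
  ∀ f : ℕ → Y, (∀ i, f i ∈ commutator Y) → ∀ g ∈ commutator Y, Commute (FreeGroup.lift f w) g

variable {w : FreeGroup ℕ} {X Y G : Type*} [Group X] [Group Y] [Group G]

theorem map_lift (φ : X →* Y) (f : ℕ → X) : φ (FreeGroup.lift f w) = FreeGroup.lift (φ ∘ f) w :=
  congr($(FreeGroup.ext_hom (φ.comp (FreeGroup.lift f)) (FreeGroup.lift (φ ∘ f)) fun a => by simp) w)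

theorem LC.of_involves (h : LC w Y) (k : Involves X Y) : LC w X := fun f hf g hg => by
  obtain ⟨K, φ, hφ⟩ := H27.involves_iff.1 k
  have e : ∀ x ∈ commutator X, ∃ y ∈ commutator K, φ y = x := fun x hx => by
    rwa [commutator_def, ← MonoidHom.range_eq_top.2 hφ, MonoidHom.range_eq_map, ← map_commutator] at hx
  have e' : ∀ y ∈ commutator K, y.1 ∈ commutator Y := fun y hy =>
    commutator_mono le_top le_top (map_subtype_commutator K ▸ mem_map_of_mem K.subtype hy)
  choose f' a b using fun i => e _ (hf i)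
  obtain ⟨g, c, rfl⟩ := e g hg
  rw [show f = φ ∘ f' from funext fun i => (b i).symm, ← map_lift]
  refine Commute.map (Subtype.ext ?_) φ
  exact (congrArg (· * g.1) (map_lift K.subtype f')).trans ((h _ (fun i => e' _ (a i)) _ (e' g c)).eq.trans
    (congrArg (g.1 * ·) (map_lift K.subtype f').symm))

theorem lc_of (e : G ≃* X ⧸ center X) (h : ∀ f : ℕ → G, FreeGroup.lift f w = 1) (j : X →* Y) (hj : commutator Y ≤ j.range) : LC w Y :=
  fun f hf g hg => by
  choose f' a using fun i => hj (hf i)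
  obtain ⟨g, rfl⟩ := hj hg
  rw [show f = j ∘ f' from funext fun i => (a i).symm, ← map_lift]
  refine Commute.map (mem_center_iff.1 ((QuotientGroup.eq_one_iff _).1 (e.symm.injective ?_)) g).symm j
  exact (map_lift (e.symm.toMonoidHom.comp (QuotientGroup.mk' _)) f').trans ((h _).trans (map_one _).symm)

variable {F : Type*} [Field F]

/-- a hyperbolic element with attracting point `a` and repelling point `b` -/
def hyp {a b : F} (h : a ≠ b) (t : F) : SL(2, F) :=
  ⟨(b - a)⁻¹ • !![t * b + a + b, -t - 2; a * b * t + a ^ 2 + b ^ 2, -a * t - a - b], by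
    have := sub_ne_zero.2 h.symm
    simp [det_fin_two]; field_simp; ring⟩

theorem hyp_inv {a b : F} (h : a ≠ b) (t : F) : (hyp h t)⁻¹ = hyp h.symm t := inv_eq_of_mul_eq_one_right (Subtype.ext (by
  have := sub_ne_zero.2 h.symm
  have := sub_ne_zero.2 h
  change (_ • _) * (_ • _) = (1 : Matrix _ _ F)
  ext i j
  fin_cases i <;> fin_cases j <;> simp [mul_apply, Fin.sum_univ_two] <;> field_simp <;> ring))

theorem ping (s : ℕ × Bool → F) (hs : ∀ i b, s (i, b) ≠ s (i, !b)) (z : F) (L : List (ℕ × Bool)) (hL : FreeGroup.IsReduced L)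
    (h1 : ∀ x ∈ L, ∀ y ∈ L, s y = s (x.1, !x.2) → y = (x.1, !x.2)) (h2 : ∀ x ∈ L, z ≠ s (x.1, !x.2)) :
    ∃ (p q : F[X]) (c : F), c ≠ 0 ∧ p.natDegree ≤ L.length ∧ q.natDegree ≤ L.length ∧ p.coeff L.length = c ∧
      q.coeff L.length = c * (L.head?.elim z s) ∧
        ∀ t, (FreeGroup.lift (fun i => hyp (hs i true) t) (.mk L)).1 *ᵥ ![1, z] = ![p.eval t, q.eval t] := by
  induction L with
  | nil => exact ⟨1, C z, 1, by simp, by simp, by simp, by simp, by simp, fun t => by simp [← FreeGroup.one_eq_mk]⟩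
  | cons x L ih =>
    obtain ⟨p, q, c, c0, d1, d2, e1, e2, ev⟩ := ih (hL.infix ⟨[x], [], by simp⟩) (fun a ha b hb => h1 a (by simp [ha]) b (by simp [hb]))
      fun a ha => h2 a (by simp [ha])
    obtain ⟨i, b⟩ := x
    have k : L.head?.elim z s ≠ s (i, !b) := by
      rcases L with _ | ⟨y, L⟩
      · exact h2 (i, b) (by simp)
      · intro e
        have := h1 (i, b) (by simp) y (by simp) e
        simpa [this] using (FreeGroup.isReduced_cons_cons.1 hL).1
    set a := s (i, b)
    set a' := s (i, !b)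
    have d0 : a' - a ≠ 0 := sub_ne_zero.2 (hs i b).symm
    refine ⟨C (a' - a)⁻¹ * (.X * (C a' * p - q) + (C (a + a') * p - C 2 * q)),
      C (a' - a)⁻¹ * (.X * (C (a * a') * p - C a * q) + (C (a ^ 2 + a' ^ 2) * p - C (a + a') * q)),
      (a' - a)⁻¹ * (c * (a' - L.head?.elim z s)), by simp [d0, c0, sub_ne_zero.2 k.symm], ?_, ?_, ?_, ?_, fun t => ?_⟩
    · rw [List.length_cons]; compute_degree; omega
    · rw [List.length_cons]; compute_degree; omega
    · simp only [List.length_cons, coeff_C_mul, coeff_add, coeff_X_mul, coeff_sub, e1, e2, coeff_eq_zero_of_natDegree_lt (Nat.lt_succ_of_le d1),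
        coeff_eq_zero_of_natDegree_lt (Nat.lt_succ_of_le d2)]
      ring
    · simp only [List.length_cons, coeff_C_mul, coeff_add, coeff_X_mul, coeff_sub, e1, e2, coeff_eq_zero_of_natDegree_lt (Nat.lt_succ_of_le d1),
        coeff_eq_zero_of_natDegree_lt (Nat.lt_succ_of_le d2), List.head?_cons, Option.elim_some]
      ring
    · have : FreeGroup.lift (fun i => hyp (hs i true) t) (.mk [(i, b)]) = hyp (hs i b) t := by cases b <;> simp [hyp_inv]
      rw [← List.singleton_append, ← FreeGroup.mul_mk, map_mul, this]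
      refine (mulVec_mulVec _ _ _).symm.trans ?_
      rw [ev]
      ext j
      fin_cases j <;> simp [hyp, mulVec, dotProduct, a, a'] <;> ring

theorem not_law (hw : w ≠ 1) : ∃ B, ∀ (F : Type) [Field F] [Finite F], LC w SL(2, F) → Nat.card F ≤ B := by
  obtain ⟨k, hk⟩ := (w.toWord.map Prod.fst).toFinset.exists_nat_subset_range
  have hk' : ∀ x ∈ w.toWord, x.1 < k + 1 := fun x hx => (Finset.mem_range.1 (hk (List.mem_toFinset.2 (List.mem_map_of_mem hx)))).trans k.lt_succ_self
  refine ⟨2 * (k + 1) + 3 + w.toWord.length, fun F _ _ h => not_lt.1 fun l => ?_⟩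
  have := Fintype.ofFinite F
  rw [Nat.card_eq_fintype_card] at l
  obtain ⟨e⟩ : Nonempty (Option (Fin (k + 1) × Bool) ↪ F) := Function.Embedding.nonempty_of_card_le (by simp; omega)
  obtain ⟨p, q, c, c0, d1, d2, e1, e2, ev⟩ := ping (fun x => e (some (Fin.ofNat (k + 1) x.1, x.2))) (by simp) (e none) w.toWord
    FreeGroup.isReduced_toWord (fun x hx y hy a => by
      simp only [e.apply_eq_iff_eq, Option.some.injEq, Prod.mk.injEq, Fin.ext_iff, Fin.val_ofNat, Nat.mod_eq_of_lt (hk' x hx),
        Nat.mod_eq_of_lt (hk' y hy)] at a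
      exact Prod.ext a.1 a.2) (by simp)
  have hp : q - C (e none) * p ≠ 0 := fun a => by
    have := congrArg (coeff · w.toWord.length) a
    obtain ⟨x, L, hx⟩ := List.exists_cons_of_ne_nil (mt FreeGroup.toWord_eq_nil_iff.1 hw)
    simp only [coeff_sub, coeff_C_mul, e1, e2, coeff_zero] at this
    simp [hx, mul_comm _ c, ← mul_sub, c0, sub_eq_zero] at this
  refine hp (eq_zero_of_natDegree_lt_card_of_eval_eq_zero _ Function.injective_id (fun t => ?_) (by
    refine lt_of_le_of_lt (b := w.toWord.length) ?_ (by omega); compute_degree; omega))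
  obtain ⟨a, a0, a1⟩ : ∃ a : F, a ≠ 0 ∧ a ^ 2 ≠ 1 := by
    classical
    obtain ⟨a, -, ha⟩ := Finset.exists_mem_notMem_of_card_lt_card (s := {0, 1, -1}) (t := (Finset.univ : Finset F))
      (lt_of_le_of_lt Finset.card_le_three (by simp; omega))
    exact ⟨a, by simp_all, by simp_all [sq_eq_one_iff]⟩
  have top := SL2.commutator_eq_top a0 a1
  have := ev t
  rw [FreeGroup.mk_toWord] at this
  generalize (fun i : ℕ => hyp (F := F) _ t) = f at this
  obtain ⟨r, -, hr⟩ := Matrix.SpecialLinearGroup.mem_center_iff.1 (show FreeGroup.lift f w ∈ _ from mem_center_iff.2 fun g =>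
    (h f (fun i => top.ge (mem_top _)) g (top.ge (mem_top _))).symm.eq)
  rw [← hr] at this
  have a := congrFun this 0
  have b := congrFun this 1
  simp [mulVec_diagonal] at a b
  simp [← a, ← b, mul_comm]

theorem gl_le {k m : ℕ} (h : k ≤ m) : Involves (GL (Fin k) F) (GL (Fin m) F) := by
  obtain ⟨d, rfl⟩ := Nat.exists_eq_add_of_le h
  exact H27.involves_of_injective (Units.map ((reindexAlgEquiv F F finSumFinEquiv).toMulEquiv.toMonoidHom.comp
    ⟨⟨fun A => fromBlocks A 0 0 1, fromBlocks_one⟩, fun A B => by simp [fromBlocks_multiply]⟩))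
    (Units.map_injective fun A B e => (fromBlocks_inj.1 ((reindexAlgEquiv F F finSumFinEquiv).injective e)).1)

theorem bound (hw : w ≠ 1) : ∃ B, (∀ (F : Type) [Field F] [Finite F], LC w SL(2, F) → Nat.card F ≤ B) ∧
    (∀ m, LC w (Equiv.Perm (Fin m)) → m ≤ B) ∧
    ∀ (F : Type) [Field F] [Finite F] (m : ℕ), LC w (GL (Fin m) F) → m ≤ B ∧ (2 ≤ m → Nat.card F ≤ B) := by
  obtain ⟨B, hB⟩ := not_law hw
  have k (m : ℕ) (h : LC w (Equiv.Perm (Fin m))) : m ≤ B + Nat.card SL(2, GaloisField 2 (B + 1)) := not_lt.1 fun l => by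
    have := Fintype.ofFinite SL(2, GaloisField 2 (B + 1))
    obtain ⟨e⟩ : Nonempty (SL(2, GaloisField 2 (B + 1)) ↪ Fin m) :=
      Function.Embedding.nonempty_of_card_le (by rw [← Nat.card_eq_fintype_card, Fintype.card_fin]; omega)
    have := hB _ (h.of_involves (H27.involves_of_injective ((Equiv.Perm.viaEmbeddingHom e).comp (MulAction.toPermHom SL(2, GaloisField 2 (B + 1)) _))
      ((Equiv.Perm.viaEmbeddingHom_injective e).comp MulAction.toPerm_injective)))
    rw [GaloisField.card _ _ B.succ_ne_zero] at this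
    exact absurd (B + 1).lt_two_pow_self (by omega)
  refine ⟨_, fun F _ _ h => (hB F h).trans (Nat.le_add_right _ _), k, fun F _ _ m h => ⟨k m (h.of_involves
    (H27.involves_of_injective (permMatrixHom (R := F)).toHomUnits fun a b e => ?_)), fun l => (hB F (h.of_involves (H27.Inv.trans
      (H27.involves_of_injective _ SpecialLinearGroup.toGL_injective) (gl_le l)))).trans (Nat.le_add_right _ _)⟩⟩
  exact inv_injective (Equiv.ext fun x => Option.some_injective _ (congrArg (· x) (PEquiv.toMatrix_injective (congrArg Units.val e))))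

theorem card_le {ι : Type*} [Fintype ι] [DecidableEq ι] [Finite F] (e : G ≃* X ⧸ center X) (j : X → Matrix ι ι F)
    (hj : Function.Injective j) {b n : ℕ} (hb : Nat.card F ≤ b) (hn : Fintype.card ι ≤ n) : Nat.card G ≤ b ^ (n * n) := by
  have := Finite.of_injective j hj
  rw [Nat.card_congr e.toEquiv]
  refine (Nat.card_le_card_of_surjective _ (QuotientGroup.mk'_surjective _)).trans ((Nat.card_le_card_of_injective j hj).trans ?_)
  rw [Matrix, Nat.card_fun, Nat.card_fun, ← pow_mul, Nat.card_eq_fintype_card (α := ι)]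
  exact (Nat.pow_le_pow_left hb _).trans (Nat.pow_le_pow_right (Nat.card_pos.trans_le hb) (Nat.mul_le_mul hn hn))

variable {σ : F →+* F} {P : FParam σ} {V : Type*} [AddCommGroup V] [Module F V] [FiniteDimensional F V] {S : PForm P V}

theorem involves_res (hS : S.Nondeg) (U : Submodule F V) : Involves (S.restrict U).Isom S.Isom :=
  H27.involves_iff.2 ⟨_, _, hS.resHom_surjective U⟩

theorem involves_GL (hS : S.Nondeg) {m : ℕ} (h : S.HasTS m) : Involves (GL (Fin m) F) S.Isom := by
  obtain ⟨U, hU, h⟩ := h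
  exact H27.Inv.of_equiv (H27.Inv.trans (H27.involves_of_surjective (S.restrict U).Isom.subtype fun a => ⟨⟨a, fun x y =>
    (hU.h_eq (a x).2 (a y).2).trans (hU.h_eq x.2 y.2).symm, fun x => P.Λ.sub_mem (hU.sing _ (a x).2) (hU.sing _ x.2)⟩, rfl⟩)
    (involves_res hS U)) (nonempty_linearEquiv_equiv_GL h).some

theorem orth {ι : Type} [Fintype ι] [DecidableEq ι] {F : Type} [Field F] [Finite F] (Q : QuadraticForm F (ι → F)) (hS : (orthS Q).Nondeg)
    (h5 : 5 ≤ Fintype.card ι) (e : G ≃* POmega F ⇑Q) (h : ∀ f : ℕ → G, FreeGroup.lift f w = 1) {B : ℕ}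
    (hB : ∀ m, LC w (GL (Fin m) F) → m ≤ B ∧ (2 ≤ m → Nat.card F ≤ B)) : Nat.card G ≤ (B ^ 2) ^ ((2 * B + 2) * (2 * B + 2)) := by
  obtain ⟨a, b⟩ := hB _ ((lc_of e h (Omega F ⇑Q).subtype (range_subtype _).ge).of_involves (H27.Inv.trans
    (involves_GL hS (hS.orth_hasTS (k := (Fintype.card ι - 1) / 2) (by simp; omega)))
    (H27.involves_of_surjective (orthEquiv Q).toMonoidHom (orthEquiv Q).surjective)))
  exact card_le e (fun g => g.1.1.1) (fun a b e => Subtype.ext (Subtype.ext (Units.ext e)))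
    ((b (by omega)).trans (Nat.le_self_pow two_ne_zero B)) (by omega)

theorem main (hw : w ≠ 1) : ∃ N : ℕ, ∀ (G : Type*) [Group G], (IsAlternating G ∨ IsPSL G ∨ IsPSp G ∨ IsPSU G ∨ IsPOmegaOdd G ∨
    IsPOmegaPlus G ∨ IsPOmegaMinus G) → (∀ f : ℕ → G, FreeGroup.lift f w = 1) → Nat.card G ≤ N := by
  obtain ⟨B, h1, h2, h3⟩ := bound hw
  refine ⟨B.factorial + (B ^ 2) ^ ((2 * B + 2) * (2 * B + 2)), fun G _ hG h => ?_⟩
  rcases hG with ⟨n, -, ⟨e⟩⟩ | hG
  · refine le_add_right ((Nat.card_congr e.toEquiv).trans_le ((card_le_card_group _).trans ?_))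
    rw [Nat.card_perm, Nat.card_eq_fintype_card, Fintype.card_fin]
    refine Nat.factorial_le (h2 n fun f hf g _ => ?_)
    have hf' := fun i => alternatingGroup.commutator_perm_le (hf i)
    rw [show f = ((alternatingGroup _).subtype.comp e.toMonoidHom) ∘ fun i => e.symm ⟨f i, hf' i⟩ from funext fun i => by simp, ← map_lift,
      h, map_one]
    exact .one_left g
  refine le_add_left ?_
  have hp := Nat.le_self_pow two_ne_zero B
  rcases hG with ⟨F, _, _, n, hn, -, ⟨e⟩⟩ | ⟨F, _, _, n, hn, -, ⟨e⟩⟩ | ⟨F, _, _, n, q, hF, hn, -, ⟨e⟩⟩ | ⟨F, _, _, n, hn, ho, ⟨e⟩⟩ |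
    ⟨F, _, _, n, hn, ⟨e⟩⟩ | ⟨F, _, _, n, a, b, hn, ho, ⟨e⟩⟩
  · obtain ⟨a, b⟩ := h3 F n (lc_of e h SpecialLinearGroup.toGL (H10.commutator_GL_le.trans H10.range_toGL.ge))
    exact card_le e _ Subtype.val_injective ((b hn).trans hp) (by simp; omega)
  · obtain ⟨a, b⟩ := h3 F n ((lc_of e h (spEquiv n F).toMonoidHom (le_top.trans (MonoidHom.range_eq_top.2 (spEquiv n F).surjective).ge)).of_involves
      (involves_GL (stdSymp_nondeg n) ⟨_, (stdSymp_polar n F).ts1, by
        have := (stdSymp_polar n F).finrank_eq (stdSymp_nondeg n)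
        have := Submodule.finrank_add_eq_of_isCompl (stdSymp_polar n F).compl
        simp at this; omega⟩))
    exact card_le e _ Subtype.val_injective ((b hn).trans hp) (by simp; omega)
  · obtain ⟨σ, hq, hσ, hne⟩ := exists_frob hF
    have hS := stdUnit_nondeg hσ hne (Fin n)
    have k : LC w (stdUnit hσ hne (Fin n)).Isom := lc_of e h ((SIsom _).subtype.comp (suEquiv hσ hne hq n).toMonoidHom)
      fun g hg => ⟨(suEquiv hσ hne hq n).symm ⟨g, Abelianization.commutator_subset_ker _ hg⟩, by simp⟩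
    obtain ⟨a, -⟩ := h3 F (n / 2) (k.of_involves (involves_GL hS (hS.unit_exists_ts hne _ (by simp; omega))))
    obtain ⟨u, v, H⟩ := hS.unit_exists_hyp hne (by simp; omega)
    obtain ⟨p, hp⟩ := CharP.exists F
    obtain ⟨r, pp, hr⟩ := FiniteField.card F p
    obtain ⟨s, -, rfl⟩ := (Nat.dvd_prime_pow pp).1 (show q ∣ p ^ (r : ℕ) from hr ▸ hF ▸ dvd_pow_self q two_ne_zero)
    have := Fact.mk pp
    have s0 : s ≠ 0 := by rintro rfl; exact absurd hF (by simpa using Fintype.one_lt_card.ne')
    have := Fintype.ofFinite (GaloisField p s)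
    obtain ⟨i⟩ := H19.Iso.su_two (F := GaloisField p s) (Nat.card_eq_fintype_card.symm.trans (GaloisField.card p s s0)) hF
    have b := h1 _ (k.of_involves (H27.Inv.of_equiv (H27.Inv.subgroup (H27.Inv.of_equiv (involves_res hS _)
      (unit_eqv hne 2 H.nondeg (stdUnit_nondeg hσ hne (Fin 2)) H.finrank_span (by simp)).nonempty_mulEquiv.some) _)
      ((suEquiv hσ hne hq 2).symm.trans i)))
    rw [GaloisField.card p s s0] at b
    exact card_le e (fun g => g.1.1) (fun a b e => Subtype.ext (Subtype.ext e))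
      ((Nat.card_eq_fintype_card.trans hF).trans_le (Nat.pow_le_pow_left b 2)) (by simp; omega)
  · exact orth (qOdd n F) (sOdd_nondeg n (two_ne_zero_iff_odd.2 ho)) (by simp; omega) e h (h3 F)
  · exact orth (qPlus n F) (sPlus_nondeg n F) (by simp; omega) e h (h3 F)
  · exact orth (qMinus _ F a b) (sMinus_nondeg _ ho) (by simp; omega) e h (h3 F)

end H19.Law
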