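import Cfsg.Agent.H2.Nd0

/-! Non-dividing character degrees: the case `L = N' ⊓ M` abelian (`H19.Nd.pA : H2.Nd.AbC`). -/

set_option autoImplicit false

namespace H19.Nd

open Subgroup Cfsg H18 H5 H6 H8 H2.Nd
open scoped commutatorElement

universe u

variable {G : Type u} [Group G] [Finite G] {N M P J L : Subgroup G} {c : G} {p r : ℕ}

theorem fpf (h : Hs N M P c p r) {x y : G} (hx : x ∈ P) (h1 : ⁅x, c⁆ ∉ ⁅N, N⁆) (hy : y ∈ ⁅N, N⁆ ⊓ M)
    (e : x * y = y * x) : y = 1 := by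
  obtain ⟨n, -, hn⟩ := h.cam x (h.sup ▸ mem_sup_right hx) h1 y hy.1
  have a : y ^ orderOf x = 1 := by
    have := congrArg (· ^ orderOf x) hn
    simp only [conj_pow, pow_orderOf_eq_one, mul_one, mul_inv_cancel, (show Commute x y from e).mul_pow,
      one_mul] at this
    exact this.symm
  exact orderOf_eq_one_iff.1 (Nat.eq_one_of_dvd_coprimes (h.piP.coprime h.piM)
    ((orderOf_dvd_of_pow_eq_one a).trans (P.orderOf_dvd_natCard hx)) (M.orderOf_dvd_natCard hy.2))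

theorem inf_der_le (h : Hs N M P c p r) [J.Normal] (h2 : J ≤ N) : M ⊓ ⁅J, J⁆ ≤ ⁅⁅N, N⁆ ⊓ M, J⁆ := by
  have := h.nN
  have := h.nM
  obtain ⟨x, hx, x1⟩ := h.x0
  have ML : ⁅M, N⁆ ≤ ⁅N, N⁆ ⊓ M := le_inf (comm_mono (h.sup ▸ le_sup_left) le_rfl) (commutator_le_left _ _)
  have PN : P ≤ N := h.sup ▸ le_sup_right
  have nr : ∀ {A K : Subgroup G} [K.Normal], A ≤ N(K) := fun {A K} _ => le_normalizer_of_normal
  have n2 : Nrm2 M P := Or.inr nr
  have hM : Hall {p}ᶜ M N := h.sup ▸ hall_of_sup h.piM h.piP.compl_compl n2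
  have hP : Hall {p} P N := h.sup ▸ hall_of_sup' h.piP h.piM n2.symm
  have e : P ⊓ J ⊔ M ⊓ J = J := (hP.inf_nml ⟨h2, nr⟩).sup_compl (hM.inf_nml ⟨h2, nr⟩)
  have cp : ∀ {A : Subgroup G}, A ≤ P → (Nat.card A).Coprime (Nat.card (M ⊓ J : Subgroup G)) := fun a =>
    (h.piP.of_le a).coprime h.piM.inf_left
  have a : ⁅M ⊓ J, P ⊓ J⁆ ≤ ⁅⁅N, N⁆ ⊓ M, J⁆ := by
    rw [← H1.commutator_commutator_eq nr (cp inf_le_left)]
    exact comm_mono ((comm_mono inf_le_left (inf_le_left.trans PN)).trans ML) inf_le_right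
  have b0 : M ⊓ J ≤ (⁅N, N⁆ ⊓ M) ⊔ (M ⊓ J ⊓ C(zpowers x)) :=
    (H1.commutator_sup_centralizer nr (cp (zpowers_le.2 hx)) (.inl (H1.isSolvable_zpowers x))).ge.trans
      (sup_le_sup_right ((comm_mono inf_le_left (zpowers_le.2 (PN hx))).trans ML) _)
  have b : ⁅M ⊓ J, M ⊓ J⁆ ≤ ⁅⁅N, N⁆ ⊓ M, J⁆ := by
    refine (comm_mono b0 le_rfl).trans (comm_sup_le (comm_mono le_rfl inf_le_right) ?_ nr nr)
    refine (comm_mono le_rfl b0).trans (comm_sup_le' (comm_comm.le.trans (comm_mono le_rfl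
      (inf_le_left.trans inf_le_right))) (fun y hy => ?_) nr nr)
    rw [fpf h hx x1 (ML (comm_mono (inf_le_left.trans inf_le_left) ((inf_le_left.trans inf_le_right).trans h2) hy))
      (mem_C.1 (der_le hy).2 x (mem_zpowers x))]
    exact one_mem _
  have d : ⁅M ⊓ J, J⁆ ≤ ⁅⁅N, N⁆ ⊓ M, J⁆ := (comm_mono le_rfl e.ge).trans (comm_sup_le' a b nr nr)
  have KJ : ⁅⁅N, N⁆ ⊓ M, J⁆ ≤ J := commutator_le_right _ _
  have n1 : M ⊓ J ≤ N(⁅⁅N, N⁆ ⊓ M, J⁆ ⊔ P ⊓ J) :=
    norm_of_comm_le (((comm_mono le_rfl (sup_le KJ inf_le_right)).trans d).trans le_sup_left)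
  have n3 : P ⊓ J ≤ N(⁅⁅N, N⁆ ⊓ M, J⁆ ⊔ P ⊓ J) := le_sup_right.trans le_N
  have f : ⁅J, J⁆ ≤ ⁅⁅N, N⁆ ⊓ M, J⁆ ⊔ P ⊓ J := (comm_mono e.ge le_rfl).trans (comm_sup_le
    ((comm_mono le_rfl e.ge).trans (comm_sup_le' (der_le.trans le_sup_right) ((comm_comm.le.trans a).trans le_sup_left)
      n3 n1)) (d.trans le_sup_left) n3 n1)
  intro y hy
  obtain ⟨k, hk, v, hv, rfl⟩ := mem_sup_of_normal_left.1 (f hy.2)
  have : v = 1 := eq_one_of_eq_bot (hP.inf_compl hM) ⟨hv.1, (mul_mem_cancel_left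
    ((commutator_le_left _ _).trans inf_le_right hk)).1 hy.1⟩
  rwa [this, mul_one]

section
variable [L.Normal]

theorem fix_iff (hc : Abel L) (n : G) :
    (∀ lam : L →* ℂˣ, (∀ a, lam (MulAut.conjNormal n a) = lam a) → lam = 1) ↔ ∀ u ∈ L, n * u = u * n → u = 1 := by
  have cm : ∀ a b : L, a * b = b * a := hc.comm.is_comm.comm
  let φ : L →* L := MonoidHom.mk' (fun a => MulAut.conjNormal n a * a⁻¹) fun a b => by
    rw [map_mul, mul_inv_rev, cm b⁻¹, mul_assoc, mul_assoc, ← mul_assoc _ a⁻¹, ← mul_assoc a⁻¹, cm a⁻¹]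
  have φ1 : ∀ a, φ a = MulAut.conjNormal n a * a⁻¹ := fun _ => rfl
  trans Function.Surjective φ
  · refine ⟨fun k g => by_contra fun e => ?_, fun k lam e => MonoidHom.ext fun g => ?_⟩
    · obtain ⟨lam, h1, h2⟩ := exists_lin_ne_one (N := φ.range) (g := g)
        (((commutator_eq_bot_iff _).2 hc.comm).le.trans bot_le) e
      refine h2 (DFunLike.congr_fun (k lam fun a => ?_) g)
      have := h1 _ ⟨a, rfl⟩
      rwa [φ1, map_mul, map_inv, mul_inv_eq_one] at this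
    · obtain ⟨a, rfl⟩ := k g
      rw [φ1, map_mul, map_inv, e, mul_inv_cancel]; rfl
  rw [← Finite.injective_iff_surjective, injective_iff_map_eq_one]
  refine ⟨fun k u hu e => congrArg Subtype.val (k ⟨u, hu⟩ (Subtype.ext ?_)), fun k a e => Subtype.ext (k a a.2 ?_)⟩
  · show n * u * n⁻¹ * u⁻¹ = 1
    rw [e]; group
  · have : n * a * n⁻¹ * (a : G)⁻¹ = 1 := congrArg Subtype.val e
    rwa [mul_inv_eq_one, mul_inv_eq_iff_eq_mul] at this

/-- the stabiliser in `N` of a linear character of `L` -/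
def St (N : Subgroup G) (lam : L →* ℂˣ) : Subgroup G := N ⊓ inertia fun a : L => (lam a : ℂ)

omit [Finite G] in
theorem mem_St {lam : L →* ℂˣ} {g : G} : g ∈ St N lam ↔ g ∈ N ∧ ∀ a, lam (MulAut.conjNormal g a) = lam a :=
  and_congr_right fun _ => mem_inertia'.trans (forall_congr' fun _ => Units.val_inj)

omit [Finite G] in
theorem C_le_St (lam : L →* ℂˣ) : N ⊓ C(L) ≤ St N lam := fun _ hg => mem_St.2 ⟨hg.1, fun a =>
  congrArg lam (Subtype.ext (mul_inv_eq_iff_eq_mul.2 (mem_C.1 hg.2 a a.2).symm))⟩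

variable (h : Hs N M P c p r) (hL : L = ⁅N, N⁆ ⊓ M) (hC : ⁅N, N⁆ ≤ C(L))
include h hL hC

theorem key [Fintype G] [Fintype L] {lam : L →* ℂˣ} (h1 : lam ≠ 1) {χ : G → ℂ} (hχ : IsIrrCharacter G χ)
    (ov : classInner (fun a : L => χ a) (fun a => (lam a : ℂ)) ≠ 0) :
    (St N lam).Normal ∧ (inertia fun a : L => (lam a : ℂ)).index = (St N lam).relIndex N ∧
      charDegree χ = (St N lam).relIndex N ∧ charDegree χ ≠ 1 := by
  have := h.nN
  have nr : ∀ {A K : Subgroup G} [K.Normal], A ≤ N(K) := fun {A K} _ => le_normalizer_of_normal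
  have LN : L ≤ ⁅N, N⁆ := hL ▸ inf_le_left
  have LG : L ≤ commutator G := LN.trans (comm_mono le_top le_top)
  have nk : ¬ L ≤ charKer χ := fun e => h1 (MonoidHom.ext fun a => by
    have := ker_le_of_constituent hχ.isCharacter (isIrrCharacter_hom lam) ov (show a ∈ _ from e a.2)
    rwa [charKer_hom] at this)
  have d1 := (dvd_mul_right _ _).trans (index_inertia_mul_dvd hχ (isIrrCharacter_hom lam) ov)
  have s : N ⊔ (inertia fun a : L => (lam a : ℂ)) = ⊤ := sup_eq_of_coprime_relIndex le_top le_top (by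
    rw [relIndex_top_right, relIndex_top_right]
    exact ((h.cop χ hχ fun e => nk (LN.trans e)).coprime_dvd_left d1).symm)
  have i1 : (inertia fun a : L => (lam a : ℂ)).index = (St N lam).relIndex N := by
    rw [St, inf_relIndex_left, ← Nrm2.relIndex_sup (Or.inr nr), s, relIndex_top_right]
  have nJ : (St N lam).Normal := norm_top_iff.1 (s ▸ sup_le (norm_of_der_le
    ((le_inf der_le hC).trans (C_le_St lam)) inf_le_left) (norm_inf nr le_N))
  have k : ¬ L ≤ ⁅St N lam, St N lam⁆ := fun e => h1 (MonoidHom.ext fun a => by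
    have := inf_der_le h (J := St N lam) inf_le_left ⟨(hL.le a.2).2, e a.2⟩
    rw [← hL] at this
    obtain ⟨b, hb, e1⟩ := comm_le_ker_of_inertia lam inf_le_right this
    rw [← show b = a from Subtype.ext e1]; exact hb)
  obtain ⟨ψ, hψ, k1, k2⟩ : ∃ ψ, IsIrrCharacter G ψ ∧ ⁅St N lam, St N lam⁆ ≤ charKer ψ ∧ ¬ L ≤ charKer ψ := by
    by_contra! e
    exact k (le_of_forall_ker e)
  have d2 := deg_dvd_index_of_comm hψ _ k1
  rw [← relIndex_mul_index (show St N lam ≤ N from inf_le_left)] at d2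
  have d3 := (h.cop ψ hψ fun e => k2 (LN.trans e)).dvd_of_dvd_mul_right d2
  rw [i1] at d1
  have e := h.nd ψ χ hψ hχ ((not_le_ker_iff hψ).1 fun e => k2 (LG.trans e)) (d3.trans d1)
  exact ⟨nJ, i1, Nat.dvd_antisymm (e ▸ d3) d1, (not_le_ker_iff hχ).1 fun e => nk (LG.trans e)⟩

theorem St_eq {lam : L →* ℂˣ} (h1 : lam ≠ 1) : St N lam = N ⊓ C(L) := by
  have := Fintype.ofFinite G
  have := Fintype.ofFinite L
  have ab : Abel L := (hL ▸ inf_le_left : L ≤ ⁅N, N⁆).trans hC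
  have nJ : ∀ {lam : L →* ℂˣ}, lam ≠ 1 → (St N lam).Normal := fun {lam} a =>
    let ⟨_, b, c⟩ := H6.exists_irr_over (isIrrCharacter_hom lam)
    (key h hL hC a b c).1
  have anti : ∀ {lam mu : L →* ℂˣ}, lam ≠ 1 → mu ≠ 1 → St N lam ≤ St N mu → St N lam = St N mu := by
    intro lam mu a b e
    obtain ⟨χ, a1, a2⟩ := H6.exists_irr_over (isIrrCharacter_hom lam)
    obtain ⟨ψ, b1, b2⟩ := H6.exists_irr_over (isIrrCharacter_hom mu)
    obtain ⟨-, -, a3, -⟩ := key h hL hC a a1 a2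
    obtain ⟨-, -, b3, b4⟩ := key h hL hC b b1 b2
    have k := h.nd ψ χ b1 a1 b4 (a3 ▸ b3 ▸ relIndex_dvd_left e)
    have t := relIndex_tower e (show St N mu ≤ N from inf_le_left)
    rw [← a3, ← b3, k] at t
    exact le_antisymm e (relIndex_eq_one.1 (Nat.eq_of_mul_eq_mul_right a1.charDegree_pos (t.trans (one_mul _).symm)))
  have all : ∀ {mu : L →* ℂˣ}, mu ≠ 1 → St N lam = St N mu := fun {mu} h2 => by
    by_contra ne
    have h3 : lam * mu ≠ 1 := fun e => ne (Subgroup.ext fun g => by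
      have : ∀ a, lam a = (mu a)⁻¹ := fun a => eq_inv_of_mul_eq_one_left (DFunLike.congr_fun e a)
      simp only [mem_St, this, inv_inj])
    have fx : ∀ {lam : L →* ℂˣ}, lam ≠ 1 → ∀ t, St N lam ≤ St N (lam.comp (MulAut.conjNormal t).toMonoidHom * lam⁻¹) :=
      fun {lam} a t j hj => mem_St.2 ⟨hj.1, fun b => by
        have e1 := (mem_St.1 ((nJ a).conj_mem j hj t)).2 (MulAut.conjNormal t b)
        have e2 : MulAut.conjNormal (t * j * t⁻¹) (MulAut.conjNormal t b) =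
          MulAut.conjNormal t (MulAut.conjNormal j b) := Subtype.ext (by simp [mul_assoc])
        rw [e2] at e1
        simp [e1, (mem_St.1 hj).2]⟩
    have k : ∀ t ∈ St N (lam * mu), t ∈ St N lam ∧ t ∈ St N mu := fun t ht => by
      have e0 := (mem_St.1 ht).2
      have e1 : mu.comp (MulAut.conjNormal t).toMonoidHom * mu⁻¹ =
          (lam.comp (MulAut.conjNormal t).toMonoidHom * lam⁻¹)⁻¹ := MonoidHom.ext fun a => by
        have := e0 a
        simp only [MonoidHom.mul_apply] at this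
        simp only [MonoidHom.mul_apply, MonoidHom.inv_apply, MonoidHom.comp_apply, MulEquiv.coe_toMonoidHom]
        rw [eq_inv_iff_mul_eq_one, mul_mul_mul_comm, mul_comm (mu _), this, ← mul_inv, mul_comm (mu _), mul_inv_cancel]
      have e2 : lam.comp (MulAut.conjNormal t).toMonoidHom * lam⁻¹ = 1 := by
        by_contra e3
        refine ne ((anti h1 e3 (fx h1 t)).trans ((anti h2 (fun e4 => e3 (MonoidHom.ext fun a =>
          inv_eq_one.1 (DFunLike.congr_fun (e1.symm.trans e4) a))) (fx h2 t)).trans ?_).symm)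
        rw [e1]
        exact Subgroup.ext fun g => by simp only [mem_St, MonoidHom.inv_apply, inv_inj]
      rw [e2] at e1
      exact ⟨mem_St.2 ⟨ht.1, fun a => mul_inv_eq_one.1 (DFunLike.congr_fun e2 a)⟩,
        mem_St.2 ⟨ht.1, fun a => mul_inv_eq_one.1 ((DFunLike.congr_fun e1 a).trans inv_one)⟩⟩
    exact ne ((anti h3 h1 fun t ht => (k t ht).1).symm.trans (anti h3 h2 fun t ht => (k t ht).2))
  refine le_antisymm (le_inf inf_le_left (le_centralizer_of_inertia ab.comm fun θ hθ => ?_)) (C_le_St lam)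
  obtain ⟨mu, rfl⟩ := hθ.exists_hom_of_comm ab.comm.is_comm.comm
  by_cases e : mu = 1
  · subst e; exact fun g _ => mem_inertia'.2 fun _ => rfl
  · exact (all e).le.trans inf_le_right

theorem main (h0 : L ≠ ⊥) : Ab N L := by
  classical
  have := Fintype.ofFinite G
  have := Fintype.ofFinite L
  have := h.nN
  have LN : L ≤ ⁅N, N⁆ := hL ▸ inf_le_left
  have ab : Abel L := LN.trans hC
  obtain ⟨u, hu, u1⟩ := (L.bot_or_exists_ne_one).resolve_left h0
  have un : ∀ χ, IsIrrCharacter G χ → ¬ L ≤ charKer χ →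
      charDegree χ = C(L).relIndex N ∧ ⁅N ⊓ C(L), N ⊓ C(L)⁆ ≤ charKer χ := fun χ hχ e => by
    obtain ⟨θ, hθ, ov⟩ := H6.exists_irr_under (N := L) hχ
    obtain ⟨lam, rfl⟩ := hθ.exists_hom_of_comm ab.comm.is_comm.comm
    have h1 : lam ≠ 1 := fun e1 => e (le_ker_of_constituent le_rfl hχ hθ.isCharacter ov (by
      rw [charKer_hom, e1]; simp))
    obtain ⟨-, k1, k2, -⟩ := key h hL hC h1 hχ ov
    refine ⟨by rw [k2, St_eq h hL hC h1, inf_relIndex_left], ?_⟩
    obtain ⟨ψ, hψ, rfl, -⟩ := corr_surj hθ le_rfl (le_inertia hθ.isClassFunction) hχ ov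
    have d := hχ.coe_charDegree
    rw [k2, ← k1, H6.ind_one] at d
    obtain ⟨mu, rfl⟩ := hψ.isCharacter.exists_hom_of_apply_one (mul_left_cancel₀
      (Nat.cast_ne_zero.2 index_ne_zero_of_finite) (d.symm.trans (mul_one _).symm))
    exact comm_le_ker_ind ((C_le_St lam).trans inf_le_right) mu
  have abC : Abel (N ⊓ C(L)) := comm_eq_bot_iff.1 (eq_bot_iff.2 fun v hv => by_contra fun v1 => by
    have uv : u * v ≠ 1 := fun e => u1 (by
      have := inf_der_le h (J := N ⊓ C(L)) inf_le_left (x := u)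
        ⟨(hL.le hu).2, eq_inv_of_mul_eq_one_left e ▸ Subgroup.inv_mem _ hv⟩
      rwa [← hL, comm_eq_bot_iff.2 (cent_symm inf_le_right), mem_bot] at this)
    have s : ∑ χ : IrrCharacter G, ((χ : G → ℂ) 1 ^ 2 + (χ : G → ℂ) 1 * (χ : G → ℂ) (u * v)) =
        ∑ χ : IrrCharacter G, ((χ : G → ℂ) 1 * (χ : G → ℂ) u + (χ : G → ℂ) 1 * (χ : G → ℂ) v) :=
      Finset.sum_congr rfl fun χ _ => by
        by_cases e : L ≤ charKer (χ : G → ℂ)
        · rw [e hu v, apply_eq_of_mem_charKer (e hu), sq]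
        · have k := (un _ χ.2 e).2 hv
          rw [← mem_C.1 (der_le hv).2 u hu |>.symm, k u, apply_eq_of_mem_charKer k, sq, add_comm]
    rw [Finset.sum_add_distrib, Finset.sum_add_distrib, sum_sq_degrees, sum_degree_mul_apply_of_ne_one uv,
      sum_degree_mul_apply_of_ne_one u1, sum_degree_mul_apply_of_ne_one (mt mem_bot.2 v1)] at s
    simp at s)
  refine ⟨hC, abC, fun n hn u hu u1 e => by_contra fun k => u1 ((fix_iff ab n).1 (fun lam e1 => by_contra fun e2 =>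
    k ((St_eq h hL hC e2).le (mem_St.2 ⟨hn, e1⟩)).2) u hu e), fun χ hχ e => ?_⟩
  obtain ⟨ψ, hψ, k⟩ := exists_irr_not_mem_charKer u1
  have k1 := (un ψ hψ fun e => k (e hu)).1
  have d2 := deg_dvd_index_of_comm hχ (N ⊓ C(L)) (abC.der.le.trans bot_le)
  rw [← relIndex_mul_index (show N ⊓ C(L) ≤ N from inf_le_left), inf_relIndex_left] at d2
  rw [← k1]
  exact h.nd χ ψ hχ hψ ((not_le_ker_iff hχ).1 fun e1 => e ((comm_mono le_top le_top).trans e1))
    (k1 ▸ (h.cop χ hχ e).dvd_of_dvd_mul_right d2)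

end

theorem pA : AbC.{u} := fun _ _ _ _ _ _ _ _ _ h h0 hC =>
  have := h.nN
  have := h.nM
  main h rfl hC h0

end H19.Nd
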