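import Cfsg.Agent.H2.Nd0b

/-! Non-dividing character degrees: the piece `H19.Nd.pF : H2.Nd.PT → H2.Nd.PF`. -/

set_option autoImplicit false

namespace H19.Nd

open Subgroup Cfsg H18 H5 H6 H8 H2.Nd
open scoped commutatorElement

universe u

theorem comm_surj {G : Type*} [Group G] [Finite G] {E : Subgroup G} {t : G} (ht : t ∈ N(E))
    (h : ∀ u ∈ E, t * u = u * t → u = 1) : ∀ e ∈ E, ∃ z ∈ E, e = ⁅t, z⁆ := fun e he => by
  let φ : E → E := fun z => ⟨⁅t, (z : G)⁆, mul_mem (conj_mem_N ht z.2) (inv_mem z.2)⟩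
  have : Function.Injective φ := fun x y k => by
    have k1 : ⁅t, (x : G)⁆ = ⁅t, (y : G)⁆ := congrArg Subtype.val k
    refine Subtype.ext (inv_mul_eq_one.1 (h _ (mul_mem (inv_mem x.2) y.2) ?_))
    calc t * ((x : G)⁻¹ * y) = t * (x : G)⁻¹ * t⁻¹ * ⁅t, (y : G)⁆ * y * t := by
          simp [commutatorElement_def, mul_assoc]
      _ = _ := by rw [← k1]; simp [commutatorElement_def, mul_assoc]
  obtain ⟨z, hz⟩ := Finite.injective_iff_surjective.1 this ⟨e, he⟩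
  exact ⟨z, z.2, (congrArg Subtype.val hz).symm⟩

theorem comm_mem_ker {G : Type*} [Group G] [Finite G] {C : Subgroup G} [nC : C.Normal] {θ : C → ℂ}
    (hθ : IsIrrCharacter C θ) {s z : G} (hs : s ∈ inertia θ) (hz : z ∈ C)
    (h : ∀ w ∈ C, ⁅z, w⁆ ∈ (charKer θ).map C.subtype) : ⁅s, z⁆ ∈ (charKer θ).map C.subtype := by
  obtain ⟨c, c0, hc⟩ : (⟨z, hz⟩ : C) ∈ charCenter θ := hθ.mem_charCenter_iff_commutator.2 fun x => by
    obtain ⟨k, hk, e⟩ := h x x.2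
    rwa [show ⁅(⟨z, hz⟩ : C), x⁆ = k from Subtype.ext e.symm]
  refine ⟨⟨s * z * s⁻¹, nC.conj_mem z hz s⟩ * ⟨z, hz⟩⁻¹, hθ.mem_charKer.2 (mul_left_cancel₀ c0 ?_), rfl⟩
  rw [← hc, ← hc, mul_one, ← mul_assoc, hθ.isClassFunction]
  exact mem_inertia'.1 hs ⟨z, hz⟩

theorem pF (pT : PT.{u}) : PF.{u} := fun G _ _ N Y C Q B S c a q r h ha a1 SY YS aS => by
  have := h.nN
  have := h.nY
  have := h.nC
  have YL : Y ≤ ⁅N, N⁆ := h.YQ.trans (h.sup ▸ le_sup_left)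
  have YC := YL.trans h.LC
  have cY : ∀ {z w : G}, z ∈ C → w ∈ C → ⁅z, w⁆ ∈ Y := fun hz hw => h.CC ▸ commutator_mem_commutator hz hw
  have : (S.subgroupOf C).Normal := ⟨fun s hs g => by
    rw [mem_subgroupOf] at hs ⊢
    have : ((g * s * g⁻¹ : C) : G) = s := mul_inv_eq_iff_eq_mul.2 (mem_C.1 (h.CY g.2) s (SY hs)).symm
    rwa [this]⟩
  obtain ⟨θ, hθ, k1, k2⟩ : ∃ θ, IsIrrCharacter C θ ∧ S.subgroupOf C ≤ charKer θ ∧ ¬ Y.subgroupOf C ≤ charKer θ := by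
    by_contra! e
    exact YS fun y hy => le_of_forall_ker e (show (⟨y, YC hy⟩ : C) ∈ Y.subgroupOf C from hy)
  obtain ⟨β, b1, b2⟩ := exists_lin_ne_one (N := Y.subgroupOf C) (g := ⟨a, h.LC ha⟩)
    (commutator_le.2 fun x _ y _ => cY x.2 y.2) a1
  have hθ' := hθ.mul_hom β
  have kk : ∀ y : C, (y : G) ∈ Y → (y ∈ charKer (θ * fun g => (β g : ℂ)) ↔ y ∈ charKer θ) := fun y hy => by
    rw [hθ.mem_charKer, hθ'.mem_charKer]
    simp [b1 y hy]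
  obtain ⟨t, tN, tC, tY, ti⟩ := pT G N Y C Q B c q r h θ hθ k2
  obtain ⟨t', tN', tC', tY', ti'⟩ := pT G N Y C Q B c q r h _ hθ' fun e => k2 fun y hy => (kk y hy).1 (e hy)
  let E : Subgroup G := ⁅N, N⁆ ⊓ (charCenter θ).map C.subtype
  have mE : ∀ {z : G}, z ∈ E ↔ z ∈ ⁅N, N⁆ ∧ ∀ w ∈ C, ⁅z, w⁆ ∈ (charKer θ).map C.subtype := fun {z} =>
    and_congr_right fun hz => ⟨fun ⟨y, hy, e⟩ w hw => e ▸ ⟨_, hθ.mem_charCenter_iff_commutator.1 hy ⟨w, hw⟩, rfl⟩,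
      fun k => ⟨⟨z, h.LC hz⟩, hθ.mem_charCenter_iff_commutator.2 fun x => by
        obtain ⟨k, hk, e⟩ := k x x.2
        rwa [show ⁅(⟨z, h.LC hz⟩ : C), x⁆ = k from Subtype.ext e.symm], rfl⟩⟩
  have nE : ∀ {s : G}, s ∈ C(Y) → s ∈ N(E) := fun {s} hs => mem_N_of_finite fun z hz => mE.2
    ⟨Normal.conj_mem inferInstance z hz.1 s, fun w hw => by
      have w1 : s⁻¹ * w * s ∈ C := by simpa using h.nC.conj_mem w hw s⁻¹
      have : ⁅s * z * s⁻¹, w⁆ = ⁅z, s⁻¹ * w * s⁆ := by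
        rw [← mul_inv_cancel_right ⁅z, s⁻¹ * w * s⁆ s, mem_C.1 hs _ (cY (h.LC hz.1) w1)]
        simp [commutatorElement_def, mul_assoc]
      rw [this]; exact (mE.1 hz).2 _ w1⟩
  have sj : ∀ {s : G}, s ∈ N → s ∉ C → s ∈ C(Y) → ∀ e ∈ E, ∃ z ∈ E, ∃ y ∈ Y, e = ⁅s, z⁆ * y := fun {s} s1 s2 s3 e he => by
    obtain ⟨_, ⟨z, hz, rfl⟩, k⟩ := comm_surj (E := E.map (QuotientGroup.mk' Y)) (t := QuotientGroup.mk' Y s)
      (le_normalizer_map _ ⟨s, nE s3, rfl⟩) (by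
        rintro _ ⟨v, hv, rfl⟩ k
        rw [← commutatorElement_eq_one_iff_mul_comm, ← map_commutatorElement] at k
        exact (QuotientGroup.eq_one_iff _).2 ((h.srq s s1 v hv.1 ((QuotientGroup.eq_one_iff _).1 k)).resolve_right s2))
      _ ⟨e, he, rfl⟩
    rw [← map_commutatorElement] at k
    exact ⟨z, hz, _, QuotientGroup.eq.1 k.symm, (mul_inv_cancel_left _ _).symm⟩
  have aE : a ∈ E := mE.2 ⟨ha, fun w hw => ⟨⟨_, YC (SY (aS w hw))⟩, k1 (aS w hw), rfl⟩⟩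
  obtain ⟨z', hz', y', hy', e1⟩ := sj tN' tC' tY' a aE
  obtain ⟨z, hz, y, hy, e2⟩ := sj tN tC tY z' hz'
  obtain ⟨u, u1, u2⟩ := comm_mem_ker hθ' (mem_inertia'.2 ti') (h.LC hz'.1) fun w hw =>
    ⟨⟨_, YC (cY (h.LC hz'.1) hw)⟩, (kk _ (cY (h.LC hz'.1) hw)).2 (by
      obtain ⟨k, hk, e⟩ := (mE.1 hz').2 w hw
      rwa [show (⟨_, YC (cY (h.LC hz'.1) hw)⟩ : C) = k from Subtype.ext e.symm]), rfl⟩
  have i1 : t ∈ inertia θ := mem_inertia'.2 ti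
  have i2 : t' * t * t'⁻¹ ∈ inertia θ := by
    rw [show t' * t * t'⁻¹ = ⁅t', t⁆ * t by simp [commutatorElement_def]]
    exact mul_mem (le_inertia hθ.isClassFunction (h.LC (commutator_mem_commutator tN' tN))) i1
  have z1 := conj_mem_N (nE tY') hz
  obtain ⟨v, v1, v2⟩ := mul_mem (comm_mem_ker hθ i2 (h.LC z1.1) (mE.1 z1).2)
    (inv_mem (comm_mem_ker hθ i1 (h.LC hz.1) (mE.1 hz).2))
  obtain rfl : u = v := Subtype.ext (by
    refine u2.trans (Eq.trans ?_ v2.symm)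
    rw [← conjugate_commutatorElement, e2]
    calc _ = t' * ⁅t, z⁆ * (y * t'⁻¹) * y⁻¹ * ⁅t, z⁆⁻¹ := by simp [commutatorElement_def, mul_assoc]
      _ = _ := by rw [mem_C.1 (C(Y).inv_mem tY') y hy]; simp [mul_assoc])
  have f1 := hθ'.mem_charKer.1 u1
  simp only [Pi.mul_apply, hθ.mem_charKer.1 v1, map_one, mul_right_inj' hθ.apply_one_ne_zero, Units.val_inj] at f1
  refine b2 ?_
  rw [show (⟨a, h.LC ha⟩ : C) = u * ⟨y', YC hy'⟩ from Subtype.ext (e1.trans (by rw [← u2]; rfl)), map_mul, f1,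
    b1 ⟨y', YC hy'⟩ hy', mul_one]

end H19.Nd
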