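import Cfsg.Agent.H4.Sq1
import Cfsg.Agent.H17.Comp
import Cfsg.Agent.H13.RankOne
import Cfsg.Agent.H18.Rank

/-! Direct squares of Suzuki groups: the components of `G / O_∞(G)` (`H19.Sq.pD_of : Thr → H4.Sq.PD`). -/

set_option autoImplicit false
universe u

namespace H19.Sq
open Cfsg H18 H13.Sz H4.Sq Subgroup

theorem cls1 {p m n : ℕ} {i : Fin 4} (hp : p.Prime) (h1 : p ∣ cm n 1) (h2 : p ∣ cm m i) : i = 1 := by
  have o : ¬ p ∣ 2 := fun e => by
    obtain rfl := (Nat.prime_dvd_prime_iff_eq hp Nat.prime_two).1 e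
    exact (Nat.not_even_iff_odd.2 odd_cm1) (even_iff_two_dvd.2 h1)
  have k : ¬ p ∣ cm m 2 * cm m 3 := fun e => o (by
    rw [cm23, ← ZMod.natCast_eq_zero_iff] at e
    rw [cm1, ← ZMod.natCast_eq_zero_iff, Nat.cast_sub Nat.one_le_two_pow, sub_eq_zero] at h1
    push_cast at e h1
    have a : (((2 : ZMod p) ^ (2 * m + 1)) ^ 2) ^ (2 * n + 1) = 1 := by
      rw [← pow_mul, ← pow_mul, mul_comm, mul_comm 2 (2 * n + 1), mul_assoc, pow_mul, h1, one_pow]
    rw [eq_neg_of_add_eq_zero_left e, (odd_two_mul_add_one n).neg_one_pow] at a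
    rw [← ZMod.natCast_eq_zero_iff]
    push_cast
    linear_combination -a)
  fin_cases i
  · exact (o (hp.dvd_of_dvd_pow (n := 2) h2)).elim
  · rfl
  · exact (k (h2.mul_right _)).elim
  · exact (k (h2.mul_left _)).elim

theorem dvd_of_cm1 {m n : ℕ} (h : cm n 1 ∣ cm m 1) : 2 * n + 1 ∣ 2 * m + 1 := by
  have a := Nat.pow_sub_one_gcd_pow_sub_one 2 (2 * n + 1) (2 * m + 1)
  rw [cm1, cm1] at h
  rw [Nat.gcd_eq_left h] at a
  have b : 2 ^ (2 * n + 1) = 2 ^ (2 * n + 1).gcd (2 * m + 1) := by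
    have := Nat.one_le_two_pow (n := 2 * n + 1)
    have := Nat.one_le_two_pow (n := (2 * n + 1).gcd (2 * m + 1))
    omega
  rw [Nat.pow_right_injective le_rfl b]
  exact Nat.gcd_dvd_right _ _

section
variable {X : Type*} [Group X] [Finite X] {S : Subgroup X} {F : Type} [Field F] [Fintype F] {n : ℕ} [IsSz F n]

theorem el (e : S ≃* Cfsg.Sz F n) (i : Fin 4) {d : ℕ} (hd : d ∣ cm n i) : ∃ x ∈ S, orderOf x = d := by
  obtain ⟨x, hx⟩ := ord_ex (F := F) i
  refine ⟨(e.symm (x ^ (orderOf x / d)) : S), SetLike.coe_mem _, ?_⟩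
  rw [Subgroup.orderOf_coe, MulEquiv.orderOf_eq, orderOf_pow_orderOf_div (orderOf_pos x).ne' (hx ▸ hd)]

theorem inner (e : S ≃* Cfsg.Sz F n) {g : X} (hg : g ∈ N(S)) {k : ℕ} (hk : g ^ 2 ^ k = 1) :
    ∃ s ∈ S, s⁻¹ * g ∈ C(S) := by
  let f : N(S) →* Out S := (QuotientGroup.mk' _).comp S.normalizerMonoidHom
  have h1 : orderOf (f ⟨g, hg⟩) ∣ 2 * n + 1 := by
    rw [← card_out (F := F), ← H13.card_out_congr e]; exact orderOf_dvd_natCard _
  have h3 : orderOf (f ⟨g, hg⟩) ∣ 2 ^ k := orderOf_dvd_of_pow_eq_one (by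
    rw [← map_pow, show (⟨g, hg⟩ : N(S)) ^ 2 ^ k = 1 from Subtype.ext hk, map_one])
  have h2 : f ⟨g, hg⟩ = 1 := orderOf_eq_one_iff.1 (Nat.eq_one_of_dvd_coprimes
    ((Nat.coprime_two_left.2 (odd_two_mul_add_one n)).pow_left k) h3 h1)
  obtain ⟨s, hs⟩ := (QuotientGroup.eq_one_iff _).1 h2
  refine ⟨s, s.2, mem_C.2 fun x hx => ?_⟩
  have : (s : X) * x * (s : X)⁻¹ = g * x * g⁻¹ := by
    have := congrArg Subtype.val (DFunLike.congr_fun hs (⟨x, hx⟩ : S))
    exact this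
  calc _ = (s : X)⁻¹ * (s * x * (s : X)⁻¹) * g := by group
    _ = _ := by rw [this]; group

end

/-- simple groups of order prime to three are Suzuki groups -/
def Thr : Prop := ∀ (S : Type u) [Group S] [Finite S] [IsSimpleGroup S], ¬ IsMulCommutative S → ¬ 3 ∣ Nat.card S →
  ∃ (F : Type) (_ : Field F) (_ : Fintype F) (m : ℕ) (_ : IsSz F m), Nonempty (S ≃* Cfsg.Sz F m)

theorem semi (thr : Thr.{u}) {m : ℕ} {X : Type u} [Group X] [Finite X] (h : Ok m X)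
    (h0 : ∀ W : Subgroup X, W.Normal → Solv W → W = ⊥) :
    ∃ (ι : Type u) (_ : Finite ι) (F : ι → Type) (_ : ∀ i, Field (F i)) (_ : ∀ i, Fintype (F i)) (n : ι → ℕ)
    (_ : ∀ i, IsSz (F i) (n i)) (φ : ∀ i, X →* MulAut (Cfsg.Sz (F i) (n i))), Nat.card ι ≤ 2 ∧
    (∀ g, (∀ i, φ i g = 1) → g = 1) ∧
    (∀ s : ∀ i, Cfsg.Sz (F i) (n i), ∃ g, ∀ i, φ i g = MulAut.conj (s i)) ∧ ∀ i, 2 * n i + 1 ∣ 2 * m + 1 := by
  classical
  have f0 : H17.fit (⊤ : Subgroup X) = ⊥ := h0 _ (norm_top_iff.1 (H17.le_normalizer_fit ⊤))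
    (Nil.solv (H17.fit_nilpotent ⊤))
  have g0 : H17.gfit (⊤ : Subgroup X) = H17.lay ⊤ := by rw [H17.gfit_eq, f0, sup_bot_eq]
  have c0 : C(H17.lay (⊤ : Subgroup X)) = ⊥ := by
    have := H17.centralizer_gfit_le_fit (⊤ : Subgroup X)
    rwa [g0, f0, top_inf_eq, le_bot_iff] at this
  have z0 : ∀ {S : Subgroup X}, H17.IsComp S ⊤ → S ⊓ C(S) = ⊥ := fun hS =>
    le_bot_iff.1 (f0 ▸ hS.subn.inf_centralizer_le_fit)
  have iso : ∀ S : {S : Subgroup X // H17.IsComp S ⊤}, ∃ (F : Type) (_ : Field F) (_ : Fintype F) (m : ℕ)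
      (_ : IsSz F m), Nonempty (S.1 ≃* Cfsg.Sz F m) := fun ⟨S, hS⟩ => by
    have : Nontrivial S := (nontrivial_iff_ne_bot S).2 hS.ne_bot
    have : IsSimpleGroup S := ⟨fun W hW => by
      rcases H17.qs_normal hS.qs (map_subtype_le W) (H17.le_normalizer_map_subtype hW) with e | e
      · exact .inr (map_injective S.subtype_injective (by rw [e, ← MonoidHom.range_eq_map, range_subtype]))
      · exact .inl (map_injective S.subtype_injective (by
          rw [Subgroup.map_bot]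
          exact le_bot_iff.1 (z0 hS ▸ le_inf (map_subtype_le W) (comm_eq_bot_iff.1 e))))⟩
    refine thr S (fun c => H17.qs_not_le_centralizer hS.qs (abel_of_comm c)) fun c => ?_
    have := Fact.mk Nat.prime_three
    obtain ⟨x, hx⟩ := exists_prime_orderOf_dvd_card' 3 c
    obtain ⟨i, hi⟩ := (h.sub S).cls Nat.prime_three hx.symm.dvd
    exact not_three_cm i hi
  choose F i1 i2 n i3 he using iso
  replace he := fun i => (he i).some
  have cc : ∀ {S T : Subgroup X}, H17.IsComp S ⊤ → H17.IsComp T ⊤ → S ≠ T → S ≤ C(T) := fun a b ne =>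
    comm_eq_bot_iff.1 ((a.eq_or_commutator b).resolve_left ne)
  have cjc : ∀ {S : Subgroup X}, H17.IsComp S ⊤ → ∀ g, H17.IsComp (H18.cj g S) ⊤ := fun a g =>
    a.cj_of_mem_normalizer (by simp)
  have d1 : ∀ i, cm (n i) 1 ∣ cm m 1 := fun i => by
    obtain ⟨x, -, hx⟩ := el (he i) 1 dvd_rfl
    refine h.over hx.symm.dvd fun p hp k => ?_
    obtain ⟨j, hj⟩ := h.cls hp (hx ▸ k)
    exact cls1 hp k hj ▸ hj
  have two : ∀ R S T : {S : Subgroup X // H17.IsComp S ⊤}, R ≠ S → R ≠ T → S ≠ T → False := fun R S T a b c => by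
    have p5 : Nat.Prime 5 := by norm_num
    obtain ⟨x, hx, ox⟩ := el (he R) 0 (show 2 ∣ 4 by decide)
    obtain ⟨y, hy, oy⟩ : ∃ y ∈ S.1, orderOf y = 5 :=
      ((p5.dvd_mul).1 (five_cm (m := n S))).elim (el (he S) 2) (el (he S) 3)
    obtain ⟨s, hs, ds⟩ : ∃ s, s.Prime ∧ s ∣ cm (n T) 1 := Nat.exists_prime_and_dvd (by
      have := Nat.pow_le_pow_right two_pos (show 3 ≤ 2 * n T + 1 by have := (i3 T).hm; omega)
      rw [cm1]; omega)
    obtain ⟨z, hz, oz⟩ := el (he T) 1 ds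
    have k : ∀ j : Fin 4, 0 ≠ j → j ≠ 1 → ¬ 5 ∣ cm m j := fun j j0 j1 j2 =>
      h.tri' (i := 0) (j := j) (k := 1) (ox ▸ Nat.prime_two) (oy ▸ p5) (oz ▸ hs) (ox ▸ show 2 ∣ 4 by decide)
        (oy ▸ j2) (oz ▸ ds.trans (d1 T)) j0 (by decide) j1
        (comm_of_cent (cc R.2 S.2 (Subtype.coe_ne_coe.2 a)) hx hy)
        (comm_of_cent (cc R.2 T.2 (Subtype.coe_ne_coe.2 b)) hx hz)
        (comm_of_cent (cc S.2 T.2 (Subtype.coe_ne_coe.2 c)) hy hz)
    exact ((p5.dvd_mul).1 (five_cm (m := m))).elim (k 2 (by decide) (by decide)) (k 3 (by decide) (by decide))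
  have sq : ∀ (S : {S : Subgroup X // H17.IsComp S ⊤}) (g : X), g ^ 2 ∈ N(S.1) := fun S g => by
    by_contra c
    have c1 : H18.cj g S.1 ≠ S.1 := fun e => c (pow_mem (mem_N_iff_cj.2 e) 2)
    refine two S ⟨_, cjc S.2 g⟩ ⟨_, cjc (cjc S.2 g) g⟩ (fun e => c1 (congrArg Subtype.val e).symm)
      (fun e => c ?_) fun e => c1 (cj_inj.1 (congrArg Subtype.val e)).symm
    rw [mem_N_iff_cj, pow_two, cj_mul]; exact (congrArg Subtype.val e).symm
  have od : ∀ (S : {S : Subgroup X // H17.IsComp S ⊤}) (g : X) (k : ℕ), g ^ (2 * k + 1) ∈ N(S.1) → g ∈ N(S.1) :=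
    fun S g k e => by
      rw [pow_succ, pow_mul] at e
      exact (mul_mem_cancel_left (pow_mem (sq S g) k)).1 e
  have all : ∀ S : {S : Subgroup X // H17.IsComp S ⊤}, S.1.Normal := fun S => norm_top_iff.1 fun g0 _ => by
    obtain ⟨k, j, oj, ej⟩ := Nat.exists_eq_two_pow_mul_odd (orderOf_pos g0).ne'
    obtain ⟨j, rfl⟩ := oj
    refine od S g0 j ?_
    have hg : ((g0 ^ (2 * j + 1)) ^ 2) ^ 2 ^ k = 1 := by
      rw [← pow_mul, ← pow_mul, mul_comm 2 (2 ^ k), ← mul_assoc, mul_comm _ (2 ^ k), ← ej, pow_mul,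
        pow_orderOf_eq_one, one_pow]
    generalize g0 ^ (2 * j + 1) = g at hg
    by_contra c
    have ST := cc (cjc S.2 g) S.2 fun e => c (mem_N_iff_cj.2 e)
    obtain ⟨a, ha, hb⟩ := inner (he S) (sq S g) hg
    obtain ⟨w, hw, ow⟩ := el (he S) 0 dvd_rfl
    set x := w * a⁻¹
    have hx : x ∈ S.1 := S.1.mul_mem hw (S.1.inv_mem ha)
    have hy : g * x * g⁻¹ ∈ C(S.1) := ST (conj_mem_cj hx)
    have sq' : (x * g) ^ 2 = w * (g * x * g⁻¹ * (a⁻¹ * g ^ 2)) := by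
      calc _ = x * (g * x * g⁻¹ * a) * (a⁻¹ * g ^ 2) := by rw [pow_two, pow_two]; group
        _ = _ := by rw [← mem_C.1 hy a ha]; simp only [x]; group
    have hz := mul_mem hy hb
    rcases Nat.even_or_odd' (orderOf (x * g)) with ⟨k, hk | hk⟩
    · have p1 := pow_orderOf_eq_one (x * g)
      rw [hk, pow_mul, sq', Commute.mul_pow (mem_C.1 hz w hw), mul_eq_one_iff_eq_inv] at p1
      have p2 : w ^ k = 1 := eq_one_of_eq_bot (z0 S.2) ⟨pow_mem hw k, p1 ▸ C(S.1).inv_mem (pow_mem hz k)⟩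
      obtain ⟨j, rfl⟩ := ow ▸ orderOf_dvd_of_pow_eq_one p2
      exact h.not_eight (x * g) ⟨j, by rw [hk, cm0]; ring⟩
    · exact c ((mul_mem_cancel_left (le_N hx)).1 (od S _ k (hk ▸ pow_orderOf_eq_one (x * g) ▸ one_mem _)))
  let φ : ∀ i : {S : Subgroup X // H17.IsComp S ⊤}, X →* MulAut (Cfsg.Sz (F i) (n i)) := fun i =>
    (MulAut.congr (he i)).toMonoidHom.comp MulAut.conjNormal
  have φ1 : ∀ i g, φ i g = 1 ↔ g ∈ C(i.1) := fun i g => by
    refine (MulAut.congr (he i)).map_eq_one_iff.trans ⟨fun e => mem_C.2 fun x hx => ?_, fun e => ?_⟩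
    · have := congrArg Subtype.val (DFunLike.congr_fun e (⟨x, hx⟩ : i.1))
      exact (mul_inv_eq_iff_eq_mul.1 this).symm
    · ext x
      exact mul_inv_eq_iff_eq_mul.2 (mem_C.1 e x x.2).symm
  have φ2 : ∀ i s, φ i ((he i).symm s : i.1) = MulAut.conj s := fun i s => by
    ext1 x
    show he i (MulAut.conjNormal (((he i).symm s : i.1) : X) ((he i).symm x)) = _
    rw [MulAut.conjNormal_val]
    simp
  refine ⟨_, inferInstance, F, i1, i2, n, i3, φ, ?_, fun g hg => ?_, fun s => ?_, fun i => dvd_of_cm1 (d1 i)⟩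
  · have := Fintype.ofFinite {S : Subgroup X // H17.IsComp S ⊤}
    rw [Nat.card_eq_fintype_card]
    by_contra c
    obtain ⟨R, S, T, a, b, c⟩ := Fintype.two_lt_card_iff.1 (not_le.1 c)
    exact two R S T a b c
  · rw [← mem_bot, ← c0]
    exact cent_symm (H17.lay_le_iff.2 fun S hS => cent_symm (zpowers_le.2 ((φ1 ⟨S, hS⟩ g).1 (hg _))))
      (mem_zpowers g)
  · have := Fintype.ofFinite {S : Subgroup X // H17.IsComp S ⊤}
    have k : ∀ t : Finset {S : Subgroup X // H17.IsComp S ⊤}, ∃ g, ∀ i,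
        φ i g = if i ∈ t then MulAut.conj (s i) else 1 := fun t => by
      induction t using Finset.induction_on with
      | empty => exact ⟨1, by simp⟩
      | insert j t hj ih =>
        obtain ⟨g, hg⟩ := ih
        refine ⟨g * ((he j).symm (s j) : j.1), fun i => ?_⟩
        rw [map_mul, hg]
        by_cases e : i = j
        · subst e; simp [hj, φ2]
        · rw [(φ1 i _).2 (cc j.2 i.2 (Subtype.coe_ne_coe.2 (Ne.symm e)) (SetLike.coe_mem _))]
          simp [e]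
    simpa using k Finset.univ

theorem pD_of (thr : Thr.{u}) : PD.{u} := fun {m G} _ _ h => by
  obtain ⟨K, -, ⟨nK, sK⟩, mx⟩ := exists_maximal_sub (fun K : Subgroup G => K.Normal ∧ Solv K)
    (A := ⊥) ⟨inferInstance, solv_bot⟩
  have sj := QuotientGroup.mk'_surjective K
  obtain ⟨ι, i0, F, i1, i2, n, i3, φ, h1, h2, h3, h4⟩ := semi thr (h.quot K) fun W nW sW => by
    have le : K ≤ W.comap (QuotientGroup.mk' K) := fun x hx => by
      rw [mem_comap, QuotientGroup.mk'_apply, (QuotientGroup.eq_one_iff _).2 hx]; exact one_mem _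
    have := mx (W.comap (QuotientGroup.mk' K)) ⟨inferInstance,
      Group.isSolvable_of_ker_le_range (inclusion le) ((QuotientGroup.mk' K).subgroupComap W) fun x hx =>
        ⟨⟨x, (QuotientGroup.eq_one_iff _).1 (congrArg Subtype.val hx)⟩, rfl⟩⟩ le
    rw [← map_comap_eq_self_of_surjective sj W, this]
    exact (Subgroup.map_eq_bot_iff _).2 (QuotientGroup.ker_mk' K).ge
  refine ⟨ι, i0, F, i1, i2, n, i3, fun i => (φ i).comp (QuotientGroup.mk' K), h1,
    sK.of_le fun g hg => (QuotientGroup.eq_one_iff _).1 (h2 _ fun i => mem_iInf.1 hg i), fun s => ?_, h4⟩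
  obtain ⟨g, hg⟩ := h3 s
  obtain ⟨g, rfl⟩ := sj g
  exact ⟨g, hg⟩

end H19.Sq
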