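import Cfsg.Agent.H19.Iso
import Cfsg.Agent.H10.DicksonCount

/-! `PSU₃(2) = 3² : Q₈` (`psu32`), the field with four elements (`exists_ω`). -/

set_option autoImplicit false

namespace H19.U32
open Matrix Subgroup Cfsg
open scoped MatrixGroups

variable {F : Type*} [Field F] [Fintype F]

theorem exists_ω (hF : Fintype.card F = 4) : (2 : F) = 0 ∧ ∃ ω : F, ω ^ 2 + ω + 1 = 0 := by
  classical
  refine ⟨pow_eq_zero_iff two_ne_zero |>.1 (by
    have := FiniteField.cast_card_eq_zero F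
    rw [hF] at this
    linear_combination (norm := (push_cast; ring)) this), ?_⟩
  obtain ⟨ω, h⟩ : ∃ ω : F, ω ∉ ({0, 1} : Finset F) := by
    by_contra! h
    have := (Finset.card_le_card (show Finset.univ ⊆ _ from fun x _ => h x)).trans Finset.card_le_two
    simp [hF] at this
  simp only [Finset.mem_insert, Finset.mem_singleton, not_or] at h
  have := FiniteField.pow_card_sub_one_eq_one ω h.1
  rw [hF] at this
  exact ⟨ω, mul_left_cancel₀ (sub_ne_zero.2 h.2) (by linear_combination this)⟩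

theorem abs {G : Type*} [Group G] [Finite G] (hc : Nat.card G = 72) {a b i j : G} (i4 : i ^ (2 * 2) = 1) (r2 : j * j = i ^ 2)
    (ji : j * i * j⁻¹ = i⁻¹) (i2 : i ^ 2 ≠ 1) (oa : orderOf a = 3) (ob : orderOf b = 3) (hb : b ∉ zpowers a) (ab : Commute a b)
    (r6 : i * a = b * i) (r7 : i * b = a * a * i) (r8 : j * a = a * a * b * j) (r9 : j * b = a * b * j) :
    ∃ (N : Subgroup G) (_ : N.Normal), Nat.card N = 9 ∧ (∀ x ∈ N, x ^ 3 = 1) ∧ Nonempty (G ⧸ N ≃* QuaternionGroup 2) := by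
  let ψ := H10.quaternionHom j i i4 r2 ji
  have hψ : Function.Injective ψ := (injective_iff_map_eq_one _).2 fun x hx => by_contra fun e => i2 (by
    rcases (by decide : ∀ x : QuaternionGroup 2, x ≠ 1 → x = .a 2 ∨ x ^ 2 = .a 2) x e with h | h
    · exact (congrArg ψ h).symm.trans hx
    · exact (congrArg ψ h).symm.trans (by rw [map_pow, hx, one_pow]))
  have cm : ∀ (x : zpowers a) (y : zpowers b), Commute x.1 y.1 := by
    rintro ⟨_, k, rfl⟩ ⟨_, l, rfl⟩; exact ab.zpow_zpow k l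
  let θ := (zpowers a).subtype.noncommCoprod (zpowers b).subtype cm
  have hθ : Function.Injective θ := (MonoidHom.noncommCoprod_injective _ _ _).2 ⟨Subtype.val_injective, Subtype.val_injective, by
    rw [range_subtype, range_subtype]
    have := Fact.mk (show (Nat.card (zpowers b)).Prime by rw [Nat.card_zpowers, ob]; decide)
    exact ((zpowers a).subgroupOf (zpowers b)).eq_bot_or_eq_top_of_prime_card.elim subgroupOf_eq_bot.1 fun h =>
      (hb (subgroupOf_eq_top.1 h (mem_zpowers _))).elim⟩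
  have cN : Nat.card θ.range = 9 := by
    rw [← Nat.card_congr (MonoidHom.ofInjective hθ).toEquiv, Nat.card_prod, Nat.card_zpowers, Nat.card_zpowers, oa, ob]
  have cQ : Nat.card ψ.range = 8 := by
    rw [← Nat.card_congr (MonoidHom.ofInjective hψ).toEquiv, Nat.card_eq_fintype_card, QuaternionGroup.card]
  have hN : θ.range = closure {a, b} := (MonoidHom.noncommCoprod_range _ _ cm).trans <| by
    rw [range_subtype, range_subtype, zpowers_eq_closure, zpowers_eq_closure, ← Subgroup.closure_union]; rfl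
  have ma : a ∈ θ.range := hN ▸ subset_closure (by simp)
  have mb : b ∈ θ.range := hN ▸ subset_closure (by simp)
  have nm : ∀ g, (∃ x ∈ θ.range, g * a = x * g) → (∃ x ∈ θ.range, g * b = x * g) → g ∈ normalizer (θ.range : Set G) :=
    fun g ⟨x, x1, x2⟩ ⟨y, y1, y2⟩ => mem_normalizer_fintype fun n hn => by
    have : θ.range ≤ θ.range.comap (MulAut.conj g).toMonoidHom := hN.le.trans ((closure_le _).2 (by
      rintro _ (rfl | rfl)
      · simpa [x2] using x1
      · simpa [y2] using y1))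
    exact this hn
  have ni := nm i ⟨_, mb, r6⟩ ⟨_, mul_mem ma ma, r7⟩
  have nj := nm j ⟨_, mul_mem (mul_mem ma ma) mb, r8⟩ ⟨_, mul_mem ma mb, r9⟩
  have hQ : ψ.range ≤ normalizer (θ.range : Set G) := by
    rintro _ ⟨k | k, rfl⟩
    exacts [pow_mem ni _, mul_mem nj (pow_mem ni _)]
  have : θ.range.Normal := normalizer_eq_top_iff.1 (eq_top_of_card_eq _ (Nat.dvd_antisymm (card_subgroup_dvd_card _) (by
    rw [hc]
    exact Nat.Coprime.mul_dvd_of_dvd_of_dvd (m := 8) (n := 9) (by decide) (cQ ▸ card_dvd_of_le hQ) (cN ▸ card_dvd_of_le le_normalizer))))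
  refine ⟨θ.range, this, cN, ?_, ⟨(isComplement'_of_coprime (H := ψ.range) (by rw [cQ, cN, hc]) (by rw [cQ, cN]; decide)).QuotientMulEquiv.trans
    (MonoidHom.ofInjective hψ).symm⟩⟩
  rintro _ ⟨x, rfl⟩
  rw [← map_pow, show x ^ 3 = 1 from Prod.ext (by simpa [oa] using pow_card_eq_one' (x := x.1)) (by simpa [ob] using pow_card_eq_one' (x := x.2)),
    map_one]

theorem gens (hF : Fintype.card F = 4) : ∃ a b i j z : SU 3 F 2, z ∈ center (SU 3 F 2) ∧ (a * b ≠ b * a ∧ i * i * a ≠ a * (i * i)) ∧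
    i * i * (i * i) = 1 ∧ j * j = i * i ∧ i * (j * i) = j ∧ a * a * a = 1 ∧ b * b * b = 1 ∧ i * a = b * i ∧ i * b = a * a * i ∧
      j * a = a * a * b * z * j ∧ j * b = a * b * z * z * j ∧ b * a = a * b * z := by
  obtain ⟨h2, ω, hω⟩ := exists_ω hF
  obtain ⟨σ, hq, -, -⟩ := H11.exists_frob (q := 2) hF
  have mk : ∀ M : Matrix (Fin 3) (Fin 3) F, M.det = 1 → (M.map σ)ᵀ * M = 1 → ∃ g : SU 3 F 2, g.1.1 = M := fun M a b =>
    ⟨⟨⟨M, a⟩, (Iso.mem_SU hq).2 b⟩, rfl⟩
  have ext : ∀ {g h : SU 3 F 2}, g = h ↔ g.1.1 = h.1.1 := ⟨fun h => by rw [h], fun h => Subtype.ext (Subtype.ext h)⟩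
  have mul : ∀ g h : SU 3 F 2, (g * h).1.1 = g.1.1 * h.1.1 := fun _ _ => rfl
  have one : (1 : SU 3 F 2).1.1 = !![1, 0, 0; 0, 1, 0; 0, 0, 1] := one_fin_three
  obtain ⟨a, ha⟩ := mk !![1, 0, 0; 0, ω, 0; 0, 0, ω ^ 2] (by simp [det_fin_three]; grind) (by
    ext i j; fin_cases i <;> fin_cases j <;> simp [mul_apply, Fin.sum_univ_three, hq] <;> grind)
  obtain ⟨b, hb⟩ := mk !![0, 1, 0; 0, 0, 1; 1, 0, 0] (by simp [det_fin_three]) (by
    ext i j; fin_cases i <;> fin_cases j <;> simp [mul_apply, Fin.sum_univ_three, hq])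
  obtain ⟨i, hi⟩ := mk !![1, 1, 1; 1, ω, ω ^ 2; 1, ω ^ 2, ω] (by simp [det_fin_three]; grind) (by
    ext i j; fin_cases i <;> fin_cases j <;> simp [mul_apply, Fin.sum_univ_three, hq] <;> grind)
  obtain ⟨j, hj⟩ := mk !![1, ω, ω; ω ^ 2, ω, ω ^ 2; ω ^ 2, ω ^ 2, ω] (by simp [det_fin_three]; grind) (by
    ext i j; fin_cases i <;> fin_cases j <;> simp [mul_apply, Fin.sum_univ_three, hq] <;> grind)
  obtain ⟨z, hz⟩ := mk !![ω, 0, 0; 0, ω, 0; 0, 0, ω] (by simp [det_fin_three]; grind) (by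
    ext i j; fin_cases i <;> fin_cases j <;> simp [mul_apply, Fin.sum_univ_three, hq] <;> grind)
  refine ⟨a, b, i, j, z, mem_center_iff.2 fun g => ext.2 (by
    rw [mul, mul, hz]; ext i j; fin_cases i <;> fin_cases j <;> simp [mul_apply, Fin.sum_univ_three, mul_comm]), ?_⟩
  simp only [Ne, ext, mul, one, ha, hb, hi, hj, hz, mul_fin_three, EmbeddingLike.apply_eq_iff_eq, vecCons_inj, and_true]
  refine ⟨⟨?_, ?_⟩, ?_, ?_, ?_, ?_, ?_, ?_, ?_, ?_, ?_, ?_⟩ <;> grind

theorem psu32 (hF : Fintype.card F = 4) : Nat.card (PSU 3 F 2) = 72 ∧ ∃ (N : Subgroup (PSU 3 F 2)) (_ : N.Normal), Nat.card N = 9 ∧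
    (∀ x ∈ N, x ^ 3 = 1) ∧ Nonempty (PSU 3 F 2 ⧸ N ≃* QuaternionGroup 2) := by
  have hc : Nat.card (PSU 3 F 2) = 72 := by
    have := Cfsg.Agent.S0280.result (q := 2) hF 3 (by simp)
    simp [Finset.prod_range_succ] at this
    omega
  obtain ⟨a, b, i, j, z, hz, ⟨n1, n2⟩, r1, r2, r3, r4, r5, r6, r7, r8, r9, r0⟩ := gens hF
  let π := QuotientGroup.mk' (center (SU 3 F 2))
  have πz : π z = 1 := (QuotientGroup.eq_one_iff _).2 hz
  have nc : ∀ g h : SU 3 F 2, π g = 1 → h * g = g * h := fun g h e => mem_center_iff.1 ((QuotientGroup.eq_one_iff _).1 e) h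
  refine ⟨hc, abs hc (a := π a) (b := π b) (i := π i) (j := π j) (by rw [← map_pow, pow_mul, sq, sq, r1, map_one])
    (by rw [← map_mul, r2, map_mul, sq]) (by rw [mul_inv_eq_iff_eq_mul, eq_inv_mul_iff_mul_eq, ← map_mul, ← map_mul, r3])
    (fun e => n2 (nc _ a (by rwa [map_mul, ← sq])).symm)
    (orderOf_eq_prime (by rw [← map_pow, pow_three', r4, map_one]) fun e => n1 (nc _ b e).symm)
    (orderOf_eq_prime (by rw [← map_pow, pow_three', r5, map_one]) fun e => n1 (nc _ a e)) (fun ⟨k, hk⟩ => n1 ?_)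
    (by rw [commute_iff_eq, ← map_mul π b, r0, map_mul, πz, mul_one, map_mul]) (by rw [← map_mul, r6, map_mul])
    (by rw [← map_mul, r7, map_mul, map_mul]) (by rw [← map_mul, r8, map_mul, map_mul, πz, mul_one, map_mul, map_mul])
    (by rw [← map_mul, r9, map_mul, map_mul, map_mul, πz, mul_one, mul_one, map_mul])⟩
  have := nc ((a ^ k)⁻¹ * b) a (by rw [map_mul, map_inv, map_zpow, ← hk, inv_mul_cancel])
  rwa [← mul_assoc, ((Commute.refl a).zpow_right k).inv_right.eq, mul_assoc, mul_assoc, mul_right_inj] at this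

end H19.U32
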